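import Cfsg.Agent.N2.Cl.D4.Core
import Cfsg.Agent.H198.TriBase
import Cfsg.Agent.LieRecognition.FieldSemilinear

/-!
# N2 (S3519), `PΩ₈⁺(q)` with triality: `boxCen` (helper85)

`D` is the centraliser of `N` in the automorphism group; `θ` is the action on the three cosets of the range of `Psi`.
-/

set_option autoImplicit false
set_option linter.unusedSectionVars false

namespace Cfsg.Agent.N2C.D4

open QuadraticMap Module Cfsg.Agent.LieClassical.QuadForms Cfsg.Agent.LieClassical.OrthCore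
  Cfsg.Agent.LieClassical.OrthTrans Cfsg.Agent.ClassicalGeometry.OrthSemi Cfsg.Agent.ClassicalGeometry.OrthAut1
  Cfsg.Agent.ClassicalGeometry.TrialityOct Cfsg.Agent.ClassicalGeometry.Triality
  Cfsg.Agent.H989.OutOrth.Basic Cfsg.Agent.H989.OutOrth.Tri Cfsg.Agent.SB.D4
open Cfsg.Agent.H198.TriBase (T1 TriS mem_S1)

namespace Cen

set_option synthInstance.maxSize 2000 in
theorem s3 : ∀ (o : Fin 3) (s t : Equiv.Perm (Fin 3)), s o = o → s ≠ 1 → t o ≠ o →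
    (s * (t * s * t⁻¹)) ^ 3 = 1 ∧ (s * (t * s * t⁻¹)) o ≠ o ∧ s * (s * (t * s * t⁻¹)) * s⁻¹ * (s * (t * s * t⁻¹)) = 1 ∧
      ∀ g : Equiv.Perm (Fin 3), g⁻¹ * (s * (t * s * t⁻¹)) * g * (s * (t * s * t⁻¹))⁻¹ = 1 ∨
        g⁻¹ * (s * (t * s * t⁻¹)) * g * (s * (t * s * t⁻¹)) = 1 := by
  decide +kernel

/-- the action on three cosets -/
theorem exists_act {G : Type*} [Group G] {R : Subgroup G} (h : R.index = 3) :
    ∃ (θ : G →* Equiv.Perm (Fin 3)) (o : Fin 3), ∀ g, θ g o = o ↔ g ∈ R := by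
  have : Finite (G ⧸ R) := Nat.finite_of_card_ne_zero (by rw [← Subgroup.index, h]; norm_num)
  let e : G ⧸ R ≃ Fin 3 := Finite.equivFinOfCardEq h
  refine ⟨e.permCongrHom.toMonoidHom.comp (MulAction.toPermHom G (G ⧸ R)), e ((1 : G) : G ⧸ R), fun g => ?_⟩
  change e (g • e.symm (e _)) = e _ ↔ _
  rw [e.symm_apply_apply, e.injective.eq_iff, eq_comm]
  change ((1 : G) : G ⧸ R) = ((g * 1 : G) : G ⧸ R) ↔ _
  rw [QuotientGroup.eq, inv_one, one_mul, mul_one]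

theorem mem_zpowers {C : Type*} [Group C] [Finite C] [IsCyclic C] {a b : C} {r : ℕ} (hr : r.Prime) (ha : a ≠ 1)
    (h1 : a ^ r = 1) (h2 : b ^ r = 1) : b ∈ Subgroup.zpowers a := by
  classical
  have := Fintype.ofFinite C
  have : Fact r.Prime := ⟨hr⟩
  have h3 := IsCyclic.card_pow_eq_one_le (α := C) hr.pos
  have h4 : (Subgroup.zpowers a : Set C).toFinset = Finset.univ.filter fun x : C => x ^ r = 1 := by
    refine Finset.eq_of_subset_of_card_le (fun x hx => ?_) (h3.trans (le_of_eq ?_))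
    · obtain ⟨k, rfl⟩ := Set.mem_toFinset.1 hx
      refine Finset.mem_filter.2 ⟨Finset.mem_univ _, ?_⟩
      rw [← zpow_natCast, ← zpow_mul, mul_comm, zpow_mul, zpow_natCast, h1, one_zpow]
    · rw [Set.toFinset_card, ← Nat.card_eq_fintype_card, ← orderOf_eq_prime h1 ha]
      exact (Nat.card_zpowers a).symm
  exact Set.mem_toFinset.1 (h4.ge (Finset.mem_filter.2 ⟨Finset.mem_univ _, h2⟩))

theorem conj_pow_one {G : Type*} [Group G] (g : G) {a : G} {r : ℕ} (h : a ^ r = 1) : (g⁻¹ * a * g) ^ r = 1 := by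
  have k := conj_pow (i := r) (a := g⁻¹) (b := a)
  rwa [h, mul_one, mul_inv_cancel, inv_inv] at k

theorem mem_of {G : Type*} [Group G] {R : Subgroup G} {r k m n : G} (h3 : r ^ 3 = 1) (hk : k * r * k = r⁻¹) (kk : k * k = 1)
    (h1 : k ∈ R) (h2 : n ∈ R) (e : r * (m * k) = n * r) (h4 : r * m * r⁻¹ ∈ R) : r ∈ R := by
  have h5 := mul_mem (mul_mem (inv_mem h4) h2) (inv_mem h1)
  rw [← mul_inv_eq_iff_eq_mul.2 e, show (r * m * r⁻¹)⁻¹ * (r * (m * k) * r⁻¹) * k⁻¹ = r * k * r⁻¹ * k⁻¹ by group, ← hk,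
    show r * k * (k * r * k) * k⁻¹ = r * (k * k) * r by group, kk, mul_one] at h5
  rw [show r = (r * r)⁻¹ from eq_inv_of_mul_eq_one_left (by rw [← h3, pow_succ', _root_.sq])]
  exact inv_mem h5

variable {F : Type} [Field F] [Fintype F]

/-- elements whose conjugates are semilinear have partners -/
theorem mem_T1 {M : Gam (Q8 F)} (h : ∀ g, g * Psi (Q8 F) M * g⁻¹ ∈ (Psi (Q8 F)).range) : M ∈ T1 F := by
  refine (mem_S1 good8 M).elim (·.2) fun ⟨_, N₁, N₂, t⟩ => ?_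
  obtain ⟨ρ, hρ⟩ := exists_rho (good8 (F := F))
  have h1 : ρ * Psi _ (M * kapG F) = _ := hρ.mul_Psi good8 (M₁ := N₁) (M₂ := N₂) t
  rw [map_mul] at h1
  exact (hρ.not_mem_range good8 (mem_of (hρ.cube good8) (hρ.kap_inv good8) (by rw [← map_mul, kapG_mul_kapG, map_one])
    ⟨_, rfl⟩ ⟨_, rfl⟩ h1 (h ρ))).elim

theorem not_range {α : MulAut (G8 F)} {M : Gam (Q8 F)} (h : Ty1 α M) : α ∉ (Psi (Q8 F)).range := fun k => by
  obtain ⟨ρ, hρ⟩ := exists_rho (good8 (F := F))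
  have h1 : α = Psi (Q8 F) M * ρ := by
    ext x
    obtain ⟨a, rfl⟩ := QuotientGroup.mk_surjective x
    obtain ⟨b, c, t⟩ := exists_T3 a
    rw [MulAut.mul_apply, rho_T3 hρ t, h a b c t, Psi_mk]
  exact hρ.not_mem_range good8 ((mul_mem_cancel_left (show _ ∈ (Psi (Q8 F)).range from ⟨M, rfl⟩)).1 (h1 ▸ k))

/-- a similitude as a linear map -/
def lin {M : Gam (Q8 F)} {c : F} (h : IsSS (Q8 F) (RingEquiv.refl F) c M.1) : GL8 F :=
  { M.1 with
    map_add' := h.add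
    map_smul' := h.smul }

theorem eq_one {N : Subgroup (G8 F)} (hN : ⁅N, N⁆ = N) (h0 : C0 (lf N)) {M : Gam (Q8 F)} (hT : M ∈ T1 F)
    (hs : sg good8 M = 1) (hc : ∀ n ∈ N, Psi (Q8 F) M n = n) : Psi (Q8 F) M = 1 := by
  obtain ⟨M₁, M₂, t⟩ := hT
  obtain ⟨σ, c, h⟩ := M.2
  obtain ⟨σ₁, c₁, h₁⟩ := M₁.2
  obtain ⟨σ₂, c₂, h₂⟩ := M₂.2
  obtain rfl := t.field h h₁
  obtain rfl := t.field₂ h h₂
  obtain rfl : σ = RingEquiv.refl F := (sg_eq good8 h).symm.trans hs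
  refine Psi_of_scal (h0 (lin h) (kap F * lin h₁ * kap F) (kap F * lin h₂ * kap F) (fun x y => ?_) ⟨c, h.form⟩
    fun l hl x => (comm_of_smul (lf_perfect hN) (fun l hl => ?_) l hl x).symm)
  · change M.1 (omul (oconj x) (oconj y)) = omul (oconj (oconj (M₁.1 (oconj x)))) (oconj (oconj (M₂.1 (oconj y))))
    rw [oconj_oconj, oconj_oconj]
    exact t _ _
  · obtain ⟨e, -, k⟩ := mk_eq_iff.1 ((Psi_mk M l).symm.trans (hc _ (lf_le hl)))
    exact ⟨e, fun x => (k _).trans (congrArg (e • ·) (conjE_apply M l x))⟩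

/-- the centraliser in the automorphism group -/
def cD (N : Subgroup (G8 F)) : Subgroup (MulAut (G8 F)) where
  carrier := {σ | ∀ n ∈ N, σ n = n}
  mul_mem' := fun ha hb n hn => by rw [MulAut.mul_apply, hb n hn, ha n hn]
  one_mem' := fun _ _ => rfl
  inv_mem' := fun {σ} h n hn => by rw [← h n hn, MulAut.inv_apply_self, h n hn]

variable {A : Subgroup (G8 F)} {Γ : Subgroup (MulAut (G8 F))} {M₁ M₂ : Gam (Q8 F)} {N : Subgroup (G8 F)}
  {𝓣 : Set (Subgroup (G8 F))} (h : Cb A Γ M₁ M₂ N 𝓣)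
include h

theorem conj_mem {γ σ : MulAut (G8 F)} (hγ : γ ∈ Γ) (hσ : σ ∈ cD N) : γ⁻¹ * σ * γ ∈ cD N := fun n hn => by
  rw [MulAut.mul_apply, MulAut.mul_apply, hσ _ (h.inv γ hγ n hn), MulAut.inv_apply_self]

theorem le_fxs {σ : MulAut (G8 F)} (hσ : σ ∈ cD N) : A ≤ fxs σ := fun a ha => by
  have h1 := h.cen (a * (σ a)⁻¹) fun n hn => by
    have h2 := hσ _ (h.inv _ ((h.mi.conj a⁻¹).2 (inv_mem ha)) n hn)
    rw [MulAut.conj_apply, inv_inv, map_mul, map_mul, map_inv, hσ n hn] at h2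
    calc n * (a * (σ a)⁻¹) = a * (a⁻¹ * n * a) * (σ a)⁻¹ := by group
      _ = _ := by rw [← h2]; group
  exact (mul_inv_eq_one.1 h1).symm

theorem eq_fxs {φ : MulAut (G8 F)} (hφ : φ ∈ cD N) (h1 : φ ≠ 1) (h2 : ∀ γ ∈ Γ, γ⁻¹ * φ * γ ∈ Subgroup.zpowers φ) :
    fxs φ = A := by
  have := simple8 (F := F)
  have := finite8 (F := F)
  refine N2.mi_eq h.mi (fun γ hγ g hg => ?_) (le_fxs h hφ) fun e => h1 (MulEquiv.ext fun g => (e.ge trivial :))
  have h3 : Subgroup.zpowers φ ≤ MulAction.stabilizer _ g := Subgroup.zpowers_le.2 hg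
  have h4 : γ⁻¹ (φ (γ g)) = g := h3 (h2 γ hγ)
  rw [mem_fxs, ← MulAut.apply_inv_self _ γ (φ (γ g)), h4]

variable {θ : MulAut (G8 F) →* Equiv.Perm (Fin 3)} {o : Fin 3} (hθ : ∀ g, θ g o = o ↔ g ∈ (Psi (Q8 F)).range)
include hθ

omit h in
theorem ker_le {σ : MulAut (G8 F)} (k : θ σ = 1) : ∃ M ∈ T1 F, Psi (Q8 F) M = σ := by
  obtain ⟨M, rfl⟩ := (hθ σ).1 (by rw [k]; rfl)
  exact ⟨M, mem_T1 fun g => (hθ _).1 (by rw [θ.map_mul, θ.map_mul, k, mul_one, θ.map_inv, mul_inv_cancel]; rfl), rfl⟩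

/-- graph automorphisms -/
theorem graph (psi : BoxPsi) (hf : NoFix (lf N)) (hC : HasC N) (hD : ∀ σ ∈ cD N, θ σ = 1 → σ = 1) : False := by
  obtain ⟨M, hM, hy⟩ := hC
  obtain ⟨α, hα, t⟩ := h.e1
  have k0 : Psi (Q8 F) M ∈ cD N := hy
  have e0 := (hθ _).2 ⟨M, rfl⟩
  generalize Psi (Q8 F) M = y at hM k0 e0
  obtain ⟨k1, k2, k3, k4⟩ := s3 o (θ y) (θ α) e0 (fun e => hM (hD _ k0 e)) fun e => not_range t ((hθ _).1 e)
  have k5 : y * (α * y * α⁻¹) ∈ cD N := mul_mem k0 (by simpa using conj_mem h (inv_mem hα) k0)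
  rw [← θ.map_inv, ← θ.map_mul, ← θ.map_mul, ← θ.map_mul] at k1 k2 k3 k4
  generalize y * (α * y * α⁻¹) = x at k1 k2 k3 k4 k5
  have k6 : x ∉ (Psi (Q8 F)).range := fun e => k2 ((hθ _).2 e)
  have k7 : fxs x = A := eq_fxs h k5 (fun e => k6 (e ▸ one_mem _)) fun γ hγ => by
    rcases k4 (θ γ) with k | k
    · rw [mul_inv_eq_one.1 (hD _ (mul_mem (conj_mem h hγ k5) (inv_mem k5))
        (by rwa [θ.map_mul, θ.map_mul, θ.map_mul, θ.map_inv, θ.map_inv]))]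
      exact Subgroup.mem_zpowers x
    · rw [mul_eq_one_iff_eq_inv.1 (hD _ (mul_mem (conj_mem h hγ k5) k5)
        (by rwa [θ.map_mul, θ.map_mul, θ.map_mul, θ.map_inv]))]
      exact inv_mem (Subgroup.mem_zpowers x)
  obtain ⟨β, v, hv, k8⟩ := psi F x y (hD _ (pow_mem k5 3) ((θ.map_pow x 3).trans k1)) k6 hM
    (mul_eq_one_iff_eq_inv.1 (hD _ (mul_mem (mul_mem (mul_mem k0 k5) (inv_mem k0)) k5)
      (by rwa [θ.map_mul, θ.map_mul, θ.map_mul, θ.map_inv]))) fun g hg => le_fxs h k0 (k7.le hg)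
  have key : ∀ (M' M'' : Gam (Q8 F)), ¬ ∀ b ∈ cL M' (lf N), Fp (conjE (Q8 F) M'' b) v := fun M' M'' k => by
    refine gam_ne M''⁻¹ hv (hf.cL M' _ (fix_of_fp (cL_perfect M' h.perf) fun b hb => ?_))
    obtain ⟨c, hc⟩ := k b hb
    have h1 := conjE_eig (M := M''⁻¹) hc
    rwa [conjE_inv_conjE] at h1
  obtain ⟨M', k | k | k⟩ := cosets β
  · refine key 1 M' fun b hb => k8 b _ (k5 _ (lf_le (by rwa [Cb.cL_one] at hb))) ?_
    rw [← k, Psi_mk]
  · refine key M₁ M' fun b hb => ?_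
    obtain ⟨a, ha, c, -, t⟩ := h.tri₁ hb
    exact k8 a _ (k5 _ (lf_le ha)) (k a b c t)
  · refine key M₂ M' fun c hc => ?_
    obtain ⟨a, ha, b, -, t⟩ := h.tri₂ hc
    exact k8 a _ (k5 _ (lf_le ha)) (k a b c t)

/-- field automorphisms -/
theorem field (subw : BoxSubW) (h0 : C0 (lf N)) {σ : MulAut (G8 F)} (k1 : σ ∈ cD N) (k2 : θ σ = 1) (k3 : σ ≠ 1) :
    FP3.Good A := by
  have := finite_aut (F := F)
  obtain ⟨r, hr, k4⟩ := Nat.exists_prime_and_dvd (mt orderOf_eq_one_iff.1 k3)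
  have k5 : orderOf (σ ^ (orderOf σ / r)) = r := orderOf_pow_orderOf_div (orderOf_pos σ).ne' k4
  have k6 := pow_mem k1 (orderOf σ / r)
  have k7 : θ (σ ^ (orderOf σ / r)) = 1 := by rw [θ.map_pow, k2, one_pow]
  generalize σ ^ (orderOf σ / r) = φ at k5 k6 k7
  have k8 : φ ≠ 1 := fun e => hr.one_lt.ne (by rw [← k5, e, orderOf_one])
  have k12 : φ ^ r = 1 := k5 ▸ pow_orderOf_eq_one _
  obtain ⟨P, hP, e⟩ := ker_le hθ k7
  have k9 : sg good8 P ≠ 1 := fun e' => k8 (e.symm.trans (eq_one h.perfN h0 hP e' (show _ ∈ cD N by rwa [e])))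
  have k10 : ∀ (P' : Gam (Q8 F)) (ψ : MulAut (G8 F)), Psi (Q8 F) P' = ψ → ψ ^ r = 1 → sg good8 P' ^ r = 1 := fun P' ψ e k => by
    rw [← (sg good8).map_pow]
    exact sg_eq_one_of_out good8 (by rw [out, MonoidHom.comp_apply, (Psi (Q8 F)).map_pow, e, k, map_one])
  rw [← eq_fxs h k6 k8 fun γ hγ => ?_]
  · rw [← e] at k5 ⊢
    refine subw F P (k5 ▸ hr) fun k => k9 ?_
    obtain ⟨τ, c, hc⟩ := P.2
    exact (sg_eq good8 hc).trans
      (RingEquiv.ext fun a => smul_left_injective F (gam_ne P e8_ne) ((hc.smul a _).symm.trans (k a _)))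
  · obtain ⟨P', hP', e'⟩ := ker_le hθ (σ := γ⁻¹ * φ * γ) (by rw [θ.map_mul, θ.map_mul, k7, mul_one, θ.map_inv, inv_mul_cancel])
    have : IsCyclic (RingAut F) := LieRecognition.FieldSemilinear.isCyclic_ringAut F
    have : Finite (RingAut F) := Finite.of_injective (fun γ : RingAut F => (γ : F → F)) DFunLike.coe_injective
    obtain ⟨j, hj⟩ := Subgroup.mem_zpowers_iff.1 (mem_zpowers hr k9 (k10 P φ e k12) (k10 P' _ e' (conj_pow_one γ k12)))
    have k14 : Psi (Q8 F) (P' * (P ^ j)⁻¹) = γ⁻¹ * φ * γ * (φ ^ j)⁻¹ := by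
      rw [(Psi (Q8 F)).map_mul, (Psi (Q8 F)).map_inv, (Psi (Q8 F)).map_zpow, e', e]
    have k15 : sg good8 (P' * (P ^ j)⁻¹) = 1 := by
      rw [(sg good8).map_mul, (sg good8).map_inv, (sg good8).map_zpow, hj, mul_inv_cancel]
    have k11 := eq_one h.perfN h0 (mul_mem hP' (inv_mem (zpow_mem hP j))) k15
      (show _ ∈ cD N by rw [k14]; exact mul_mem (conj_mem h hγ k6) (inv_mem (zpow_mem k6 j)))
    exact ⟨j, (mul_inv_eq_one.1 (k14.symm.trans k11)).symm⟩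

end Cen

/-- **[Cen]** -/
theorem boxCen : BoxCen := by
  intro lm F _ _ A Γ M₁ M₂ N 𝓣 h hf h0 hC
  obtain ⟨θ, o, hθ⟩ := Cen.exists_act (index_three (F := F))
  by_contra hc
  exact Cen.graph h hθ lm.psi hf hC fun σ k1 k2 => by_contra fun k3 => hc (Cen.field h hθ lm.subw h0 k1 k2 k3)

end Cfsg.Agent.N2C.D4
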