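import Cfsg.Agent.N2.Cl.D4.Defs
import Cfsg.Agent.N2.Cl.FrO.Main
import Cfsg.Agent.Lib.Zsigmondy
import Cfsg.Agent.H954.TSing7

/-!
# N2 (S3519), `PΩ₈⁺(q)` : Singer elements of `GL₃(q)` and `GU₃(q)` (helper43)
-/

set_option autoImplicit false
set_option maxHeartbeats 400000
set_option linter.unusedSectionVars false

namespace Cfsg.Agent.N2C.D4

open QuadraticMap Module Cfsg.Agent.LieClassical.OrthCore Cfsg.Agent.ClassicalGeometry.Triality Cfsg.Agent.SB.D4
open Cfsg.Agent.H955 (res osum osum_apply nondeg_osum)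
open Cfsg.Agent.N2C.FrO (exists_emb inj_emb odd_E2 E2_le_E)

namespace Ex

variable {F V X : Type} [Field F] [Fintype F] [AddCommGroup V] [Module F V] [Finite V] [AddCommGroup X] [Module F X]
  [Finite X] {Q : QuadraticForm F V} {R : QuadraticForm F X}

/-- primitive primes -/
theorem exists_prime (F : Type) [Field F] [Fintype F] {n : ℕ} (hn : n = 3 ∨ (n = 6 ∧ Nat.card F ≠ 2)) :
    ∃ r : ℕ, r.Prime ∧ Odd r ∧ (r : F) ≠ 0 ∧ 3 ∣ orderOf (Nat.card F : ZMod r) ∧ ∀ m, r ∣ Nat.card F ^ m - 1 ↔ n ∣ m := by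
  obtain ⟨r, h1, h2, h3, h4⟩ := Lib.Zsigmondy.exists_primitive (a := Nat.card F) (n := n) Finite.one_lt_card (by omega)
    (by omega) (by omega)
  have := Fact.mk h1
  refine ⟨r, h1, h1.odd_of_ne_two ?_, ((isUnit_iff_not_dvd_char F r).2 fun h => h4 ?_).ne_zero,
    (show 3 ∣ n by omega).trans ((h2 _).1 ((Lib.Zsigmondy.dvd_pow_sub_one_iff Nat.card_pos _).2 dvd_rfl)), h2⟩
  · rintro rfl
    have := Nat.dvd_one.1 h3
    omega
  · rw [Nat.card_eq_fintype_card]
    exact (prime_dvd_char_iff_dvd_card r).1 h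

/-- extension by the identity -/
theorem ext_of (hR : Nondeg R) {φ : X →ₗ[F] V} (hq : ∀ x, Q (φ x) = R x) {u : X ≃ₗ[F] X} (hu : u ∈ O R) :
    ∃ a ∈ O Q, (∀ x, a (φ x) = φ (u x)) ∧ (∀ v, (∀ x, polar Q (φ x) v = 0) → a v = v) ∧ ∀ n, a ^ n = 1 ↔ u ^ n = 1 := by
  obtain ⟨g, rfl⟩ := exists_emb hR hq
  refine ⟨g.up u, g.up_O hu, g.up_φ u, fun v hv => ?_, fun n => ⟨fun h => LinearEquiv.ext fun x => inj_emb hR hq ?_,
    fun h => by rw [← map_pow, h, map_one]⟩⟩
  · rw [g.up_apply, hR (g.ψ v) fun y => by rw [polar_comm, ← g.b, hv], map_zero, sub_zero, map_zero, add_zero]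
  · rw [← g.up_φ, map_pow, h]
    rfl

/-- the action on the sum of a space and its dual -/
def du (F X : Type) [Field F] [AddCommGroup X] [Module F X] : (X ≃ₗ[F] X) →* ((Dual F X × X) ≃ₗ[F] (Dual F X × X)) where
  toFun g := g.symm.dualMap.prodCongr g
  map_one' := LinearEquiv.ext fun _ => rfl
  map_mul' _ _ := LinearEquiv.ext fun _ => rfl

theorem nondeg_du : Nondeg (QuadraticForm.dualProd F X) := fun x hx => by
  have h : ∀ y : Dual F X × X, x.1 y.2 + y.1 x.2 = 0 := fun y => by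
    have h := hx y
    simp only [polar, QuadraticForm.dualProd_apply, Prod.fst_add, Prod.snd_add, LinearMap.add_apply, map_add] at h
    linear_combination h
  exact Prod.ext (LinearMap.ext fun u => by simpa using h (0, u))
    ((Module.forall_dual_apply_eq_zero_iff F _).1 fun θ => by simpa using h (θ, 0))

/-- two opposite totally singular subspaces -/
theorem ts_pair {U U' : Submodule F V} (hU : ∀ u ∈ U, Q u = 0) (hU' : ∀ u ∈ U', Q u = 0)
    (hn : ∀ u' ∈ U', (∀ u ∈ U, polar Q u' u = 0) → u' = 0) (hd : finrank F U' = finrank F U) (g : U ≃ₗ[F] U) :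
    ∃ a ∈ O Q, (∀ u ∈ U, a u ∈ U) ∧ (∀ u ∈ U', a u ∈ U') ∧
      (∀ v, (∀ u ∈ U, polar Q u v = 0) → (∀ u ∈ U', polar Q u v = 0) → a v = v) ∧ ∀ n, a ^ n = 1 ↔ g ^ n = 1 := by
  have : Module.Finite F V := Module.Finite.of_finite
  have : Finite (Dual F U) := Finite.of_injective _ DFunLike.coe_injective
  let b : U' →ₗ[F] Dual F U := U.subtype.dualMap ∘ₗ polarBilin Q ∘ₗ U'.subtype
  let β := b.linearEquivOfInjective ((injective_iff_map_eq_zero b).2 fun x hx => Subtype.ext (hn x x.2 fun u hu =>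
    LinearMap.congr_fun hx ⟨u, hu⟩)) (hd.trans Subspace.dual_finrank_eq.symm)
  obtain ⟨a, h1, h2, h3, h4⟩ := ext_of (Q := Q) nondeg_du (φ := (U'.subtype ∘ₗ β.symm.toLinearMap).coprod U.subtype)
    (fun x => by
      change Q ((β.symm x.1 : V) + x.2) = x.1 x.2
      rw [Q_add, hU' _ (β.symm x.1).2, hU _ x.2.2, zero_add, zero_add]
      exact LinearMap.congr_fun (β.apply_symm_apply x.1) x.2) (u := du F U g) fun x => congrArg x.1 (g.symm_apply_apply x.2)
  refine ⟨a, h1, fun u hu => ?_, fun u hu => ?_, fun v h5 h6 => h3 v fun x => ?_, fun n => (h4 n).trans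
    ⟨fun h => LinearEquiv.ext fun x => ?_, fun h => by rw [← map_pow, h, map_one]⟩⟩
  · have h5 : a ((β.symm 0 : V) + u) = (β.symm (g.symm.dualMap 0) : V) + g ⟨u, hu⟩ := h2 (0, ⟨u, hu⟩)
    rw [map_zero g.symm.dualMap, map_zero, ZeroMemClass.coe_zero, zero_add, zero_add] at h5
    exact h5 ▸ (g _).2
  · have h5 : a ((β.symm (β ⟨u, hu⟩) : V) + (0 : U)) = (β.symm _ : V) + g 0 := h2 (β ⟨u, hu⟩, 0)
    rw [map_zero, β.symm_apply_apply, ZeroMemClass.coe_zero, add_zero, add_zero] at h5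
    exact h5 ▸ (β.symm _).2
  · change polar Q ((β.symm x.1 : V) + x.2) v = 0
    rw [polar_add_left, h6 _ (β.symm x.1).2, h5 _ x.2.2, add_zero]
  · rw [← map_pow] at h
    exact congrArg Prod.snd (LinearEquiv.congr_fun h (0, x))

theorem exists_ord (h3 : finrank F X = 3) {r : ℕ} (hr : r.Prime) (h : r ∣ Nat.card F ^ 3 - 1) :
    ∃ g : X ≃ₗ[F] X, orderOf g = r := by
  have := Fact.mk hr
  have : Module.Finite F X := Module.Finite.of_finite
  have := FrO.finL F X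
  refine exists_prime_orderOf_dvd_card' r (h.trans ?_)
  rw [← Nat.card_congr ((Matrix.GeneralLinearGroup.toLin' (finBasisOfFinrankEq F X h3)).trans
    (LinearMap.GeneralLinearGroup.generalLinearEquiv F X)).toEquiv, Matrix.card_GL_field, Nat.card_eq_fintype_card]
  exact Finset.dvd_prod_of_mem (fun i : Fin 3 => Fintype.card F ^ 3 - Fintype.card F ^ (i : ℕ)) (Finset.mem_univ 0)

/-- a Singer element of `GL₃(q)` -/
theorem ts_ord {U U' : Submodule F (V8 F)} (hU : ∀ u ∈ U, Q8 F u = 0) (hU' : ∀ u ∈ U', Q8 F u = 0)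
    (hn : ∀ u' ∈ U', (∀ u ∈ U, polar (Q8 F) u' u = 0) → u' = 0) (hd : finrank F U = 3) (hd' : finrank F U' = 3)
    {r : ℕ} (hr : r.Prime) (ho : Odd r) (h : r ∣ Nat.card F ^ 3 - 1) :
    ∃ a : E8 F, a ≠ 1 ∧ a ^ r = 1 ∧ Kp a U U ∧ Kp a U' U' ∧
      ∀ v, (∀ u ∈ U, polar (Q8 F) u v = 0) → (∀ u ∈ U', polar (Q8 F) u v = 0) → a.1 v = v := by
  obtain ⟨g, hg⟩ := exists_ord hd hr h
  obtain ⟨a, h1, h2, h3, h4, h5⟩ := ts_pair hU hU' hn (hd'.trans hd.symm) g
  have h6 := (h5 r).2 (hg ▸ pow_orderOf_eq_one g)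
  refine ⟨⟨a, E2_le_E good8 (odd_E2 h1 ho h6)⟩, fun h7 => hr.ne_one ?_, Subtype.ext h6, h2, h3, h4⟩
  rw [← hg, orderOf_eq_one_iff, ← pow_one g, ← h5, pow_one]
  exact congrArg Subtype.val h7

theorem finrank_hyp {U : Submodule F V} {e : V} (he : e ∈ U) (l : V →ₗ[F] F) (hl : l e ≠ 0) :
    1 + finrank F ↥(U ⊓ LinearMap.ker l) = finrank F U := by
  have : Module.Finite F V := Module.Finite.of_finite
  rw [← LinearMap.finrank_range_add_finrank_ker (l.domRestrict U), LinearMap.ker_domRestrict,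
    ← Submodule.map_comap_subtype, Submodule.finrank_map_subtype_eq, LinearMap.range_eq_top.2 fun c =>
      ⟨(c / l e) • ⟨e, he⟩, by rw [map_smul, LinearMap.domRestrict_apply, smul_eq_mul, div_mul_cancel₀ _ hl]⟩,
    finrank_top, finrank_self]

theorem sub_mem_hyp {U : Submodule F V} {e u : V} (he : e ∈ U) (hu : u ∈ U) (l : V →ₗ[F] F) (hl : l e ≠ 0) :
    u - (l u / l e) • e ∈ U ⊓ LinearMap.ker l :=
  ⟨sub_mem hu (U.smul_mem _ he), show l _ = 0 by rw [map_sub, map_smul, smul_eq_mul, div_mul_cancel₀ _ hl, sub_self]⟩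

/-- both halves have half the dimension -/
theorem halves {W U U' : Submodule F V} (hW : Nd Q W) (hU : ∀ u ∈ U, Q u = 0) (hU' : ∀ u ∈ U', Q u = 0)
    (hs : U ⊔ U' = W) {n : ℕ} (hn : finrank F W = 2 * n) : finrank F U = n ∧ finrank F U' = n := by
  have : Module.Finite F V := Module.Finite.of_finite
  have h1 := hW.two_mul_le (hs ▸ le_sup_left : U ≤ W) fun x hx y hy => polar_of_ts hU hx hy
  have h2 := hW.two_mul_le (hs ▸ le_sup_right : U' ≤ W) fun x hx y hy => polar_of_ts hU' hx hy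
  have h3 := Submodule.finrank_add_le_finrank_add_finrank U U'
  rw [hs] at h3
  omega

theorem fix_of_kp {a b c : E8 F} (h : T3 a b c) {r : ℕ} (hr : r.Prime) (hb : b ^ r = 1) (hq : ¬ r ∣ Nat.card F ^ 1 - 1)
    {e : V8 F} (he : Q8 F e = 0) (h0 : e ≠ 0) (ha : Kp a (LinearMap.range (pl e)) (LinearMap.range (pl e))) :
    b.1 e = e := by
  obtain ⟨l, hl⟩ := pl_line he h0 ((E_le_O b.2 e).trans he) (fun h1 => h0 (b.1.map_eq_zero_iff.1 h1)) fun t => by
    obtain ⟨t, rfl⟩ := c.1.surjective t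
    exact h e t ▸ ha _ ⟨t, rfl⟩
  have h1 : ∀ n, (b ^ n).1 e = l ^ n • e := fun n => by
    induction n with
    | zero => rw [pow_zero, pow_zero, one_smul]; rfl
    | succ n ih => rw [pow_succ', e8_mul, ih, map_smul, hl, smul_smul, pow_succ]
  have h2 : l ^ r = 1 := smul_left_injective F h0 (show l ^ r • e = (1 : F) • e by rw [← h1, hb, one_smul]; rfl)
  have h3 := pow_gcd_eq_one.2 ⟨h2, FiniteField.pow_card_sub_one_eq_one l fun h3 => by
    rw [h3, zero_pow hr.ne_zero] at h2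
    exact zero_ne_one h2⟩
  rw [← Nat.card_eq_fintype_card, ← pow_one (Nat.card F), (hr.coprime_iff_not_dvd.2 hq).gcd_eq_one, pow_one] at h3
  rw [hl, h3, one_smul]

end Ex

open Ex in
/-- **a Singer element of `SL₃(q)`** -/
theorem boxEx3 : BoxEx3 := fun F _ _ e f y he hf hef hy => by
  obtain ⟨r, hr, ho, h0, h3, hq⟩ := exists_prime F (n := 3) (.inl rfl)
  have t : ∀ e, Q8 F e = 0 → ∀ u ∈ LinearMap.range (pl e), Q8 F u = 0 := by
    rintro e he _ ⟨v, rfl⟩
    rw [pl_apply, norm_pm, he, zero_mul]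
  have hs : LinearMap.range (pl e) ⊔ LinearMap.range (pl f) = ⊤ := eq_top_iff.2 fun v _ => by
    rw [← inv_smul_smul₀ hef v, ← pm_lin_right]
    exact Submodule.smul_mem _ _ (Submodule.add_mem_sup ⟨_, rfl⟩ ⟨_, rfl⟩)
  obtain ⟨d1, d2⟩ := halves (nd_top nondeg8') (t e he) (t f hf) hs (n := 4) ((finrank_top _ _).trans finrank8)
  have k1 : polarBilin (Q8 F) (pm e y) (pm f y) ≠ 0 := by
    rw [polarBilin_apply_apply, polar_pm, pm_pm_right, polar_smul_right]
    exact mul_ne_zero hy hef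
  have k2 : polarBilin (Q8 F) (pm f y) (pm e y) ≠ 0 := by rwa [polarBilin_apply_apply, polar_comm]
  have m1 : pm e y ∈ LinearMap.range (pl e) := ⟨y, rfl⟩
  have m2 : pm f y ∈ LinearMap.range (pl f) := ⟨y, rfl⟩
  have d3 := finrank_hyp m1 _ k2
  have d4 := finrank_hyp m2 _ k1
  obtain ⟨a, a1, a2, a3, a4, a5⟩ := ts_ord (U := LinearMap.range (pl e) ⊓ LinearMap.ker (polarBilin (Q8 F) (pm f y)))
    (U' := LinearMap.range (pl f) ⊓ LinearMap.ker (polarBilin (Q8 F) (pm e y))) (fun u hu => t e he u hu.1)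
    (fun u hu => t f hf u hu.1) (fun u hu h => nondeg8' u fun v => by
      obtain ⟨v, hv, w, hw, rfl⟩ := Submodule.mem_sup.1 (hs ▸ Submodule.mem_top : v ∈ _ ⊔ _)
      have h1 := h _ (sub_mem_hyp m1 hv _ k2)
      rw [polar_sub_right, polar_smul_right, polar_comm _ u (pm e y), show polar (Q8 F) (pm e y) u = 0 from hu.2,
        smul_zero, sub_zero] at h1
      rw [polar_add_right, h1, polar_of_ts (t f hf) hu.1 hw, add_zero]) (by omega) (by omega) hr ho ((hq 3).2 dvd_rfl)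
  have f1 : a.1 (pm e y) = pm e y := a5 _ (fun u hu => polar_of_ts (t e he) hu.1 m1) fun u hu => (polar_comm _ _ _).trans hu.2
  have f2 : a.1 (pm f y) = pm f y := a5 _ (fun u hu => (polar_comm _ _ _).trans hu.2) fun u hu => polar_of_ts (t f hf) hu.1 m2
  obtain ⟨b, c, h, b1, c1⟩ := exists_T3_odd ho a2
  have b2 : b.1 e = e := fix_of_kp h hr b1 (by rw [hq]; norm_num) he (fun h => hef (by rw [h, polar_zero_left]))
    fun u hu => by
      have h1 := (a3 _ (sub_mem_hyp m1 hu _ k2)).1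
      rw [map_sub, map_smul, f1] at h1
      exact (Submodule.sub_mem_iff_left _ (Submodule.smul_mem _ _ m1)).1 h1
  have b3 : b.1 f = f := fix_of_kp h hr b1 (by rw [hq]; norm_num) hf (fun h => hef (by rw [h, polar_zero_right]))
    fun u hu => by
      have h1 := (a4 _ (sub_mem_hyp m2 hu _ k1)).1
      rw [map_sub, map_smul, f2] at h1
      exact (Submodule.sub_mem_iff_left _ (Submodule.smul_mem _ _ m2)).1 h1
  refine ⟨a, b, c, h, ⟨a1, r, hr, h0, h3, a2⟩, ⟨fun h1 => ?_, r, hr, h0, h3, b1⟩, ⟨fun h1 => ?_, r, hr, h0, h3, c1⟩, b2, b3,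
    pl_injective (a := e + f) (by rwa [Q_add, he, hf, zero_add, zero_add]) ?_⟩
  · obtain ⟨_, d, -, h2, -⟩ := h.rot.sc (h1 ▸ Sc.one)
    exact a1 (odd_sc ho h2 a2)
  · obtain ⟨d, _, h2, -⟩ := h.rot.rot.sc (h1 ▸ Sc.one)
    exact a1 (odd_sc ho h2 a2)
  · rw [pl_apply, pl_apply, add_pm, add_pm, ← f1, ← f2, h e y, h f y, b2, b3]

namespace Ex

variable {F V X Y : Type} [Field F] [Fintype F] [AddCommGroup V] [Module F V] [Finite V] [AddCommGroup X] [Module F X]
  [AddCommGroup Y] [Module F Y] {Q : QuadraticForm F V} {W : Submodule F V} {J : V ≃ₗ[F] V} {t : F}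

/-- the norm form of `F[X] / (X² - t X + 1)` -/
def nf (t : F) : QuadraticForm F (F × F) := linMulLin (LinearMap.fst F F F) (LinearMap.fst F F F) +
  t • linMulLin (LinearMap.fst F F F) (LinearMap.snd F F F) + linMulLin (LinearMap.snd F F F) (LinearMap.snd F F F)

theorem nf_apply (t : F) (x : F × F) : nf t x = x.1 * x.1 + t * (x.1 * x.2) + x.2 * x.2 := rfl

theorem nondeg_nf (ht : t ^ 2 ≠ 4) : Nondeg (nf t) := fun x hx => by
  have h1 := hx (1, 0)
  have h2 := hx (0, 1)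
  simp only [polar, nf_apply, Prod.fst_add, Prod.snd_add] at h1 h2
  exact Prod.ext (mul_left_cancel₀ (sub_ne_zero.2 ht) (show _ * x.1 = _ * 0 by linear_combination t * h2 - 2 * h1))
    (mul_left_cancel₀ (sub_ne_zero.2 ht) (show _ * x.2 = _ * 0 by linear_combination t * h1 - 2 * h2))

variable (Q W J) in
/-- an isometric embedding into `W` which intertwines `j` and `J` -/
def Md (R : QuadraticForm F X) (j : X → X) (φ : X →ₗ[F] V) : Prop :=
  ∀ x, Q (φ x) = R x ∧ φ x ∈ W ∧ J (φ x) = φ (j x)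

/-- the rotation -/
def rot (t : F) (x : F × F) : F × F := (-x.2, x.1 + t * x.2)

variable (Q W J t) in
/-- the hypotheses -/
structure Jn : Prop where
  nd : Nd Q W
  o : J ∈ O Q
  inv : ∀ x ∈ W, J x ∈ W
  rel : ∀ x ∈ W, J (J x) = t • J x - x

theorem step (hQ : Nondeg Q) (h : Jn Q W J t) (ht : t ^ 2 ≠ 4) {n : ℕ} (hn : finrank F W = n + 2) :
    ∃ φ, Md Q W J (nf t) (rot t) φ ∧ ∃ W' ≤ W, Jn Q W' J t ∧ finrank F W' = n ∧ ∀ x, ∀ w ∈ W', polar Q (φ x) w = 0 := by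
  have : Module.Finite F V := Module.Finite.of_finite
  obtain ⟨⟨u, hu⟩, h1⟩ := H954.TSing.exists_val (H955.nondeg_res_iff.2 h.nd) (by omega) 1
  replace h1 : Q u = 1 := h1
  let φ : F × F →ₗ[F] V := (LinearMap.toSpanSingleton F V u).coprod (LinearMap.toSpanSingleton F V (J u))
  have h2 : ∀ x, φ x = x.1 • u + x.2 • J u := fun _ => rfl
  have h3 : Md Q W J (nf t) (rot t) φ := fun x => by
    refine ⟨?_, add_mem (W.smul_mem _ hu) (W.smul_mem _ (h.inv u hu)), ?_⟩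
    · rw [h2, Q_add, QuadraticMap.map_smul, QuadraticMap.map_smul, polar_smul_left, polar_smul_right,
        polar_rot h.o (h.rel u hu) ht, h.o u, h1, nf_apply]
      simp only [smul_eq_mul]
      ring
    · rw [h2, h2, map_add, map_smul, map_smul, h.rel u hu, rot]
      module
  have h4 : Nd Q (LinearMap.range φ) := by
    rintro _ ⟨x, rfl⟩ hx
    rw [nondeg_nf ht x fun y => (FrO.polar_emb (fun x => (h3 x).1) x y).symm.trans (hx _ ⟨y, rfl⟩), map_zero]
  have h5 : LinearMap.range φ ≤ W := by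
    rintro _ ⟨x, rfl⟩
    exact (h3 x).2.1
  have h6 := h4.finrank_inf_prp hQ h5
  rw [LinearMap.finrank_range_of_inj (inj_emb (nondeg_nf ht) fun x => (h3 x).1), finrank_prod, finrank_self] at h6
  refine ⟨φ, h3, W ⊓ prp Q (LinearMap.range φ), inf_le_left, ⟨h4.nd_inf_prp hQ h5 h.nd, h.o, fun x hx => ⟨h.inv x hx.1,
    prp_inv h.o ?_ hx.2⟩, fun x hx => h.rel x hx.1⟩, by omega, fun x w hw => (polar_comm _ _ _).trans (mem_prp.1 hw.2 _ ⟨x, rfl⟩)⟩
  rintro _ ⟨x, rfl⟩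
  exact ⟨_, (h3 x).2.2.symm⟩

theorem Md.sum {R : QuadraticForm F X} {S : QuadraticForm F Y} {j : X → X} {k : Y → Y} {φ : X →ₗ[F] V} {ψ : Y →ₗ[F] V}
    {W' : Submodule F V} (h : Md Q W J R j φ) (h' : Md Q W' J S k ψ) (hW : W' ≤ W) (ho : ∀ x, ∀ w ∈ W', polar Q (φ x) w = 0) :
    Md Q W J (osum R S) (Prod.map j k) (φ.coprod ψ) := fun x =>
  ⟨by rw [LinearMap.coprod_apply, Q_add, ho _ _ (h' _).2.1, add_zero, (h _).1, (h' _).1, osum_apply],
    add_mem (h _).2.1 (hW (h' _).2.1), by rw [LinearMap.coprod_apply, map_add, (h _).2.2, (h' _).2.2]; rfl⟩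

theorem std (hQ : Nondeg Q) (h : Jn Q W J t) (ht : t ^ 2 ≠ 4) (hn : finrank F W = 6) :
    ∃ φ, Md Q W J (osum (nf t) (osum (nf t) (nf t))) (Prod.map (rot t) (Prod.map (rot t) (rot t))) φ := by
  obtain ⟨_, a1, _, a2, a3, a4, a5⟩ := step hQ h ht (n := 4) hn
  obtain ⟨_, b1, _, b2, b3, b4, b5⟩ := step hQ a3 ht (n := 2) a4
  obtain ⟨_, c1, -⟩ := step hQ b3 ht (n := 0) b4
  exact ⟨_, a1.sum (b1.sum c1 b2 b5) a2 a5⟩

open Polynomial in
theorem exists_root {L : Type} [Field L] [Algebra F L] [Finite L] (hL : finrank F L = 2 * 3) (h : ∀ l : F, l * l ≠ t * l - 1) :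
    ∃ ζ : L, ζ * ζ = t • ζ - 1 ∧ ζ ^ (Fintype.card F ^ 3 + 1) = 1 := by
  have hd : (X ^ 2 - C t * X + 1 : F[X]).natDegree = 2 := by compute_degree!
  have hi : Irreducible (X ^ 2 - C t * X + 1 : F[X]) := irreducible_of_degree_le_three_of_not_isRoot (by rw [hd]; simp)
    fun l hl => h l (by simp at hl; linear_combination hl)
  have := Fact.mk hi
  obtain ⟨f⟩ := FiniteField.nonempty_algHom_of_finrank_dvd (F := F) (K := AdjoinRoot (X ^ 2 - C t * X + 1 : F[X])) (L := L)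
    (by rw [hL, (AdjoinRoot.powerBasis hi.ne_zero).finrank, AdjoinRoot.powerBasis_dim, hd]; norm_num)
  obtain ⟨ζ, h1⟩ : ∃ ζ : L, aeval ζ (X ^ 2 - C t * X + 1 : F[X]) = 0 :=
    ⟨f (AdjoinRoot.root _), by rw [aeval_algHom_apply, AdjoinRoot.aeval_eq, AdjoinRoot.mk_self, map_zero]⟩
  have h2 : ζ * ζ = t • ζ - 1 := by
    simp only [map_add, map_sub, map_mul, map_pow, aeval_X, aeval_C, map_one] at h1
    rw [Algebra.smul_def]
    linear_combination h1
  have h3 := congrArg (FiniteField.frobeniusAlgHom F L) h2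
  rw [map_mul, map_sub, map_smul, map_one, FiniteField.coe_frobeniusAlgHom] at h3
  have h4 : ζ ^ Fintype.card F - ζ ≠ 0 := fun h4 => by
    have h5 := hi.natDegree_dvd_of_dvd_X_pow_card_pow_sub_X (n := 1) ((hi.dvd_iff_aeval_eq_zero h1).1 (by
      rw [map_sub, map_pow, aeval_X, pow_one, Nat.card_eq_fintype_card, h4]))
    rw [hd] at h5
    omega
  rw [Algebra.smul_def] at h3
  have h5 := h2
  rw [Algebra.smul_def] at h5
  have h6 : ζ ^ Fintype.card F + ζ - algebraMap F L t = 0 := mul_left_cancel₀ h4 (by linear_combination h3 - h5)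
  obtain ⟨m, hm⟩ := Odd.nat_add_dvd_pow_add_pow (Fintype.card F) 1 (n := 3) (by decide)
  rw [one_pow] at hm
  exact ⟨ζ, h2, by rw [hm, pow_mul, pow_succ, show ζ ^ Fintype.card F * ζ = 1 by linear_combination ζ * h6 - h5, one_pow]⟩

/-- the Singer cycle of `GU₃(q)` -/
theorem nonsplit (hQ : Nondeg Q) (h : Jn Q W J t) (ht : t ^ 2 ≠ 4) (hn : finrank F W = 6) (hl : ∀ l : F, l * l ≠ t * l - 1) :
    ∃ a ∈ O Q, orderOf a = Fintype.card F ^ 3 + 1 ∧ (∀ v ∈ prp Q W, a v = v) ∧ ∀ w ∈ W, a w ∈ W ∧ a (J w) = J (a w) := by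
  have : Module.Finite F V := Module.Finite.of_finite
  obtain ⟨L, _, _, _, R, u, hR, ho, hu⟩ := H530.OZ.exists_torusM F three_ne_zero
  have : Module.Finite F L := Module.Finite.of_finite
  obtain ⟨ζ, z1, z2⟩ := exists_root hR.dim hl
  have : NeZero (Fintype.card F ^ 3 + 1) := ⟨Nat.succ_ne_zero _⟩
  obtain ⟨i, -, z3⟩ := (ho ▸ IsPrimitiveRoot.orderOf u).eq_pow_of_pow_eq_one z2
  have u0 : u ≠ 0 := fun h0 => by
    have h1 := pow_orderOf_eq_one u
    rw [ho, h0, zero_pow (Nat.succ_ne_zero _)] at h1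
    exact zero_ne_one h1
  have u1 : ∀ (n : ℕ) x, (H93.CJ.mulL F u u0 ^ n) x = u ^ n * x := fun n x => by
    induction n with
    | zero => rw [pow_zero, pow_zero, one_mul]; rfl
    | succ n ih => rw [pow_succ', LinearEquiv.mul_apply, ih, pow_succ', mul_assoc]; rfl
  have u2 : H93.CJ.mulL F u u0 ∈ O R := hu
  have hN := nondeg_osum (nondeg_nf ht) (nondeg_osum (nondeg_nf ht) (nondeg_nf ht))
  obtain ⟨φ, p1⟩ := std hQ h ht hn
  obtain ⟨ψ, p2⟩ := std (W := ⊤) (J := H93.CJ.mulL F u u0 ^ i) hR.nondeg ⟨nd_top hR.nondeg, pow_mem u2 i, fun _ _ => trivial,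
    fun x _ => by rw [u1, u1, z3, ← mul_assoc, z1, sub_mul, one_mul, smul_mul_assoc]⟩ ht ((finrank_top _ _).trans hR.dim)
  let e := ψ.linearEquivOfInjective (inj_emb hN fun x => (p2 x).1) (by rw [hR.dim]; simp)
  have e1 : ∀ x, e x = ψ x := fun _ => rfl
  have e2 : ∀ y, Q ((φ ∘ₗ e.symm.toLinearMap) y) = R y := fun y =>
    (p1 _).1.trans ((p2 _).1.symm.trans (congrArg R (e.apply_symm_apply y)))
  have e3 : ∀ y, J ((φ ∘ₗ e.symm.toLinearMap) y) = (φ ∘ₗ e.symm.toLinearMap) (ζ * y) := fun y =>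
    (p1 _).2.2.trans (congrArg φ (e.eq_symm_apply.2 (by rw [e1, ← (p2 _).2.2, ← e1, u1, z3]; simp)))
  have e4 : LinearMap.range (φ ∘ₗ e.symm.toLinearMap) = W := Submodule.eq_of_le_of_finrank_eq
    (by rintro _ ⟨y, rfl⟩; exact (p1 _).2.1) (by rw [LinearMap.finrank_range_of_inj (inj_emb hR.nondeg e2), hR.dim, hn])
  obtain ⟨a, a1, a2, a3, a4⟩ := ext_of hR.nondeg e2 u2
  refine ⟨a, a1, ho ▸ orderOf_eq_orderOf_iff.2 fun n => (a4 n).trans ⟨fun k => ?_, fun k => LinearEquiv.ext fun x => ?_⟩,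
    fun v hv => a3 v fun y => (polar_comm _ _ _).trans (mem_prp.1 hv _ (p1 _).2.1), fun w hw => ?_⟩
  · rw [← mul_one (u ^ n), ← u1, k]
    rfl
  · rw [u1, k, one_mul]
    rfl
  · obtain ⟨y, rfl⟩ := e4.ge hw
    refine ⟨a2 y ▸ (p1 _).2.1, ?_⟩
    rw [e3, a2, a2, e3]
    exact congrArg _ (mul_left_comm u ζ y)

end Ex

open Ex in
/-- **a Singer element of `GL₃(q)` or `GU₃(q)`** -/
theorem boxEx6 : BoxEx6 := fun F _ _ W J t h6 hW hJ hi hr ht => by
  by_cases hl : ∃ l : F, l * l = t * l - 1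
  · obtain ⟨l, hl⟩ := hl
    obtain ⟨r, hp, ho, h0, h3, hq⟩ := exists_prime F (n := 3) (.inl rfl)
    have h1 : l - (t - l) ≠ 0 := fun h => ht (by linear_combination (-4) * hl + (2 * l - t) * h)
    have h2 : ∀ c : F, c * c = t * c - 1 → ∀ u ∈ W ⊓ LinearMap.ker (J.toLinearMap - c • LinearMap.id), Q8 F u = 0 :=
      fun c hc u hu => by
        have h2 := hJ u
        rw [show J u = c • u from sub_eq_zero.1 hu.2, QuadraticMap.map_smul, smul_eq_mul] at h2
        by_contra h4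
        have h5 := mul_right_cancel₀ h4 (h2.trans (one_mul _).symm)
        exact ht (by linear_combination (-(t * c + 2)) * hc + (t * c + 2 - t ^ 2) * h5)
    have h4 : (t - l) * (t - l) = t * (t - l) - 1 := by linear_combination hl
    have h5 : ∀ c d : F, c + d = t → c * d = 1 → ∀ w ∈ W, J w - d • w ∈ W ⊓ LinearMap.ker (J.toLinearMap - c • LinearMap.id) :=
      fun c d k1 k2 w hw => ⟨sub_mem (hi w hw) (W.smul_mem _ hw), show J _ - c • _ = 0 by
        rw [map_sub, map_smul, hr w hw, LinearMap.id_apply, smul_sub, smul_smul, k2, ← k1]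
        module⟩
    have hs : W ⊓ LinearMap.ker (J.toLinearMap - l • LinearMap.id) ⊔
        W ⊓ LinearMap.ker (J.toLinearMap - (t - l) • LinearMap.id) = W :=
      le_antisymm (sup_le inf_le_left inf_le_left) fun w hw => by
        rw [← inv_smul_smul₀ h1 w, show (l - (t - l)) • w = (J w - (t - l) • w) - (J w - l • w) by module]
        exact Submodule.smul_mem _ _ (sub_mem (Submodule.mem_sup_left (h5 _ _ (by ring) (by linear_combination -hl) w hw))
          (Submodule.mem_sup_right (h5 _ _ (by ring) (by linear_combination -hl) w hw)))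
    obtain ⟨d1, d2⟩ := halves hW (h2 l hl) (h2 _ h4) hs (n := 3) h6
    obtain ⟨a, a1, a2, a3, a4, a5⟩ := ts_ord (h2 l hl) (h2 _ h4) (fun u hu h => hW u hu.1 fun v hv => by
      obtain ⟨v, hv', w, hw, rfl⟩ := Submodule.mem_sup.1 (hs.ge hv)
      rw [polar_add_right, h v hv', polar_of_ts (h2 _ h4) hu hw, add_zero]) d1 d2 hp ho ((hq 3).2 dvd_rfl)
    refine ⟨a, .inl ⟨a1, r, hp, h0, h3, a2⟩, fun v hv => a5 v (fun u hu => (polar_comm _ _ _).trans (mem_prp.1 hv u hu.1))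
      fun u hu => (polar_comm _ _ _).trans (mem_prp.1 hv u hu.1), fun x hx => ?_⟩
    obtain ⟨v, hv, w, hw, rfl⟩ := Submodule.mem_sup.1 (hs.ge hx)
    rw [map_add, map_add, map_add, map_add, show J v = l • v from sub_eq_zero.1 hv.2,
      show J w = (t - l) • w from sub_eq_zero.1 hw.2, show J (a.1 v) = l • a.1 v from sub_eq_zero.1 (a3 v hv).2,
      show J (a.1 w) = (t - l) • a.1 w from sub_eq_zero.1 (a4 w hw).2, map_smul, map_smul]
  obtain ⟨a, a1, a2, a3, a4⟩ := nonsplit nondeg8' ⟨hW, hJ, hi, hr⟩ ht h6 fun l h => hl ⟨l, h⟩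
  have a5 : ∀ n, (∀ v ∈ prp (Q8 F) W, (a ^ n) v = v) ∧ ∀ w ∈ W, (a ^ n) (J w) = J ((a ^ n) w) := fun n =>
    ⟨fun v hv => pow_fix (a3 v hv) n, fun w hw => by
      induction n with
      | zero => rfl
      | succ n ih => rw [pow_succ', LinearEquiv.mul_apply, ih, (a4 _ (pow_inv (fun w hw => (a4 w hw).1) n w hw)).2]; rfl⟩
  rw [← Nat.card_eq_fintype_card] at a2
  by_cases h2 : Nat.card F = 2
  · rw [h2] at a2
    have h9 : a ^ 9 = 1 := orderOf_dvd_iff_pow_eq_one.1 a2.dvd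
    exact ⟨⟨a, E2_le_E good8 (odd_E2 a1 (by decide) h9)⟩, .inr ⟨h2, Subtype.ext h9, fun h =>
      pow_ne_one_of_lt_orderOf three_ne_zero (by rw [a2]; norm_num) (congrArg Subtype.val h)⟩, a3, fun w hw => (a4 w hw).2⟩
  obtain ⟨r, hp, ho, h0, h3, hq⟩ := exists_prime F (n := 6) (.inr ⟨rfl, h2⟩)
  obtain ⟨m, hm⟩ : r ∣ orderOf a := by
    have h1 := (hq 6).2 dvd_rfl
    rw [show 6 = 3 * 2 from rfl, pow_mul, ← one_pow 2, Nat.sq_sub_sq] at h1
    exact a2 ▸ (hp.dvd_mul.1 h1).resolve_right (by rw [hq]; norm_num)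
  have h7 : (a ^ m) ^ r = 1 := by rw [← pow_mul', ← hm, pow_orderOf_eq_one]
  have h8 : m ≠ 0 := by
    rintro rfl
    omega
  exact ⟨⟨a ^ m, E2_le_E good8 (odd_E2 (pow_mem a1 m) ho h7)⟩, .inl ⟨fun h => pow_ne_one_of_lt_orderOf h8
    (hm ▸ lt_mul_of_one_lt_left (Nat.pos_of_ne_zero h8) hp.one_lt) (congrArg Subtype.val h), r, hp, h0, h3,
      Subtype.ext h7⟩, a5 m⟩

end Cfsg.Agent.N2C.D4
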