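import Cfsg.Agent.N2.Cl.D4.Pl

/-!
# N2 (S3519), `PΩ₈⁺(q)` with triality: fixed vectors (helper47)

**`boxFix`** : the fixed space of the perfect lift is a hyperbolic plane, a non-singular point or a singular point.
-/

set_option autoImplicit false
set_option linter.unusedSectionVars false

namespace Cfsg.Agent.N2C.D4

open QuadraticMap Module Cfsg.Agent.LieClassical.QuadForms Cfsg.Agent.LieClassical.OrthCore
  Cfsg.Agent.LieClassical.OrthTrans Cfsg.Agent.ClassicalGeometry.OrthSemi Cfsg.Agent.ClassicalGeometry.OrthAut1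
  Cfsg.Agent.ClassicalGeometry.TrialityOct Cfsg.Agent.ClassicalGeometry.Triality
  Cfsg.Agent.H989.OutOrth.Basic Cfsg.Agent.H989.OutOrth.Tri Cfsg.Agent.SB.D4

namespace Fix

variable {F : Type} [Field F] [Fintype F]

/-- the fixed vectors -/
def FL (L : Subgroup (E8 F)) : Submodule F (V8 F) where
  carrier := {v | ∀ a ∈ L, a.1 v = v}
  add_mem' hx hy a ha := by rw [map_add, hx a ha, hy a ha]
  zero_mem' a _ := map_zero _
  smul_mem' c _ hx a ha := by rw [map_smul, hx a ha]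

theorem gmap_FL (M : Gam (Q8 F)) (L : Subgroup (E8 F)) : gmap M⁻¹ (FL L) = FL (cL M L) := by
  ext v
  rw [mem_gmap, inv_inv]
  refine ⟨fun h b hb => M.1.injective ?_, fun h a ha => ?_⟩
  · rw [← conjE_apply]
    exact h _ hb
  · rw [← conjE_conjE_inv M a, conjE_apply, h _ (by rwa [mem_cL, conjE_conjE_inv])]

theorem pm_mem {L₁ L₂ L₃ : Subgroup (E8 F)} (h : ∀ a ∈ L₁, ∃ b ∈ L₂, ∃ c ∈ L₃, T3 a b c) {x y : V8 F} (hx : x ∈ FL L₂)
    (hy : y ∈ FL L₃) : pm x y ∈ FL L₁ := fun a ha => by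
  obtain ⟨b, hb, c, hc, t⟩ := h a ha
  rw [t, hx b hb, hy c hc]

theorem sc_siegel {e w : V8 F} (he : Q8 F e = 0) (hw : polar (Q8 F) e w = 0) (h0 : e ≠ 0) {d : F}
    (h : Sc ⟨siegel (Q8 F) e w he hw, siegel_mem_E he hw⟩ d) : ∃ c : F, w = c • e := by
  have h1 : ∀ x, siegel (Q8 F) e w he hw x = d • x := h
  have h2 := h1 e
  rw [siegel_apply, polar_self_of_sing he, polar_comm, hw, mul_zero, zero_smul, zero_smul, add_zero, sub_zero, sub_zero] at h2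
  obtain rfl : 1 = d := smul_left_injective F h0 ((one_smul F e).trans h2)
  obtain ⟨x, hx⟩ := nondeg8'.exists_polar_eq h0 1
  have h3 := h1 x
  rw [siegel_apply, hx] at h3
  exact ⟨polar (Q8 F) w x + Q8 F w, by linear_combination (norm := module) h3⟩

section cen

variable {L : Subgroup (E8 F)} (hc : ∀ g : E8 F, (∀ l ∈ L, l * g = g * l) → ∃ d, Sc g d)
include hc

theorem sing {e w : V8 F} (he : e ∈ FL L) (hw : w ∈ FL L) (h1 : Q8 F e = 0) (h0 : e ≠ 0) (h2 : polar (Q8 F) e w = 0) :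
    ∃ c : F, w = c • e := by
  obtain ⟨d, hd⟩ := hc ⟨siegel (Q8 F) e w h1 h2, siegel_mem_E h1 h2⟩ fun l hl => e8_ext fun x => by
    have h3 := polar_map (E_le_O l.2) e x
    have h4 := polar_map (E_le_O l.2) w x
    rw [he l hl] at h3
    rw [hw l hl] at h4
    change l.1 (siegel (Q8 F) e w h1 h2 x) = siegel (Q8 F) e w h1 h2 (l.1 x)
    rw [siegel_apply, siegel_apply, h3, h4, map_sub, map_sub, map_add, map_smul, map_smul, map_smul, he l hl, hw l hl]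
  exact sc_siegel h1 h2 h0 hd

theorem rot {u v : V8 F} (hu : u ∈ FL L) (hv : v ∈ FL L) (h0 : Q8 F u ≠ 0) (h1 : Q8 F u = Q8 F v) : ∃ c : F, v = c • u := by
  have h0' : Q8 F v ≠ 0 := h1 ▸ h0
  have key : ∀ l ∈ L, ∀ w ∈ FL L, ∀ (k : Q8 F w ≠ 0) (x : V8 F), l.1 (refl (Q8 F) w k x) = refl (Q8 F) w k (l.1 x) := by
    intro l hl w hw k x
    have h3 := polar_map (E_le_O l.2) w x
    rw [hw l hl] at h3
    rw [refl_apply, refl_apply, h3, map_sub, map_smul, hw l hl]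
  obtain ⟨d, hd⟩ := hc ⟨_, good8.refl_mul_refl_mem h0 h0' h1⟩ fun l hl => e8_ext fun x => by
    change l.1 (refl (Q8 F) v h0' (refl (Q8 F) u h0 x)) = refl (Q8 F) v h0' (refl (Q8 F) u h0 (l.1 x))
    rw [key l hl v hv, key l hl u hu]
  have h2 : ∀ x, refl (Q8 F) v h0' (refl (Q8 F) u h0 x) = d • x := hd
  obtain ⟨z, hz0, hz⟩ := exists_perp_ne (Q := Q8 F) ![u, v] (by rw [finrank8]; omega)
  have h3 := h2 z
  rw [refl_apply h0, show polar (Q8 F) u z = 0 from hz 0, mul_zero, zero_smul, sub_zero, refl_apply,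
    show polar (Q8 F) v z = 0 from hz 1, mul_zero, zero_smul, sub_zero] at h3
  obtain rfl : 1 = d := smul_left_injective F hz0 ((one_smul F z).trans h3)
  obtain ⟨x, hx⟩ := nondeg8'.exists_polar_eq (x := v) (fun e => h0' (by rw [e, map_zero])) (Q8 F v)
  have h4 := congrArg (refl (Q8 F) v h0') (h2 x)
  rw [← LinearEquiv.mul_apply, refl_mul_self, one_smul, LinearEquiv.coe_one, id, refl_apply, refl_apply, hx,
    inv_mul_cancel₀ h0', one_smul] at h4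
  exact ⟨_, (sub_right_injective h4).symm⟩

theorem aniso (ha : ∀ w ∈ FL L, Q8 F w = 0 → w = 0) {u : V8 F} (hu : u ∈ FL L) (h0 : u ≠ 0) :
    ∀ w ∈ FL L, ∃ c : F, w = c • u := by
  have h1 : Q8 F u ≠ 0 := fun e => h0 (ha u hu e)
  have key : ∀ w ∈ FL L, polar (Q8 F) w u ≠ 0 → ∃ c : F, w = c • u := by
    intro w hw h2
    have h3 : Q8 F w ≠ 0 := fun e => h2 (by rw [ha w hw e, polar_zero_left])
    obtain ⟨c, h4⟩ := rot hc hu (v := refl (Q8 F) w h3 u) (by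
      rw [refl_apply]
      exact sub_mem hu ((FL L).smul_mem _ hw)) h1 (refl_mem_O h3 u).symm
    rw [refl_apply] at h4
    have h5 : (Q8 F w)⁻¹ * polar (Q8 F) w u ≠ 0 := mul_ne_zero (inv_ne_zero h3) h2
    refine ⟨((Q8 F w)⁻¹ * polar (Q8 F) w u)⁻¹ * (1 - c), ?_⟩
    rw [mul_smul, eq_inv_smul_iff₀ h5]
    linear_combination (norm := module) -h4
  intro w hw
  by_cases h2 : polar (Q8 F) w u = 0
  swap
  · exact key w hw h2
  by_cases h3 : (2 : F) = 0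
  · obtain ⟨s, hs⟩ := FiniteField.isSquare_of_char_two
      (CharP.ringChar_of_prime_eq_zero Nat.prime_two (by exact_mod_cast h3)) (Q8 F w * (Q8 F u)⁻¹)
    refine ⟨-s, eq_neg_of_add_eq_zero_left (ha _ (add_mem hw ((FL L).smul_mem s hu)) ?_) |>.trans (neg_smul s u).symm⟩
    rw [Q_add, QuadraticMap.map_smul, polar_smul_right, h2, ← hs, smul_zero, add_zero, smul_eq_mul, inv_mul_cancel_right₀ h1,
      ← two_mul, h3, zero_mul]
  · obtain ⟨c, h4⟩ := key (w + u) (add_mem hw hu) (by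
      rw [polar_add_left, h2, zero_add, polar_self']
      exact mul_ne_zero h3 h1)
    exact ⟨c - 1, by linear_combination (norm := module) h4⟩

theorem hyp {e f : V8 F} (he : e ∈ FL L) (hf : f ∈ FL L) (h1 : Q8 F e = 0) (h2 : polar (Q8 F) e f ≠ 0) :
    ∀ w ∈ FL L, ∃ c d : F, w = c • e + d • f := by
  intro w hw
  obtain ⟨c, h3⟩ := sing hc he (sub_mem hw ((FL L).smul_mem (polar (Q8 F) e w * (polar (Q8 F) e f)⁻¹) hf)) h1
    (fun k => h2 (by rw [k, polar_zero_left])) (by rw [polar_sub_right, polar_smul_right, smul_eq_mul, inv_mul_cancel_right₀ h2, sub_self])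
  exact ⟨c, _, sub_eq_iff_eq_add.1 h3⟩

end cen

/-! ### points -/

theorem kp_iff {W : Submodule F (V8 F)} {v : V8 F} (hv : v ∈ W) (h : ∀ w ∈ W, ∃ c : F, w = c • v) {a : E8 F} :
    Kp a W W ↔ Fp a v := by
  refine ⟨fun k => h _ (k v hv), fun ⟨l, hl⟩ w hw => ?_⟩
  obtain ⟨c, rfl⟩ := h w hw
  rw [map_smul, hl]
  exact W.smul_mem _ (W.smul_mem _ hv)

theorem line_gmap (M : Gam (Q8 F)) {W : Submodule F (V8 F)} {v : V8 F} (h : ∀ w ∈ W, ∃ c : F, w = c • v) :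
    ∀ w ∈ gmap M W, ∃ c : F, w = c • M.1 v := by
  intro w hw
  obtain ⟨σ, hσ⟩ := gam_smul M
  obtain ⟨c, hc⟩ := h _ hw
  exact ⟨σ c, by rw [← hσ, ← hc, gam_apply_inv]⟩

theorem step {a b c : E8 F} (t : T3 a b c) {U₁ U₂ : Submodule F (V8 F)} (hd : finrank F U₁ = finrank F U₂) {y : V8 F}
    (hy : Q8 F y ≠ 0) (h : ∀ x ∈ U₂, pm x y ∈ U₁) (hb : ∀ x ∈ U₂, b.1 x = x) (hc : c.1 y = y) : ∀ x ∈ U₁, a.1 x = x := by
  have h1 : U₂.map (pr y) = U₁ := Submodule.eq_of_le_of_finrank_eq (by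
    rintro _ ⟨x, hx, rfl⟩
    exact h x hx) (by rw [hd]; exact (Submodule.equivMapOfInjective _ (pr_injective hy) U₂).finrank_eq.symm)
  rw [← h1]
  rintro _ ⟨x, hx, rfl⟩
  rw [pr_apply, t, hb x hx, hc]

/-- the unipotent radical of the stabiliser of a point -/
def UR (v : V8 F) : Subgroup (E8 F) where
  carrier := {s | s.1 v = v ∧ ∀ x, polar (Q8 F) v x = 0 → ∃ c : F, s.1 x = x + c • v}
  mul_mem' := by
    rintro a b ⟨ha, ha'⟩ ⟨hb, hb'⟩
    refine ⟨by rw [e8_mul, hb, ha], fun x hx => ?_⟩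
    obtain ⟨c, hc⟩ := ha' x hx
    obtain ⟨d, hd⟩ := hb' x hx
    exact ⟨c + d, by rw [e8_mul, hd, map_add, map_smul, hc, ha, add_smul, add_assoc]⟩
  one_mem' := ⟨rfl, fun x _ => ⟨0, by rw [zero_smul, add_zero]; rfl⟩⟩
  inv_mem' := by
    rintro a ⟨ha, ha'⟩
    refine ⟨a.1.symm_apply_eq.2 ha.symm, fun x hx => ?_⟩
    obtain ⟨c, hc⟩ := ha' x hx
    exact ⟨-c, a.1.symm_apply_eq.2 (by rw [map_add, map_smul, hc, ha, neg_smul, add_neg_cancel_right])⟩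

theorem UR_conj (M : Gam (Q8 F)) {v v' : V8 F} {l : F} (h : M.1 v = l • v') (h0 : v ≠ 0) {s : E8 F} (hs : s ∈ UR v) :
    conjE (Q8 F) M s ∈ UR v' := by
  have hl : l ≠ 0 := by
    rintro rfl
    exact gam_ne M h0 (by rw [h, zero_smul])
  obtain ⟨σ, c, hM⟩ := M.2
  refine ⟨smul_right_injective _ hl ?_, fun x hx => ?_⟩
  · change l • _ = l • _
    rw [← map_smul, ← h, conjE_apply, hs.1]
  · obtain ⟨x, rfl⟩ := M.1.surjective x
    have h1 := hM.polar v x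
    rw [h, polar_smul_left, hx, smul_zero, eq_comm, mul_eq_zero, or_iff_right hM.ne, map_eq_zero] at h1
    obtain ⟨d, hd⟩ := hs.2 x h1
    exact ⟨σ d * l, by rw [conjE_apply, hd, add_of_mem M.2, hM.smul, h, smul_smul]⟩

theorem UR_pgroup (v : V8 F) : IsPGroup (ringChar F) (UR v) := by
  rintro ⟨s, hs, hs'⟩
  have hp : (ringChar F).Prime := CharP.char_is_prime F _
  have := Fact.mk hp
  have : Nontrivial (V8 F) := ⟨_, _, e8_ne⟩
  have : CharP (Module.End F (V8 F)) (ringChar F) := charP_of_injective_algebraMap' F _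
  let ρ := LinearEquiv.automorphismGroup.toLinearMapMonoidHom (R := F) (M := V8 F)
  have h1 : (ρ s.1 - 1) ^ 3 = 0 := LinearMap.ext fun x => by
    obtain ⟨c, hc⟩ := hs' (s.1 x - x) (by
      have h2 := polar_map (E_le_O s.2) v x
      rw [hs] at h2
      rw [polar_sub_right, h2, sub_self])
    have h3 : ∀ y, (ρ s.1 - 1) y = s.1 y - y := fun _ => rfl
    rw [pow_three, Module.End.mul_apply, Module.End.mul_apply, h3, h3, h3, hc, add_sub_cancel_left, map_smul, hs, sub_self]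
    rfl
  have h2 : ρ s.1 ^ ringChar F ^ 2 = 1 := by
    have h3 := Nat.pow_le_pow_left hp.two_le 2
    rw [← sub_add_cancel (ρ s.1) 1, add_pow_char_pow_of_commute _ _ (Commute.one_right _),
      pow_eq_zero_of_le (by omega) h1, one_pow, zero_add]
  rw [← map_pow] at h2
  exact ⟨2, Subtype.ext (e8_ext fun x => LinearMap.congr_fun h2 x)⟩

theorem fp_left {a b c : E8 F} (t : T3 a b c) {u v : V8 F} (ha : a ∈ UR u) (hv : Q8 F v = 0) (h0 : v ≠ 0) (h : pm u v = 0) :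
    Fp b v := by
  obtain ⟨z, hz⟩ := nondeg8'.exists_polar_eq h0 1
  have h1 := pm_lin_right v z u
  rw [h, pm_zero, add_zero, hz, one_smul] at h1
  refine pl_line hv h0 ((mem_O.1 (E_le_O b.2) v).trans hv) (b.1.map_ne_zero_iff.2 h0) fun x => ?_
  obtain ⟨x, rfl⟩ := c.1.surjective x
  obtain ⟨k, hk⟩ := ha.2 (pm v x) (by rw [← polar_pm, h, polar_zero_left])
  exact ⟨x + k • pm u z, by rw [← t, hk, pm_add, pm_smul, h1]⟩

theorem fp_right {a b c : E8 F} (t : T3 a b c) {u v : V8 F} (ha : a ∈ UR u) (hv : Q8 F v = 0) (h0 : v ≠ 0) (h : pm v u = 0) :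
    Fp c v := by
  obtain ⟨z, hz⟩ := nondeg8'.exists_polar_eq h0 1
  have h1 := pm_lin_left v z u
  rw [h, zero_pm, zero_add, hz, one_smul] at h1
  refine pr_line hv h0 ((mem_O.1 (E_le_O c.2) v).trans hv) (c.1.map_ne_zero_iff.2 h0) fun x => ?_
  obtain ⟨x, rfl⟩ := b.1.surjective x
  obtain ⟨k, hk⟩ := ha.2 (pm x v) (by rw [polar_comm, polar_pm, h, polar_zero_right])
  exact ⟨x + k • pm z u, by rw [← t, hk, add_pm, smul_pm, h1]⟩

theorem two_zero {x y z : V8 F} {c : F} (h : pm x y = c • z) (hc : c ≠ 0) (hx : Q8 F x = 0) (hy : Q8 F y = 0) :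
    pm z x = 0 ∧ pm y z = 0 := by
  have h1 := pm_pm_left x y
  have h2 := pm_pm_right y x
  rw [h, smul_pm, hx, zero_smul] at h1
  rw [h, pm_smul, hy, zero_smul] at h2
  exact ⟨(smul_eq_zero.1 h1).resolve_left hc, (smul_eq_zero.1 h2).resolve_left hc⟩

section cx

variable {A : Subgroup (G8 F)} {Γ : Subgroup (MulAut (G8 F))} {M₁ M₂ : Gam (Q8 F)}

/-- three singular points -/
theorem par (h : Cx A Γ M₁ M₂) {v : V8 F} (hv : Q8 F v = 0) (h0 : v ≠ 0)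
    (hA : ∀ a b c : E8 F, T3 a b c → ((a : G8 F) ∈ A ↔ Fp a v ∧ Fp b (M₁⁻¹.1 v) ∧ Fp c (M₂⁻¹.1 v)))
    (h2 : ∃ c : F, pm (M₂⁻¹.1 v) v = c • M₁⁻¹.1 v) (h3 : ∃ c : F, pm v (M₁⁻¹.1 v) = c • M₂⁻¹.1 v) : False := by
  have q2 := gam_sing M₁⁻¹ hv
  have q3 := gam_sing M₂⁻¹ hv
  have n2 := gam_ne M₁⁻¹ h0
  have n3 := gam_ne M₂⁻¹ h0
  have fp : ∀ {u : V8 F} {s : E8 F}, s ∈ UR u → Fp s u := fun hs => ⟨1, hs.1.trans (one_smul F _).symm⟩
  have hle : ∀ s ∈ UR v, (s : G8 F) ∈ A := by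
    intro s hs
    obtain ⟨c₂, h2⟩ := h2
    obtain ⟨c₃, h3⟩ := h3
    by_cases k3 : c₃ = 0
    · rw [k3, zero_smul] at h3
      by_cases k2 : c₂ = 0
      · rw [k2, zero_smul] at h2
        obtain ⟨b, c, t⟩ := exists_T3 s
        exact (hA s b c t).2 ⟨fp hs, fp_left t hs q2 n2 h3, fp_right t hs q3 n3 h2⟩
      · have k := UR_conj M₁⁻¹ (one_smul F _).symm h0 hs
        obtain ⟨a, c, t⟩ := exists_T3₁ (conjE (Q8 F) M₁⁻¹ s)
        rw [← conjE_conjE_inv M₁ s, ← h.sym1 h.invA t]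
        exact (hA _ _ _ t).2 ⟨fp_right t.rot k hv h0 h3, fp k, fp_left t.rot k q3 n3 (two_zero h2 k2 q3 hv).1⟩
    · have k := UR_conj M₂⁻¹ (one_smul F _).symm h0 hs
      obtain ⟨a, b, t⟩ := exists_T3₂ (conjE (Q8 F) M₂⁻¹ s)
      obtain ⟨k1, k2⟩ := two_zero h3 k3 hv q2
      rw [← conjE_conjE_inv M₂ s, ← h.sym2 h.invA t]
      exact (hA _ _ _ t).2 ⟨fp_left t.rot.rot k hv h0 k1, fp_right t.rot.rot k q2 n2 k2, fp k⟩
  have hP := h.np ((UR v).map (QuotientGroup.mk' _)) (by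
    rintro _ ⟨s, hs, rfl⟩
    exact hle s hs) (by
    rintro a ha _ ⟨s, hs, rfl⟩
    obtain ⟨a, rfl⟩ := QuotientGroup.mk_surjective a
    obtain ⟨b, c, t⟩ := exists_T3 a
    obtain ⟨l, hl⟩ := ((hA a b c t).1 ha).1
    exact ⟨conjE (Q8 F) (og a) s, UR_conj (og a) hl h0 hs, rfl⟩) ((UR_pgroup v).map _)
  obtain ⟨f, hf⟩ := exists_hyp nondeg8' hv h0
  obtain ⟨z, z0, -, z1, z2⟩ := (good8 (F := F)).perp v f hf
  have h4 : (⟨siegel (Q8 F) v z hv z1, siegel_mem_E hv z1⟩ : E8 F) ∈ UR v := by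
    refine ⟨?_, fun x hx => ⟨-polar (Q8 F) z x, ?_⟩⟩
    · change siegel (Q8 F) v z hv z1 v = v
      rw [siegel_apply, polar_self_of_sing hv, polar_comm, z1, mul_zero, zero_smul, zero_smul, add_zero, sub_zero, sub_zero]
    · change siegel (Q8 F) v z hv z1 x = _
      rw [siegel_apply, hx, mul_zero, zero_smul, zero_smul, add_zero, sub_zero, neg_smul, sub_eq_add_neg]
  obtain ⟨d, hd⟩ := mk_eq_one_iff.1 (Subgroup.mem_bot.1 (hP.le ⟨_, h4, rfl⟩))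
  obtain ⟨c, rfl⟩ := sc_siegel hv z1 h0 hd
  rw [polar_smul_right, hf.pair', smul_eq_mul, mul_one] at z2
  exact z0 (by rw [z2, zero_smul])

end cx

end Fix

open Fix in
/-- **[Fix]** -/
theorem boxFix : BoxFix := by
  intro lm F _ _ A Γ M₁ M₂ N 𝓣 h hn
  rw [NoFix] at hn
  push Not at hn
  obtain ⟨v, hv, hv0⟩ := hn
  replace hv : v ∈ FL (lf N) := hv
  have hW : ∀ M ∈ LL Γ, ∀ v ∈ FL (lf N), M.1 v ∈ FL (lf N) := fun M hM v hv a ha => by
    rw [← conjE_conjE_inv M a, conjE_apply, hv _ (h.conj_lf (inv_mem hM) ha)]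
  have hA := fun a b c => h.toCx.core_S (U := FL (lf N)) (a := a) (b := b) (c := c)
    ((Submodule.ne_bot_iff _).2 ⟨v, hv, hv0⟩) (fun e => h.ne (eq_bot_iff.2 fun n hn => by
      obtain ⟨a, ha, rfl⟩ := lf_onto h.perfN hn
      rw [show a = 1 from e8_ext fun x => (e.ge Submodule.mem_top : x ∈ FL (lf N)) a ha]
      exact one_mem _)) hW
  have p1 : ∀ x ∈ gmap M₁⁻¹ (FL (lf N)), ∀ y ∈ gmap M₂⁻¹ (FL (lf N)), pm x y ∈ FL (lf N) := by
    rw [gmap_FL, gmap_FL]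
    exact fun x hx y hy => pm_mem (fun _ => h.tri) hx hy
  have p2 : ∀ x ∈ gmap M₂⁻¹ (FL (lf N)), ∀ y ∈ FL (lf N), pm x y ∈ gmap M₁⁻¹ (FL (lf N)) := by
    rw [gmap_FL, gmap_FL]
    refine fun x hx y hy => pm_mem (fun _ hb => ?_) hx hy
    obtain ⟨a, ha, c, hc, t⟩ := h.tri₁ hb
    exact ⟨c, hc, a, ha, t.rot⟩
  have p3 : ∀ x ∈ FL (lf N), ∀ y ∈ gmap M₁⁻¹ (FL (lf N)), pm x y ∈ gmap M₂⁻¹ (FL (lf N)) := by
    rw [gmap_FL, gmap_FL]
    refine fun x hx y hy => pm_mem (fun _ hc => ?_) hx hy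
    obtain ⟨a, ha, b, hb, t⟩ := h.tri₂ hc
    exact ⟨a, ha, b, hb, t.rot.rot⟩
  have line : ∀ u ∈ FL (lf N), u ≠ 0 → (∀ w ∈ FL (lf N), ∃ c : F, w = c • u) → FP3.Good A := by
    intro u hu hu0 hl
    have m1 := (apply_mem_gmap (M := M₁⁻¹)).2 hu
    have m2 := (apply_mem_gmap (M := M₂⁻¹)).2 hu
    have hA' : ∀ a b c : E8 F, T3 a b c → ((a : G8 F) ∈ A ↔ Fp a u ∧ Fp b (M₁⁻¹.1 u) ∧ Fp c (M₂⁻¹.1 u)) := fun a b c t => by
      rw [hA a b c t, kp_iff hu hl, kp_iff m1 (line_gmap _ hl), kp_iff m2 (line_gmap _ hl)]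
    by_cases hq : Q8 F u = 0
    · exact (par h.toCx hq hu0 hA' (line_gmap _ hl _ (p2 _ m2 _ hu)) (line_gmap _ hl _ (p3 _ hu _ m1))).elim
    refine lm.g2 lm.ex3 F A _ _ (Q_ne M₁⁻¹ hq) (Q_ne M₂⁻¹ hq) fun a b c t => (hA' a b c t).trans
      ⟨fun k => k.2, fun k => ⟨?_, k⟩⟩
    obtain ⟨⟨l, k1⟩, l', k2⟩ := k
    obtain ⟨d, hd⟩ := hl _ (p1 _ m1 _ m2)
    have d0 : d ≠ 0 := by
      rintro rfl
      have h1 := norm_pm (M₁⁻¹.1 u) (M₂⁻¹.1 u)
      rw [hd, zero_smul, map_zero] at h1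
      exact mul_ne_zero (Q_ne M₁⁻¹ hq) (Q_ne M₂⁻¹ hq) h1.symm
    have h1 := t (M₁⁻¹.1 u) (M₂⁻¹.1 u)
    rw [k1, k2, smul_pm, pm_smul, hd, map_smul, smul_comm l', smul_comm l] at h1
    exact ⟨l * l', by rw [mul_smul]; exact smul_right_injective _ d0 h1⟩
  by_cases ha : ∀ w ∈ FL (lf N), Q8 F w = 0 → w = 0
  · exact line v hv hv0 (aniso (fun _ => h.sc_of_comm') ha hv hv0)
  push Not at ha
  obtain ⟨e, he, he1, he0⟩ := ha
  by_cases hb : ∀ w ∈ FL (lf N), polar (Q8 F) e w = 0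
  · exact line e he he0 fun w hw => sing (fun _ => h.sc_of_comm') he hw he1 he0 (hb w hw)
  push Not at hb
  obtain ⟨g, hg, hg1⟩ := hb
  obtain ⟨f, hf, hf1, hef⟩ : ∃ f ∈ FL (lf N), Q8 F f = 0 ∧ polar (Q8 F) e f ≠ 0 :=
    ⟨g + (-(Q8 F g * (polar (Q8 F) e g)⁻¹)) • e, add_mem hg ((FL _).smul_mem _ he), by
      rw [Q_add, QuadraticMap.map_smul, polar_smul_right, polar_comm _ g e, he1, smul_zero, add_zero, smul_eq_mul, neg_mul,
        inv_mul_cancel_right₀ hg1, add_neg_cancel], by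
      rwa [polar_add_right, polar_smul_right, polar_self_of_sing he1, smul_zero, add_zero]⟩
  have h2 : finrank F (FL (lf N)) = 2 := by
    have h3 : FL (lf N) = Submodule.span F (Set.range ![e, f]) := by
      refine le_antisymm (fun w hw => ?_) (Submodule.span_le.2 ?_)
      · obtain ⟨c, d, rfl⟩ := hyp (fun _ => h.sc_of_comm') he hf he1 hef w hw
        exact add_mem (Submodule.smul_mem _ _ (Submodule.subset_span ⟨0, rfl⟩))
          (Submodule.smul_mem _ _ (Submodule.subset_span ⟨1, rfl⟩))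
      · rintro _ ⟨i, rfl⟩
        fin_cases i
        exacts [he, hf]
    rw [h3, finrank_span_eq_card (LinearIndependent.pair_iff.2 fun s t k => ?_), Fintype.card_fin]
    have k1 := congrArg (polar (Q8 F) e) k
    rw [polar_add_right, polar_smul_right, polar_smul_right, polar_self_of_sing he1, smul_zero, zero_add,
      polar_zero_right, smul_eq_zero, or_iff_left hef] at k1
    rw [k1, zero_smul, add_zero, smul_eq_zero, or_iff_left he0] at k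
    exact ⟨k, k1⟩
  have hq : Q8 F (e + f) ≠ 0 := by rwa [Q_add, he1, hf1, zero_add, zero_add]
  have hef' : polar (Q8 F) (M₁⁻¹.1 e) (M₁⁻¹.1 f) ≠ 0 := by
    obtain ⟨σ, c, hM⟩ := M₁⁻¹.2
    rw [hM.polar]
    exact mul_ne_zero hM.ne ((map_ne_zero σ).2 hef)
  obtain ⟨a, b, c, t, ra, -, -, k1, k2, k3⟩ := lm.ex3 F _ _ _ (gam_sing M₁⁻¹ he1) (gam_sing M₁⁻¹ hf1) hef' (Q_ne M₂⁻¹ hq)
  have m1 := (apply_mem_gmap (M := M₁⁻¹)).2 (add_mem he hf)
  have fb : ∀ x ∈ gmap M₁⁻¹ (FL (lf N)), b.1 x = x := by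
    have m2 := (apply_mem_gmap (M := M₁⁻¹)).2 he
    have m3 := (apply_mem_gmap (M := M₁⁻¹)).2 hf
    rw [gmap_FL] at m2 m3 ⊢
    intro x hx
    obtain ⟨c, d, rfl⟩ := hyp (fun _ => h.sc_of_comm M₁) m2 m3 (gam_sing M₁⁻¹ he1) hef' x hx
    rw [map_add, map_smul, map_smul, k1, k2]
  have fa := step t (finrank_gmap _ _).symm (Q_ne M₂⁻¹ hq) (fun x hx => p1 x hx _ (apply_mem_gmap.2 (add_mem he hf))) fb k3
  have fc := step t.rot.rot (finrank_gmap _ _) (Q_ne M₁⁻¹ hq) (fun x hx => p3 x hx _ m1) fa (fb _ m1)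
  exact h.toCx.good_12 h2 hW ((hA a b c t).2 ⟨fun x hx => (fa x hx).symm ▸ hx, fun x hx => (fb x hx).symm ▸ hx,
    fun x hx => (fc x hx).symm ▸ hx⟩) (Or.inl ra)

end Cfsg.Agent.N2C.D4
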