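import Cfsg.Agent.N2.Cl.D4.Pl
import Cfsg.Agent.H749.QuadSplit

/-!
# N2 (S3519), `PΩ₈⁺(q)` with triality: the subgroup `G₂(q)`, isometries with square `-1` (helper63)
-/

set_option autoImplicit false
set_option linter.unusedSectionVars false

namespace Cfsg.Agent.N2C.D4

open QuadraticMap Module Cfsg.Agent.LieClassical.QuadForms Cfsg.Agent.LieClassical.OrthCore
  Cfsg.Agent.LieClassical.OrthTrans Cfsg.Agent.ClassicalGeometry.OrthSemi Cfsg.Agent.ClassicalGeometry.OrthAut1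
  Cfsg.Agent.ClassicalGeometry.TrialityOct Cfsg.Agent.ClassicalGeometry.Triality
  Cfsg.Agent.H989.OutOrth.Basic Cfsg.Agent.H989.OutOrth.Tri Cfsg.Agent.SB.D4

namespace G2

section je

variable {F V : Type} [Field F] [Finite F] [AddCommGroup V] [Module F V] [FiniteDimensional F V]
  {Q : QuadraticForm F V}

theorem mem_cut {u x : V} : x ∈ prp Q (F ∙ u) ↔ polar Q u x = 0 := by
  refine mem_prp.trans ⟨fun h => (polar_comm _ _ _).trans (h u (Submodule.mem_span_singleton_self u)), fun h y hy => ?_⟩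
  obtain ⟨c, rfl⟩ := Submodule.mem_span_singleton.1 hy
  rw [polar_smul_right, polar_comm, h, smul_zero]

theorem cut (h2 : (2 : F) ≠ 0) (hQ : Nondeg Q) {W : Submodule F V} (hW : Nd Q W) {u : V} (hu : u ∈ W) (h : Q u ≠ 0) :
    Nd Q (W ⊓ prp Q (F ∙ u)) ∧ finrank F ↥(W ⊓ prp Q (F ∙ u)) + 1 = finrank F W := by
  have h1 : Nd Q (F ∙ u) := fun x hx k => by
    obtain ⟨c, rfl⟩ := Submodule.mem_span_singleton.1 hx
    have k1 := k u (Submodule.mem_span_singleton_self u)
    rw [polar_smul_left, polar_self', smul_eq_mul] at k1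
    rw [(mul_eq_zero.1 k1).resolve_right (mul_ne_zero h2 h), zero_smul]
  have h3 : (F ∙ u) ≤ W := (Submodule.span_singleton_le_iff_mem u W).2 hu
  have h4 := h1.finrank_inf_prp hQ h3
  rw [finrank_span_singleton (fun e => h (by rw [e, QuadraticMap.map_zero]))] at h4
  exact ⟨h1.nd_inf_prp hQ h3 hW, by omega⟩

/-- `g` is `J` on `W` and the identity on the complement -/
structure Oj (Q : QuadraticForm F V) (J g : V ≃ₗ[F] V) (W : Submodule F V) : Prop where
  nd : Nd Q W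
  inv : ∀ x ∈ W, J x ∈ W
  iso : g ∈ O Q
  eq : ∀ x ∈ W, g x = J x
  mv : ∀ x, g x - x ∈ W

theorem Oj.step (h2 : (2 : F) ≠ 0) (hQ : Nondeg Q) {J g : V ≃ₗ[F] V} (hJ : J ∈ O Q) (hq : ∀ x, J (J x) = -x)
    {W : Submodule F V} (h : Oj Q J g W) (hd : 2 ≤ finrank F W) :
    ∃ (u v : V) (hu : Q u ≠ 0) (hv : Q v ≠ 0) (W' : Submodule F V), Q u = 1 ∧ Q v = 2 ∧
      finrank F W' + 2 = finrank F W ∧ Oj Q J (refl Q u hu * refl Q v hv * g) W' := by
  obtain ⟨⟨u, hW⟩, h1⟩ := H749.exists_value (Q := Q.comp W.subtype) (fun x hx => Subtype.ext (h.nd x x.2 fun y hy => by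
    simpa [polar] using hx ⟨y, hy⟩)) hd 1
  have h1 : Q u = 1 := h1
  have h3 : Q (J u) = 1 := (mem_O.1 hJ u).trans h1
  have h4 : polar Q u (J u) = 0 := by
    have k := polar_map hJ u (J u)
    rw [hq, polar_neg_right, polar_comm] at k
    exact (mul_eq_zero.1 (show 2 * polar Q u (J u) = 0 by linear_combination -k)).resolve_left h2
  have h4' : polar Q (J u) u = 0 := (polar_comm _ _ _).trans h4
  have h5 : Q (J u - u) = 2 := by
    rw [sub_eq_add_neg, Q_add, QuadraticMap.map_neg, polar_neg_right, h1, h3, h4']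
    ring
  have hu : Q (J u) ≠ 0 := h3 ▸ one_ne_zero
  have hv : Q (J u - u) ≠ 0 := h5 ▸ h2
  obtain ⟨k1, k2⟩ := cut h2 hQ h.nd hW (h1 ▸ one_ne_zero)
  obtain ⟨k3, k4⟩ := cut h2 hQ k1 (u := J u) ⟨h.inv u hW, mem_cut.2 h4⟩ hu
  have hm : ∀ x, x ∈ W ⊓ prp Q (F ∙ u) ⊓ prp Q (F ∙ J u) ↔ x ∈ W ∧ polar Q u x = 0 ∧ polar Q (J u) x = 0 := fun x => by
    rw [Submodule.mem_inf, Submodule.mem_inf, mem_cut, mem_cut, and_assoc]
  have hi : ∀ x ∈ W ⊓ prp Q (F ∙ u) ⊓ prp Q (F ∙ J u), J x ∈ W ⊓ prp Q (F ∙ u) ⊓ prp Q (F ∙ J u) := fun x hx => by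
    obtain ⟨j1, j2, j3⟩ := (hm x).1 hx
    refine (hm _).2 ⟨h.inv x j1, ?_, (polar_map hJ u x).trans j2⟩
    have k := polar_map hJ (J u) x
    rwa [hq, polar_neg_left, j3, neg_eq_zero] at k
  have hO : refl Q (J u) hu * refl Q (J u - u) hv * g ∈ O Q := mul_mem (mul_mem (refl_mem_O hu) (refl_mem_O hv)) h.iso
  have ha : ∀ x, (refl Q (J u) hu * refl Q (J u - u) hv * g) x = refl Q (J u) hu (refl Q (J u - u) hv (g x)) :=
    fun _ => rfl
  have e1 : (refl Q (J u) hu * refl Q (J u - u) hv * g) u = u := by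
    rw [ha, h.eq u hW, refl_sub_apply (h1.trans h3.symm), refl_apply, h4', mul_zero, zero_smul, sub_zero]
  have e2 : (refl Q (J u) hu * refl Q (J u - u) hv * g) (J u) = J u := by
    have e3 : refl Q (J u - u) hv u = J u := by
      have k : refl Q (J u - u) hv (refl Q (J u - u) hv (J u)) = J u := reflLin_reflLin hv _
      rwa [refl_sub_apply (h1.trans h3.symm) hv] at k
    rw [ha, h.eq _ (h.inv u hW), hq, map_neg, map_neg, e3, refl_apply, polar_self', h3]
    module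
  refine ⟨J u, J u - u, hu, hv, _, h3, h5, by omega, k3, hi, hO, fun x hx => ?_, fun x => (hm _).2 ⟨?_, ?_, ?_⟩⟩
  · obtain ⟨-, j2, j3⟩ := (hm _).1 (hi x hx)
    rw [ha, h.eq x hx.1.1, refl_apply hv, polar_sub_left, j2, j3, sub_zero, mul_zero, zero_smul, sub_zero, refl_apply, j3,
      mul_zero, zero_smul, sub_zero]
  · rw [ha, refl_apply, refl_apply hv, sub_right_comm, sub_right_comm (g x)]
    exact W.sub_mem (W.sub_mem (h.mv x) (W.smul_mem _ (W.sub_mem (h.inv u hW) hW))) (W.smul_mem _ (h.inv u hW))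
  · rw [polar_sub_right, sub_eq_zero, ← polar_map hO u x, e1]
  · rw [polar_sub_right, sub_eq_zero, ← polar_map hO (J u) x, e2]

theorem Oj.step2 (h2 : (2 : F) ≠ 0) (hG : Good Q) {J g : V ≃ₗ[F] V} (hJ : J ∈ O Q) (hq : ∀ x, J (J x) = -x)
    {W : Submodule F V} (h : Oj Q J g W) (hd : 4 ≤ finrank F W) :
    ∃ e ∈ E Q, ∃ W' : Submodule F V, finrank F W' + 4 = finrank F W ∧ Oj Q J (e * g) W' := by
  obtain ⟨u, v, hu, hv, W₁, k1, k2, k3, k4⟩ := h.step h2 hG.nondeg hJ hq (by omega)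
  obtain ⟨u', v', hu', hv', W₂, j1, j2, j3, j4⟩ := k4.step h2 hG.nondeg hJ hq (by omega)
  refine ⟨refl Q u' hu' * refl Q v' hv' * (refl Q u hu * refl Q v hv), ?_, W₂, by omega, by rwa [mul_assoc]⟩
  have e : refl Q u' hu' * refl Q v' hv' * (refl Q u hu * refl Q v hv) =
      refl Q u' hu' * (refl Q v' hv' * refl Q u hu * (refl Q v' hv')⁻¹) * (refl Q v' hv' * refl Q v hv) := by group
  have h3 : Q (refl Q v' hv' u) = Q u := mem_O.1 (refl_mem_O hv') u
  rw [e, refl_conj (refl_mem_O hv') hu (h3 ▸ hu)]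
  exact mul_mem (hG.refl_mul_refl_mem _ _ (h3.trans (k1.trans j1.symm))) (hG.refl_mul_refl_mem _ _ (k2.trans j2.symm))

end je

variable {F : Type} [Field F] [Fintype F]

theorem split {x : V8 F} (hx : Q8 F x ≠ 0) :
    ∃ e f : V8 F, Q8 F e = 0 ∧ Q8 F f = 0 ∧ polar (Q8 F) e f ≠ 0 ∧ x = e + f := by
  obtain ⟨e, f, h⟩ := (good8 (F := F)).exists_hyp
  have h1 : Q8 F (e + Q8 F x • f) = Q8 F x := by
    rw [Q_add, QuadraticMap.map_smul, polar_smul_right, h.left, h.right, h.pair]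
    simp
  obtain ⟨g, hg, k⟩ := good8.trans_norm (v := e + Q8 F x • f) (v' := x)
    (fun e => hx (by rw [← h1, e, QuadraticMap.map_zero])) (fun e => hx (by rw [e, QuadraticMap.map_zero])) h1
  have hO := E_le_O hg
  refine ⟨g e, g (Q8 F x • f), (mem_O.1 hO e).trans h.left, ?_, ?_, by rw [← map_add, k]⟩
  · rw [mem_O.1 hO, QuadraticMap.map_smul, h.right, smul_zero]
  · rwa [polar_map hO, polar_smul_right, h.pair, smul_eq_mul, mul_one]

/-- the index -/
theorem index_ge {A : Subgroup (G8 F)} {z : V8 F} (hz : Q8 F z ≠ 0) (hA : ∀ a : E8 F, (a : G8 F) ∈ A → Fp a z) :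
    Nat.card F ^ 6 ≤ A.index := by
  have := finite8 (F := F)
  obtain ⟨e, f, he, hf, hef, rfl⟩ := split hz
  have hd : 6 ≤ finrank F (prp (Q8 F) (Submodule.span F {e, f})) := by
    classical
    have h1 := dim_prp (Submodule.span F ({e, f} : Set (V8 F)))
    have h2 := (finrank_span_le_card (R := F) ({e, f} : Set (V8 F))).trans
      (show _ ≤ 2 by simpa using Finset.card_le_two (a := e) (b := f))
    omega
  have hw : ∀ w : prp (Q8 F) (Submodule.span F {e, f}), polar (Q8 F) e w = 0 ∧ polar (Q8 F) f w = 0 := fun w =>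
    ⟨(polar_comm _ _ _).trans (mem_prp.1 w.2 e (Submodule.subset_span (by simp))),
      (polar_comm _ _ _).trans (mem_prp.1 w.2 f (Submodule.subset_span (by simp)))⟩
  let s : prp (Q8 F) (Submodule.span F {e, f}) → E8 F := fun w => ⟨siegel (Q8 F) e w he (hw w).1, siegel_mem_E _ _⟩
  have hs : ∀ w, (s w).1 (e + f) = e + f + polar (Q8 F) e f • w.1 - (Q8 F w * polar (Q8 F) e f) • e := fun w => by
    change siegel (Q8 F) e w he (hw w).1 (e + f) = _
    rw [siegel_apply, polar_add_right, polar_add_right, polar_self_of_sing he, polar_comm _ w.1 e, polar_comm _ w.1 f,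
      (hw w).1, (hw w).2]
    simp
  calc Nat.card F ^ 6 ≤ Nat.card F ^ finrank F (prp (Q8 F) (Submodule.span F {e, f})) :=
        Nat.pow_le_pow_right Nat.card_pos hd
    _ = _ := (Module.natCard_eq_pow_finrank (K := F)).symm
    _ ≤ _ := Nat.card_le_card_of_injective (fun w => ((s w : G8 F) : G8 F ⧸ A)) fun w w' h => by
      obtain ⟨c, hc⟩ := hA ((s w)⁻¹ * s w') (QuotientGroup.eq.1 h)
      have h1 : (s w').1 (e + f) = c • (s w).1 (e + f) := by
        rw [← map_smul, ← hc]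
        exact ((s w).1.apply_symm_apply _).symm
      rw [hs, hs] at h1
      have h2 := congrArg (polar (Q8 F) e) h1
      have h3 := congrArg (polar (Q8 F) f) h1
      simp only [polar_smul_right, polar_sub_right, polar_add_right, polar_self_of_sing he, polar_self_of_sing hf,
        (hw _).1, (hw _).2, smul_eq_mul, polar_comm (Q8 F) f e] at h2 h3
      have h4 : c = 1 := mul_right_cancel₀ hef (by linear_combination -h2)
      subst h4
      have h5 : Q8 F w' = Q8 F w := mul_right_cancel₀ (mul_ne_zero hef hef) (by linear_combination -h3)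
      rw [h5, one_smul, sub_left_inj, add_right_inj] at h1
      exact Subtype.ext (smul_right_injective _ hef h1).symm

/-- fixed vectors of given norm -/
theorem fix_eq {b : E8 F} (hb : Rp b) {e f : V8 F} (he : Q8 F e = 0) (hf : Q8 F f = 0) (hef : polar (Q8 F) e f ≠ 0)
    (h1 : b.1 e = e) (h2 : b.1 f = f) {v : V8 F} (hv : b.1 v = v) :
    polar (Q8 F) e f • v = polar (Q8 F) f v • e + polar (Q8 F) e v • f := by
  have h3 : LinearIndependent F ![e, f] := LinearIndependent.pair_iff.2 fun s t k => by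
    have k1 := congrArg (polar (Q8 F) e) k
    have k2 := congrArg (polar (Q8 F) f) k
    simp only [polar_smul_right, polar_add_right, polar_self_of_sing he, polar_self_of_sing hf, smul_eq_mul,
      polar_comm (Q8 F) f e, polar_zero_right] at k1 k2
    exact ⟨mul_right_cancel₀ hef (by linear_combination k2), mul_right_cancel₀ hef (by linear_combination k1)⟩
  have h4 : Submodule.span F (Set.range ![e, f]) = Fx (Subgroup.zpowers b.1) :=
    Submodule.eq_of_le_of_finrank_eq (Submodule.span_le.2 (by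
      rintro _ ⟨i, rfl⟩
      fin_cases i
      exacts [mem_Fx_zpowers.2 h1, mem_Fx_zpowers.2 h2])) (by rw [finrank_span_eq_card h3, hb.fx_dim]; rfl)
  have h5 := h4.ge (mem_Fx_zpowers.2 hv)
  rw [Matrix.range_cons, Matrix.range_cons, Matrix.range_empty, Set.union_empty, Set.singleton_union] at h5
  obtain ⟨s, t, rfl⟩ := Submodule.mem_span_pair.1 h5
  simp only [polar_smul_right, polar_add_right, polar_self_of_sing he, polar_self_of_sing hf, smul_eq_mul,
    polar_comm (Q8 F) f e]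
  module

theorem Rp.fp {b u : E8 F} (hb : Rp b) {x : V8 F} (h : Fp (u⁻¹ * b * u) x) : b.1 (u.1 x) = u.1 x := by
  obtain ⟨c, hc⟩ := h
  have h1 : b.1 (u.1 x) = c • u.1 x := by
    rw [← map_smul, ← hc]
    exact (u.1.apply_symm_apply _).symm
  refine hb.fix (U := F ∙ u.1 x) ((finrank_span_le_card _).trans (by simp)) (fun v hv => ?_) _
    (Submodule.mem_span_singleton_self _)
  obtain ⟨d, rfl⟩ := Submodule.mem_span_singleton.1 hv
  rw [map_smul, h1]
  exact Submodule.smul_mem _ _ (Submodule.smul_mem _ _ (Submodule.mem_span_singleton_self _))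

end G2

open G2

/-- **isometries with square `-1`** -/
theorem boxJE : BoxJE := fun F _ _ J h2 hJ hq => by
  have h0 : Oj (Q8 F) J J ⊤ := ⟨nd_top nondeg8', fun _ _ => trivial, hJ, fun _ _ => rfl, fun _ => trivial⟩
  obtain ⟨e, he, W, k1, k2⟩ := h0.step2 h2 good8 hJ hq (by rw [finrank_top, finrank8]; omega)
  rw [finrank_top, finrank8] at k1
  obtain ⟨e', he', W', j1, j2⟩ := k2.step2 h2 good8 hJ hq (by omega)
  have h3 : W' = ⊥ := Submodule.finrank_eq_zero.1 (by omega)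
  have h4 : e' * (e * J) = 1 := LinearEquiv.ext fun x => sub_eq_zero.1 (h3.le (j2.mv x))
  rw [← mul_assoc] at h4
  rw [eq_inv_of_mul_eq_one_right h4]
  exact inv_mem (mul_mem he' he)

/-- **`G₂(q)`** -/
theorem boxG2 : BoxG2 := fun hE F _ _ A x y hx hy hA => by
  have := finite8 (F := F)
  obtain ⟨e, f, he, hf, hef, rfl⟩ := split hx
  obtain ⟨a, b, c, ht, -, hb, hc, k1, k2, k3⟩ := hE F e f y he hf hef hy
  refine ⟨a, (hA a b c ht).2 ⟨⟨1, by rw [map_add, k1, k2, one_smul]⟩, 1, by rw [k3, one_smul]⟩, le_trans ?_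
    (index_ge (z := pm (e + f) y) (by rw [norm_pm]; exact mul_ne_zero hx hy) fun t h => ?_)⟩
  swap
  · obtain ⟨u, w, ht'⟩ := exists_T3 t
    obtain ⟨⟨l, hl⟩, m, hm⟩ := (hA _ _ _ ht').1 h
    exact ⟨l * m, by rw [ht', hl, hm, smul_pm, pm_smul, smul_smul]⟩
  have h1 : ∀ X : MulAction.fixedBy (G8 F ⧸ A) (a : G8 F), ∃ t u w : E8 F, ((t : G8 F) : G8 F ⧸ A) = X.1 ∧ T3 t u w ∧
      b.1 (u.1 (e + f)) = u.1 (e + f) ∧ c.1 (w.1 y) = w.1 y := fun ⟨X, hX⟩ => by
    obtain ⟨t, rfl⟩ := QuotientGroup.mk_surjective X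
    obtain ⟨t, rfl⟩ := QuotientGroup.mk_surjective t
    obtain ⟨u, w, ht'⟩ := exists_T3 t
    obtain ⟨j1, j2⟩ := (hA _ _ _ ((ht'.inv.mul ht).mul ht')).1 ((N2.smul_mk_iff A _ _).1 hX)
    exact ⟨t, u, w, rfl, ht', Rp.fp hb j1, Rp.fp hc j2⟩
  choose t u w j1 j2 j3 j4 using h1
  have hn : ∀ X, polar (Q8 F) f ((u X).1 (e + f)) * polar (Q8 F) e ((u X).1 (e + f)) =
      polar (Q8 F) e f * Q8 F (e + f) := fun X => by
    have h2 := congrArg (Q8 F) (fix_eq hb he hf hef k1 k2 (j3 X))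
    rw [QuadraticMap.map_smul, mem_O.1 (E_le_O (u X).2), Q_add (_ • e), QuadraticMap.map_smul, QuadraticMap.map_smul, he, hf,
      polar_smul_left, polar_smul_right] at h2
    simp only [smul_eq_mul] at h2
    exact mul_right_cancel₀ hef (by linear_combination -h2)
  have hn' : ∀ X, polar (Q8 F) f ((u X).1 (e + f)) ≠ 0 := fun X => left_ne_zero_of_mul (hn X ▸ mul_ne_zero hef hx)
  have h2 := Nat.card_le_card_of_injective
    (fun p : MulAction.fixedBy (G8 F ⧸ A) (a : G8 F) × Fˣ => ((Units.mk0 _ (hn' p.1), ⟨p.2.1 • (w p.1).1 y,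
      Submodule.smul_mem _ _ (mem_Fx_zpowers.2 (j4 p.1))⟩) : Fˣ × Fx (Subgroup.zpowers c.1))) fun ⟨X, l⟩ ⟨X', l'⟩ k => by
      have i1 : polar (Q8 F) f ((u X).1 (e + f)) = polar (Q8 F) f ((u X').1 (e + f)) :=
        congrArg (fun p : Fˣ × Fx (Subgroup.zpowers c.1) => p.1.1) k
      have i2 : l.1 • (w X).1 y = l'.1 • (w X').1 y := congrArg (fun p : Fˣ × Fx (Subgroup.zpowers c.1) => p.2.1) k
      have i3 : polar (Q8 F) e ((u X).1 (e + f)) = polar (Q8 F) e ((u X').1 (e + f)) :=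
        mul_left_cancel₀ (hn' X) (by rw [hn, i1, hn])
      have i4 : (u X).1 (e + f) = (u X').1 (e + f) := smul_right_injective _ hef (by
        simp only
        rw [fix_eq hb he hf hef k1 k2 (j3 X), fix_eq hb he hf hef k1 k2 (j3 X'), i1, i3])
      obtain rfl : X = X' := Subtype.ext (by
        rw [← j1, ← j1]
        refine QuotientGroup.eq.2 ((hA _ _ _ ((j2 X).inv.mul (j2 X'))).2 ⟨⟨1, ?_⟩, l'.1⁻¹ * l.1, ?_⟩)
        · change (u X).1.symm ((u X').1 (e + f)) = _
          rw [← i4, LinearEquiv.symm_apply_apply, one_smul]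
        · change (w X).1.symm ((w X').1 y) = _
          rw [LinearEquiv.symm_apply_eq, map_smul, mul_smul, i2, inv_smul_smul₀ l'.ne_zero])
      have i5 : (w X).1 y ≠ 0 := (w X).1.map_ne_zero_iff.2 fun e => hy (by rw [e, QuadraticMap.map_zero])
      exact Prod.ext rfl (Units.ext (smul_left_injective F i5 i2))
  rw [Nat.card_prod, Nat.card_prod, Module.natCard_eq_pow_finrank (K := F) (V := Fx _), hc.fx_dim, mul_comm] at h2
  calc FP3.fx A a ^ 3 ≤ (Nat.card F ^ 2) ^ 3 := Nat.pow_le_pow_left (Nat.le_of_mul_le_mul_left h2 Nat.card_pos) 3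
    _ = _ := by ring

end Cfsg.Agent.N2C.D4
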