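import Cfsg.Agent.N2.Cl.D4.Defs
import Cfsg.Agent.N2.Cl.FrO.Free

/-!
# N2 (S3519), `PΩ₈⁺(q)` : two blocks of dimension four (helper43)
-/

set_option autoImplicit false
set_option maxHeartbeats 400000
set_option linter.unusedSectionVars false

namespace Cfsg.Agent.N2C.D4

open QuadraticMap Module Cfsg.Agent.LieClassical.OrthCore Cfsg.Agent.ClassicalGeometry.Triality Cfsg.Agent.SB.D4
open Cfsg.Agent.H955 (res perp perp_eq)

/-- **two blocks** -/
theorem boxG44 : BoxG44 := fun F _ _ A U h4 hn _ _ hA => by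
  have h8 : finrank F (V8 F) = 8 := by simp
  have h5 := finrank_prp (Q := Q8 F) nondeg8 U
  have he : perp (Q8 F) U = prp (Q8 F) U := perp_eq U
  refine (N2.good_comap (QuotientGroup.mk' _) (QuotientGroup.mk'_surjective _) A).1 (FrO.good_two' (W := U) nondeg8
    (by omega) (fun x hx => Subtype.ext (hn x x.2 fun y hy => hx ⟨y, hy⟩)) (fun h => ?_) (fun h => ?_) fun g =>
      (hA g).trans (or_congr ⟨fun h => FixO.im_eq h le_rfl, fun h v hv => h.le ⟨v, hv, rfl⟩⟩ ?_))
  · rw [h, finrank_bot] at h4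
    omega
  · rw [← he, h, finrank_bot] at h5
    omega
  · rw [he]
    exact ⟨fun h => FixO.im_eq h (by omega), fun h v hv => h.le ⟨v, hv, rfl⟩⟩

end Cfsg.Agent.N2C.D4
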