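import Cfsg.Agent.N2.Cl.D4.Defs
import Cfsg.Agent.N2.Cl.FrO.Free

/-!
# N2 (S3519), `PΩ₈⁺(q)` : four planes (helper43)
-/

set_option autoImplicit false
set_option maxHeartbeats 400000
set_option linter.unusedSectionVars false

namespace Cfsg.Agent.N2C.D4

open QuadraticMap Module Cfsg.Agent.LieClassical.OrthCore Cfsg.Agent.ClassicalGeometry.Triality Cfsg.Agent.SB.D4
open Cfsg.Agent.H182.Sign (Sg)
open Cfsg.Agent.H955 (res)

namespace GI2

variable {F V : Type} [Field F] [Finite F] [AddCommGroup V] [Module F V] [Finite V] {Q : QuadraticForm F V}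
  {W : Submodule F V}

/-- anisotropic planes -/
theorem sg_minus (h2 : finrank F W = 2) (h : Aniso Q W) : Sg (res Q W) 1 (-1) := by
  obtain ⟨a, b, h3, e, he⟩ := H182.Sign.isMinus_of_aniso (res Q W) h2 fun x hx h3 => hx (Subtype.ext (h x x.2 h3))
  exact (H182.Sign.sg_minusForm 0 h3).congr e he

/-- hyperbolic planes -/
theorem sg_plus (h2 : finrank F W = 2) (hn : Nd Q W) (h : ¬ Aniso Q W) : Sg (res Q W) 1 1 := by
  rcases H182.Sign.classify' (res Q W) (fun x hx => Subtype.ext (hn x x.2 fun y hy => hx ⟨y, hy⟩)) 1 h2 with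
    ⟨e, he⟩ | ⟨k, hk, a, b, h3, e, he⟩
  · exact (H182.Sign.sg_plusForm 1).congr e he
  · obtain rfl : k = 0 := by omega
    refine (h fun x hx h4 => ?_).elim
    obtain ⟨u, hu⟩ := e.surjective ⟨x, hx⟩
    have h5 := he u
    rw [hu] at h5
    have h6 := h3 (u (.inr 0)) (u (.inr 1)) (by
      have h6 : LieClassical.OrthForms.minusForm 0 F a b u = 0 := h5.symm.trans h4
      simp [LieClassical.OrthForms.minusForm] at h6
      linear_combination h6)
    have h7 : u = 0 := funext fun i => by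
      rcases i with (i | i) | i
      · exact i.elim0
      · exact i.elim0
      · fin_cases i
        exacts [h6.1, h6.2]
    rw [h7, map_zero] at hu
    exact (congrArg Subtype.val hu).symm

end GI2

/-- **four planes** -/
theorem boxGI2 : BoxGI2 := fun _ F _ _ A P hD h2 h hA => by
  have h1 : ∀ g : E (Q8 F), g ∈ A.comap (QuotientGroup.mk' _) ↔ ∀ i, ∃ k, FixO.im g (P i) = P k := fun g =>
    (hA g).trans (forall_congr' fun i => exists_congr fun k =>
      ⟨fun h3 => FixO.im_eq h3 ((h2 k).trans (h2 i).symm).le, fun h3 v hv => h3.le ⟨v, hv, rfl⟩⟩)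
  have h7 : 7 ≤ finrank F (V8 F) := by simp
  refine (N2.good_comap (QuotientGroup.mk' _) (QuotientGroup.mk'_surjective _) A).1 ?_
  rcases h with h | ⟨h4, h⟩
  · exact FrO.good_even_fr h7 (fun i => GI2.sg_minus (h2 i) (h i)) hD.orth hD.span (by simp) one_ne_zero
      (fun h3 => absurd h3 (by norm_num)) h1
  · exact FrO.good_even_fr h7 (fun i => GI2.sg_plus (h2 i) (hD.nd nondeg8 i) (h i)) hD.orth hD.span (by simp) one_ne_zero
      (fun _ _ => by rwa [← Nat.card_eq_fintype_card]) h1

end Cfsg.Agent.N2C.D4
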