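import Cfsg.Agent.N2.Cl.D4.Defs
import Cfsg.Agent.N2.Cl.Cyc.Ord
import Cfsg.Agent.N2.Tool

/-!
# N2 (S3519), `PΩ₈⁺(q)`: the normaliser of the torus `(q² + 1)²` (helper94)

`Pr r W a` : `a` has prime order `r`, acts irreducibly on the `4`-space `W` and trivially on `W^⊥`.
-/

set_option autoImplicit false
set_option linter.unusedSectionVars false

namespace Cfsg.Agent.N2C.D4

open QuadraticMap Module Cfsg.Agent.LieClassical.QuadForms Cfsg.Agent.LieClassical.OrthCore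
  Cfsg.Agent.LieClassical.OrthTrans Cfsg.Agent.ClassicalGeometry.OrthSemi Cfsg.Agent.ClassicalGeometry.OrthAut1
  Cfsg.Agent.ClassicalGeometry.TrialityOct Cfsg.Agent.ClassicalGeometry.Triality
  Cfsg.Agent.H989.OutOrth.Basic Cfsg.Agent.H989.OutOrth.Tri Cfsg.Agent.SB.D4
open Subgroup (zpowers normalizer)

namespace GN3

section grp

variable {G : Type} [Group G] {r : ℕ} {a s x : G}

theorem comm_of (hr : r.Prime) (ha : a ^ r = 1) (hs : s ^ r = 1) {k : ℕ} (h : s * a * s⁻¹ = a ^ k) : s * a = a * s := by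
  have := Fact.mk hr
  have h1 : ∀ n : ℕ, s ^ n * a * (s ^ n)⁻¹ = a ^ k ^ n := fun n => by
    induction n with
    | zero => simp
    | succ n ih => rw [pow_succ' k, pow_mul, ← h, conj_pow, ← ih, pow_succ' s]; group
  have h2 := h1 r
  have h3 : k ^ r ≡ k [MOD r] := (ZMod.natCast_eq_natCast_iff _ _ _).1 (by rw [Nat.cast_pow, ZMod.pow_card])
  rw [hs, one_mul, inv_one, mul_one, pow_eq_pow_of_modEq h3 ha, ← h] at h2
  exact mul_inv_eq_iff_eq_mul.1 h2.symm

theorem zp_eq [Finite G] (hr : r.Prime) (ha : a ^ r = 1) (ha1 : a ≠ 1) (hx : x ^ r = 1) (hx1 : x ≠ 1)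
    (h : x ∈ zpowers a) : zpowers x = zpowers a := by
  have := Fact.mk hr
  exact Subgroup.eq_of_le_of_card_ge (Subgroup.zpowers_le.2 h) (by
    rw [Nat.card_zpowers, Nat.card_zpowers, orderOf_eq_prime ha ha1, orderOf_eq_prime hx hx1])

theorem card_two [Finite G] (H : Subgroup G) (h : ∀ a b, a ∉ H → b ∉ H → b * a ∈ H) : Nat.card G ≤ 2 * Nat.card H := by
  rw [← H.index_mul_card]
  refine Nat.mul_le_mul_right _ (Nat.le_of_dvd two_pos (Subgroup.index_dvd_two_iff.2 ?_))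
  by_cases h1 : ∀ a, a ∈ H
  · exact ⟨1, fun b => Or.inr (h1 b)⟩
  · push Not at h1
    obtain ⟨a, ha⟩ := h1
    exact ⟨a, fun b => (em (b ∈ H)).symm.imp_left (h a b ha)⟩

theorem sup_ind {b : G} (h : a * b = b * a) (ha : a ^ r = 1) (hb : b ^ r = 1) :
    (∀ x ∈ zpowers a ⊔ zpowers b, ∀ y ∈ zpowers a ⊔ zpowers b, x * y = y * x) ∧
      ∀ x ∈ zpowers a ⊔ zpowers b, x ^ r = 1 := by
  have e : zpowers a ⊔ zpowers b = Subgroup.closure {a, b} := by
    rw [Subgroup.zpowers_eq_closure, Subgroup.zpowers_eq_closure, ← Subgroup.closure_union]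
    rfl
  have hc : IsMulCommutative (Subgroup.closure ({a, b} : Set G)) := Subgroup.isMulCommutative_closure (by
    rintro x (rfl | rfl) y (rfl | rfl)
    exacts [rfl, h, h.symm, rfl])
  rw [e]
  refine ⟨fun x hx y hy => congrArg Subtype.val (hc.1.1 ⟨x, hx⟩ ⟨y, hy⟩), fun x hx => ?_⟩
  induction hx using Subgroup.closure_induction with
  | mem x hx =>
    rcases hx with rfl | rfl
    exacts [ha, hb]
  | one => exact one_pow r
  | mul x y hx hy h2 h3 =>
    rw [(show Commute x y from congrArg Subtype.val (hc.1.1 ⟨x, hx⟩ ⟨y, hy⟩)).mul_pow, h2, h3, one_mul]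
  | inv x _ h2 => rw [inv_pow, h2, inv_one]

theorem num {q c b o e : ℕ} (h1 : c * 4 ≤ 2 * q ^ 6) (h2 : b ≤ 2 * (q ^ 5 * q ^ 5)) (h3 : 5 * q ^ 28 ≤ 4 * o)
    (h4 : o ≤ 4 * e) : c ^ 3 * b ≤ e := by
  have h5 := Nat.mul_le_mul (Nat.pow_le_pow_left h1 3) h2
  have h6 : (c * 4) ^ 3 * b = 64 * (c ^ 3 * b) := by ring
  have h7 : (2 * q ^ 6) ^ 3 * (2 * (q ^ 5 * q ^ 5)) = 16 * q ^ 28 := by ring
  omega

end grp

variable {F : Type} [Field F] [Fintype F] {r : ℕ} {U W : Submodule F (V8 F)} {a b g s t x : E8 F}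

theorem dim8 (U : Submodule F (V8 F)) : finrank F U + finrank F (prp (Q8 F) U) = 8 :=
  (finrank_prp nondeg8' U).trans finrank8

/-- the stabiliser of a subspace -/
def St (W : Submodule F (V8 F)) : Subgroup (E8 F) where
  carrier := {g | Kp g W W}
  mul_mem' := fun ha hb v hv => ha _ (hb v hv)
  one_mem' := fun _ hv => hv
  inv_mem' := fun {g} h v hv => by
    obtain ⟨w, hw, rfl⟩ := exists_pre h hv
    exact (g.1.symm_apply_apply w).symm ▸ hw

theorem kp_inv (h : Kp t W U) : Kp t⁻¹ (prp (Q8 F) U) (prp (Q8 F) W) := fun v hv => mem_prp.2 fun w hw => by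
  rw [← polar_map (E_le_O t.2)]
  exact (congrArg (polar (Q8 F) · _) (t.1.apply_symm_apply v)).trans (mem_prp.1 hv _ (h w hw))

theorem kp_prp (h : g ∈ St W) : g ∈ St (prp (Q8 F) W) := fun _ hv => prp_inv (E_le_O g.2) h hv

theorem ext2 (hW : Nd (Q8 F) W) (h : ∀ w ∈ W, g.1 w = t.1 w) (h' : ∀ w ∈ prp (Q8 F) W, g.1 w = t.1 w) : g = t := by
  refine Subtype.ext (LinearEquiv.ext fun v => ?_)
  obtain ⟨y, hy, z, hz, rfl⟩ := Submodule.mem_sup.1 ((hW.sup_prp nondeg8').ge (Submodule.mem_top (x := v)))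
  rw [map_add, map_add, h y hy, h' z hz]

/-- the numbers -/
structure Nu (F : Type) [Field F] (r : ℕ) : Prop where
  prime : r.Prime
  char : (r : F) ≠ 0
  ord : orderOf (Nat.card F : ZMod r) = 4

theorem Nu.five (h : Nu F r) : 5 ≤ r := by
  have := Fact.mk h.prime
  have h1 := ZMod.orderOf_dvd_card_sub_one (card_ne_zero_zmod h.prime h.char)
  have h2 := h.prime.two_le
  rw [h.ord] at h1
  omega

theorem Nu.odd (h : Nu F r) : Odd r := h.prime.odd_of_ne_two (by have := h.five; omega)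

theorem Nu.le (h : Nu F r) : r ≤ Nat.card F ^ 2 + 1 := by
  have := Fact.mk h.prime
  have h1 := pow_orderOf_eq_one (Nat.card F : ZMod r)
  rw [h.ord, show 4 = 2 * 2 from rfl, pow_mul, sq_eq_one_iff] at h1
  have h2 := h1.resolve_left (pow_ne_one_of_lt_orderOf two_ne_zero (by rw [h.ord]; omega))
  refine Nat.le_of_dvd (Nat.succ_pos _) ((ZMod.natCast_eq_zero_iff _ _).1 ?_)
  rw [Nat.cast_succ, Nat.cast_pow, h2, neg_add_cancel]

/-- an element of order `r` on `W` -/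
structure Pr (r : ℕ) (W : Submodule F (V8 F)) (a : E8 F) : Prop where
  nu : Nu F r
  dim : finrank F W = 4
  nd : Nd (Q8 F) W
  ne : a ≠ 1
  pow : a ^ r = 1
  fix : ∀ v ∈ prp (Q8 F) W, a.1 v = v

theorem st_of_fix (h : ∀ v ∈ prp (Q8 F) W, a.1 v = v) : a ∈ St W :=
  prp_prp nondeg8' W ▸ kp_prp fun v hv => (h v hv).symm ▸ hv

namespace Pr

variable (h : Pr r W a)
include h

theorem st : a ∈ St W := st_of_fix h.fix

theorem dim' : finrank F (prp (Q8 F) W) = 4 := by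
  have h1 := dim8 W
  have h2 := h.dim
  omega

theorem eq_one (hx : x ^ r = 1) (hf : ∀ v ∈ prp (Q8 F) W, x.1 v = v) {w : V8 F} (hw : w ∈ W) (h0 : w ≠ 0)
    (h1 : x.1 w = w) : x = 1 := by
  obtain ⟨m, h2, h3⟩ := order_dvd_one h.nu.prime h.nu.char (x := x.1) (congrArg Subtype.val hx) (st_of_fix hf)
  have h4 : finrank F ↥(W ⊓ Fx (zpowers x.1)) ≠ 0 := fun e =>
    h0 ((Submodule.finrank_eq_zero.1 e).le ⟨hw, mem_Fx_zpowers.2 h1⟩)
  rw [h.nu.ord] at h3
  have h5 := h.dim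
  have h6 := Submodule.eq_of_le_of_finrank_le (inf_le_left : W ⊓ Fx (zpowers x.1) ≤ W) (by omega)
  exact ext2 h.nd (fun v hv => mem_Fx_zpowers.1 (h6.ge hv).2) hf

theorem fpf (v : V8 F) (hv : v ∈ W) (h1 : a.1 v = v) : v = 0 :=
  by_contra fun h0 => h.ne (h.eq_one h.pow h.fix hv h0 h1)

theorem irr (hU : Kp a U U) {w : V8 F} (hw : w ∈ W) (h0 : w ≠ 0) (h1 : w ∈ U) : W ≤ U := by
  obtain ⟨m, h2, h3⟩ := order_dvd_one h.nu.prime h.nu.char (x := a.1) (congrArg Subtype.val h.pow) (U := W ⊓ U)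
    fun v hv => ⟨h.st v hv.1, hU v hv.2⟩
  have h4 : W ⊓ U ⊓ Fx (zpowers a.1) = ⊥ := eq_bot_iff.2 fun v hv => h.fpf v hv.1.1 (mem_Fx_zpowers.1 hv.2)
  have h5 : finrank F ↥(W ⊓ U) ≠ 0 := fun e => h0 ((Submodule.finrank_eq_zero.1 e).le ⟨hw, h1⟩)
  rw [h4, finrank_bot] at h2
  rw [h.nu.ord] at h3
  have h6 := h.dim
  exact (Submodule.eq_of_le_of_finrank_le (inf_le_left : W ⊓ U ≤ W) (by omega)).ge.trans inf_le_right

theorem sub_mem (v : V8 F) : a.1 v - v ∈ W := (prp_prp nondeg8' W).le (mem_prp.2 fun y hy => by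
  rw [polar_sub_left, ← polar_map (E_le_O a.2) v y, h.fix y hy, sub_self])

theorem dich (hU : finrank F U = 4) (hk : t⁻¹ * a * t ∈ St U) : Kp t U W ∨ Kp t U (prp (Q8 F) W) := by
  have h1 : Kp a (U.map t.1.toLinearMap) (U.map t.1.toLinearMap) := by
    rintro _ ⟨u, hu, rfl⟩
    exact ⟨_, hk u hu, t.1.apply_symm_apply _⟩
  by_cases h2 : ∃ w ∈ W, w ≠ 0 ∧ w ∈ U.map t.1.toLinearMap
  · obtain ⟨w, hw, h0, h3⟩ := h2
    have h4 := Submodule.eq_of_le_of_finrank_le (h.irr h1 hw h0 h3) (by rw [LinearEquiv.finrank_map_eq, hU, h.dim])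
    exact Or.inl fun u hu => h4.ge ⟨u, hu, rfl⟩
  · push Not at h2
    refine Or.inr fun u hu => ?_
    have h3 : a.1 (t.1 u) = t.1 u := sub_eq_zero.1 (by_contra fun h0 =>
      h2 _ (h.sub_mem _) h0 (Submodule.sub_mem _ (h1 _ ⟨u, hu, rfl⟩) ⟨u, hu, rfl⟩))
    obtain ⟨y, hy, z, hz, e⟩ := Submodule.mem_sup.1 ((h.nd.sup_prp nondeg8').ge (Submodule.mem_top (x := t.1 u)))
    rw [← e, map_add, h.fix z hz, add_left_inj] at h3
    rwa [← e, h.fpf y hy h3, zero_add]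

theorem conj (hU : finrank F U = 4) (hN : Nd (Q8 F) U) (hk : Kp t W U) : Pr r U (t * a * t⁻¹) where
  nu := h.nu
  dim := hU
  nd := hN
  ne e := h.ne (by simpa using e)
  pow := by rw [conj_pow, h.pow, mul_one, mul_inv_cancel]
  fix v hv := (congrArg t.1 (h.fix _ (kp_inv hk v hv))).trans (t.1.apply_symm_apply v)

theorem mem_zp (h' : Pr r W b) (hc : a * b = b * a) : b ∈ zpowers a := by
  obtain ⟨i, w, hw, h0, h1⟩ := cyc h.nu.prime h.nu.char (a := a.1) (b := b.1) (congrArg Subtype.val hc)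
    (congrArg Subtype.val h.pow) (congrArg Subtype.val h'.pow) (U := W)
    (fun e => by have := h.dim; rw [e, finrank_bot] at this; omega) h.st h'.st h.fpf
  have h2 := h.eq_one (x := a ^ i * b) (by
    rw [((show Commute a b from hc).pow_left i).mul_pow, ← pow_mul, mul_comm i, pow_mul, h.pow, h'.pow, one_pow, one_mul])
    (fun v hv => (congrArg (a.1 ^ i) (h'.fix v hv)).trans (pow_fix (h.fix v hv) i)) hw h0 h1
  exact eq_inv_of_mul_eq_one_right h2 ▸ inv_mem (pow_mem (Subgroup.mem_zpowers a) i)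

variable {R : Subgroup (E8 F)} (hR : ∀ x ∈ R, ∀ y ∈ R, x * y = y * x) (ha : a ∈ R)
include hR ha

theorem norm_mem (hg : g ∈ normalizer (R : Set (E8 F))) (hk : g ∈ St W) : g * a * g⁻¹ ∈ zpowers a :=
  h.mem_zp (h.conj h.dim h.nd hk) (hR _ ha _ ((Subgroup.mem_normalizer_iff.1 hg a).1 ha))

theorem zp (hs : s ∈ normalizer (R : Set (E8 F))) (h' : Pr r W s) : zpowers s = zpowers a := by
  have := finite_E8 (F := F)
  obtain ⟨k, hk⟩ := (mem_powers_iff_mem_zpowers.2 (h.norm_mem hR ha hs h'.st))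
  exact zp_eq h.nu.prime h.pow h.ne h'.pow h'.ne (h.mem_zp h' (comm_of h.nu.prime h.pow h'.pow hk.symm).symm)

end Pr

theorem exists_norm (hN : Nd (Q8 F) W) (h4 : finrank F W = 4) :
    ∃ v ∈ W, v ≠ 0 ∧ Nat.card {w : W // Q8 F w = Q8 F v} ≤ Nat.card F ^ 3 := by
  classical
  have := Fintype.ofFinite W
  obtain ⟨c, hc⟩ := Fintype.exists_card_fiber_le_of_card_le_mul (fun w : W => Q8 F w) (n := Nat.card F ^ 3) (by
    rw [card_eq_pow_finrank (K := F), h4, Nat.card_eq_fintype_card, ← pow_succ'])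
  obtain ⟨e, he, h0, h1⟩ := LieClassical.OrthFinite.exists_sing_mem (Q := Q8 F) W (by omega)
  obtain ⟨f, hf, h2⟩ := hN.exists_one he h0
  refine ⟨f + (c - Q8 F f) • e, add_mem hf (W.smul_mem _ he), fun k => ?_, ?_⟩
  · have h3 := congrArg (polar (Q8 F) e) k
    rw [polar_add_right, polar_smul_right, polar_self', h1, h2, polar_zero_right] at h3
    simp at h3
  · rw [Q_add, QuadraticMap.map_smul, polar_smul_right, polar_comm, h1, h2, smul_zero, add_zero, smul_eq_mul, mul_one,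
      add_sub_cancel, Nat.card_eq_fintype_card, Fintype.card_subtype]
    exact hc

theorem Pr.side (h : Pr r W a) (B : Subgroup (E8 F)) (h1 : B ≤ St W) (h2 : ∀ g ∈ B, g * a * g⁻¹ ∈ zpowers a) :
    ∃ (X : Type) (_ : Finite X) (f : B → X), Nat.card X ≤ Nat.card F ^ 5 ∧
      ∀ g g', f g = f g' → ∀ w ∈ W, g.1.1 w = g'.1.1 w := by
  have := finite_E8 (F := F)
  have := Fact.mk h.nu.prime
  obtain ⟨v, hv, h0, h3⟩ := exists_norm h.nd h.dim
  refine ⟨{y : zpowers a // y ≠ 1} × {w : W // Q8 F w = Q8 F v}, inferInstance, fun g =>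
    (⟨⟨_, h2 g g.2⟩, fun e => h.ne (by simpa using congrArg Subtype.val e)⟩,
      ⟨⟨_, h1 g.2 v hv⟩, mem_O.1 (E_le_O g.1.2) v⟩), ?_, fun g g' e w hw => ?_⟩
  · have h4 := Finite.card_subtype_lt (p := fun y : zpowers a => y ≠ 1) (x := 1) (not_not.2 rfl)
    have h5 := h.nu.le
    rw [Nat.card_zpowers, orderOf_eq_prime h.pow h.ne] at h4
    rw [Nat.card_prod, show 5 = 2 + 3 from rfl, pow_add]
    exact Nat.mul_le_mul (by omega) h3
  · have e1 : g.1 * a * g.1⁻¹ = g'.1 * a * g'.1⁻¹ := congrArg (·.1.1.1) e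
    have e2 : g.1.1 v = g'.1.1 v := congrArg (·.2.1.1) e
    have e3 : ∀ k : E8 F, ∀ y, k.1 (a.1 y) = (k * a * k⁻¹).1 (k.1 y) := fun k y =>
      congrArg (fun z => k.1 (a.1 z)) (k.1.symm_apply_apply y).symm
    exact h.irr (U := LinearMap.eqLocus g.1.1.toLinearMap g'.1.1.toLinearMap)
      (fun y (hy : g.1.1 y = g'.1.1 y) => (e3 _ y).trans (by rw [e1, hy]; exact (e3 _ y).symm)) hv h0 e2 hw

/-- restriction -/
noncomputable def rs (W : Submodule F (V8 F)) (g : St W) : O (H955.res (Q8 F) W) :=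
  ⟨LinearEquiv.ofInjectiveEndo (g.1.1.toLinearMap.restrict g.2) fun _ _ e =>
    Subtype.ext (g.1.1.injective (congrArg Subtype.val e)), fun w => mem_O.1 (E_le_O g.1.2) w.1⟩

section main

variable (h : Pr r W a) (h' : Pr r (prp (Q8 F) W) b)
include h h'

theorem comm : a * b = b * a := ext2 h.nd
  (fun w hw => (congrArg a.1 (h'.fix w (le_prp_prp W hw))).trans (h'.fix _ (le_prp_prp W (h.st w hw))).symm)
  fun w hw => (h.fix _ (h'.st w hw)).trans (congrArg b.1 (h.fix w hw)).symm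

theorem R_le : zpowers a ⊔ zpowers b ≤ St W :=
  sup_le (Subgroup.zpowers_le.2 h.st) (Subgroup.zpowers_le.2 fun w hw => (h'.fix w (le_prp_prp W hw)).symm ▸ hw)

theorem dichN (hg : g ∈ normalizer (↑(zpowers a ⊔ zpowers b) : Set (E8 F))) : Kp g W W ∨ Kp g W (prp (Q8 F) W) :=
  h.dich h.dim (R_le h h' (by
    simpa using (Subgroup.mem_normalizer_iff.1 (inv_mem hg) a).1 (Subgroup.mem_sup_left (Subgroup.mem_zpowers a))))

theorem mul_st (hg : Kp g W (prp (Q8 F) W)) (ht : Kp t W (prp (Q8 F) W)) : g * t ∈ St W := fun w hw => by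
  have h1 := gam_prp (og g) hg (h.dim'.trans h.dim.symm).le (ht w hw)
  rwa [prp_prp nondeg8'] at h1

theorem card_N : Nat.card (normalizer (↑(zpowers a ⊔ zpowers b) : Set (E8 F))) ≤
    2 * (Nat.card F ^ 5 * Nat.card F ^ 5) := by
  have := finite_E8 (F := F)
  have hR := (sup_ind (comm h h') h.pow h'.pow).1
  generalize hN : normalizer (↑(zpowers a ⊔ zpowers b) : Set (E8 F)) = N
  refine (card_two ((St W).subgroupOf N) fun x y hx hy => mul_st h h'
    ((dichN h h' (hN.ge y.2)).resolve_left hy) ((dichN h h' (hN.ge x.2)).resolve_left hx)).trans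
    (Nat.mul_le_mul_left _ ?_)
  obtain ⟨X, _, f, k1, k2⟩ := h.side (St W ⊓ N) inf_le_left fun g hg =>
    h.norm_mem hR (Subgroup.mem_sup_left (Subgroup.mem_zpowers a)) (hN.ge hg.2) hg.1
  obtain ⟨Y, _, f', k3, k4⟩ := h'.side (St W ⊓ N) (fun g hg => kp_prp hg.1) fun g hg =>
    h'.norm_mem hR (Subgroup.mem_sup_right (Subgroup.mem_zpowers b)) (hN.ge hg.2) (kp_prp hg.1)
  refine le_trans (Nat.card_le_card_of_injective
    (fun g => (f ⟨g.1.1, g.2, g.1.2⟩, f' ⟨g.1.1, g.2, g.1.2⟩)) fun x y e => Subtype.ext (Subtype.ext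
      (ext2 h.nd (k2 _ _ (congrArg Prod.fst e)) (k4 _ _ (congrArg Prod.snd e))))) ?_
  rw [Nat.card_prod]
  exact Nat.mul_le_mul k1 k3

theorem fixed (ht : t⁻¹ * a * t ∈ normalizer (↑(zpowers a ⊔ zpowers b) : Set (E8 F))) :
    ∃ c, Pr r (prp (Q8 F) W) c ∧
      (zpowers a ⊔ zpowers b).map (MulAut.conj t).toMonoidHom = zpowers a ⊔ zpowers c := by
  have hR := (sup_ind (comm h h') h.pow h'.pow).1
  have h1 : t⁻¹ * a * t ∈ St W := by
    obtain ⟨n, hn⟩ := h.nu.odd.add_one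
    have h2 : (t⁻¹ * a * t) * (t⁻¹ * a * t) ∈ St W :=
      (dichN h h' ht).elim (fun k => mul_mem (s := St W) k k) fun k => mul_st h h' k k
    have h3 := pow_mem h2 n
    rwa [← pow_two, ← pow_mul, two_mul, ← hn, pow_succ, show (t⁻¹ * a * t) ^ r = 1 by
      simpa [h.pow] using conj_pow (i := r) (a := t⁻¹) (b := a), one_mul] at h3
  have h2 : ∀ c, zpowers (t⁻¹ * a * t⁻¹⁻¹) = zpowers c → (zpowers c).map (MulAut.conj t).toMonoidHom = zpowers a :=
    fun c e => by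
      rw [← e, MonoidHom.map_zpowers]
      simp [mul_assoc]
  rw [← inv_inv t] at ht
  rw [inv_inv t⁻¹] at ht
  rcases h.dich h.dim h1 with k | k
  · refine ⟨_, h'.conj h'.dim h'.nd (kp_prp k), ?_⟩
    rw [Subgroup.map_sup, h2 a (h.zp hR (Subgroup.mem_sup_left (Subgroup.mem_zpowers a)) ht
      (h.conj h.dim h.nd ((St W).inv_mem k))), MonoidHom.map_zpowers]
    rfl
  · refine ⟨_, h.conj h'.dim h'.nd k, ?_⟩
    rw [Subgroup.map_sup, h2 b (h'.zp hR (Subgroup.mem_sup_right (Subgroup.mem_zpowers b)) ht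
      (h.conj h'.dim h'.nd fun v hv => kp_inv k v (le_prp_prp W hv))), MonoidHom.map_zpowers, sup_comm]
    rfl

theorem fx_le : FP3.fx (normalizer (↑(zpowers a ⊔ zpowers b) : Set (E8 F))) a * 4 ≤ 2 * Nat.card F ^ 6 := by
  have := finite_E8 (F := F)
  have := Fact.mk h.nu.prime
  have : Finite (prp (Q8 F) W ≃ₗ[F] prp (Q8 F) W) :=
    Finite.of_injective (fun g : prp (Q8 F) W ≃ₗ[F] prp (Q8 F) W => (g : _ → _)) DFunLike.coe_injective
  have h5 := h.nu.five
  generalize hN : normalizer (↑(zpowers a ⊔ zpowers b) : Set (E8 F)) = N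
  have k := fun x : MulAction.fixedBy (E8 F ⧸ N) a =>
    fixed h h' (t := x.1.out) (hN.ge ((N2.smul_mk_iff N a _).1 (by rw [QuotientGroup.out_eq']; exact x.2)))
  choose c hc hc' using k
  have h1 := Cyc.card_O_le (H955.nondeg_res_iff.2 h'.nd) (by rw [h'.dim]; omega)
  rw [h'.dim, ← Nat.card_eq_fintype_card] at h1
  refine le_trans ?_ h1
  have h2 : ∀ x (i : Fin 4), c x ^ (i.1 + 1) ≠ 1 := fun x i =>
    pow_ne_one_of_lt_orderOf i.1.succ_ne_zero (by rw [orderOf_eq_prime (hc x).pow (hc x).ne]; omega)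
  have h3 : ∀ x (i : Fin 4), zpowers (c x ^ (i.1 + 1)) = zpowers (c x) := fun x i =>
    zp_eq h.nu.prime (hc x).pow (hc x).ne (by rw [← pow_mul, mul_comm, pow_mul, (hc x).pow, one_pow]) (h2 x i)
      (pow_mem (Subgroup.mem_zpowers _) _)
  have h4 := Nat.card_le_card_of_injective (fun y : MulAction.fixedBy (E8 F ⧸ N) a × Fin 4 =>
    rs _ ⟨c y.1 ^ (y.2.1 + 1), pow_mem (hc y.1).st _⟩) fun x y e => ?_
  · rwa [Nat.card_prod, Nat.card_eq_fintype_card (α := Fin 4), Fintype.card_fin] at h4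
  have e1 : c x.1 ^ (x.2.1 + 1) = c y.1 ^ (y.2.1 + 1) := ext2 h.nd
    (fun w hw => (pow_fix ((hc _).fix w (le_prp_prp W hw)) _).trans (pow_fix ((hc _).fix w (le_prp_prp W hw)) _).symm)
    fun w hw => congrArg (fun z : O (H955.res (Q8 F) (prp (Q8 F) W)) => (z.1 ⟨w, hw⟩).1) e
  have e2 : x.1 = y.1 := Subtype.ext (by
    have e3 := hc' x.1
    rw [← h3 _ x.2, e1, h3, ← hc'] at e3
    rw [← QuotientGroup.out_eq' x.1.1, ← QuotientGroup.out_eq' y.1.1, QuotientGroup.eq]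
    refine hN.le (Subgroup.mem_normalizer_iff.2 fun z => ?_)
    have e4 := SetLike.ext_iff.1 e3 (y.1.1.out * z * y.1.1.out⁻¹)
    rw [Subgroup.mem_map_equiv, Subgroup.mem_map_equiv] at e4
    simpa [mul_assoc] using e4.symm)
  refine Prod.ext e2 (Fin.ext ?_)
  rw [← e2] at e1
  have e5 := pow_injOn_Iio_orderOf (x := c x.1) ?_ ?_ e1
  · omega
  all_goals
    rw [Set.mem_Iio, orderOf_eq_prime (hc _).pow (hc _).ne]
    omega

theorem good : FP3.Good (normalizer (↑(zpowers a ⊔ zpowers b) : Set (E8 F))) := by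
  have := finite_E8 (F := F)
  have h1 := Cyc.card_O_ge (nondeg8' (F := F)) (by rw [finrank8]; omega)
  rw [finrank8, ← Nat.card_eq_fintype_card] at h1
  exact N2.good_of_le (Subgroup.le_normalizer (Subgroup.mem_sup_left (Subgroup.mem_zpowers a))) le_rfl
    (num (fx_le h h') (card_N h h') h1 (H450.Ux.card_O_le nondeg8' (by rw [finrank8]; omega)))

end main

theorem norm_comap {R : Subgroup (E8 F)} (ho : Odd r) (hR : ∀ x ∈ R, x ^ r = 1) :
    (normalizer (↑(R.map (QuotientGroup.mk' (Subgroup.center (E8 F)))) : Set (G8 F))).comap (QuotientGroup.mk' _) =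
      normalizer (R : Set (E8 F)) := by
  refine le_antisymm (fun g hg => ?_) (Subgroup.map_le_iff_le_comap.1 (Subgroup.le_normalizer_map _))
  have k : ∀ g : E8 F, (g : G8 F) ∈ normalizer (↑(R.map (QuotientGroup.mk' (Subgroup.center (E8 F)))) : Set (G8 F)) →
      ∀ x ∈ R, g * x * g⁻¹ ∈ R := fun g hg x hx => by
    obtain ⟨c, hc, e⟩ := (Subgroup.mem_normalizer_iff.1 hg x).1 ⟨x, hx, rfl⟩
    have h1 : c⁻¹ * (g * x * g⁻¹) ∈ Subgroup.center (E8 F) := QuotientGroup.eq.1 e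
    obtain ⟨d, hd⟩ := mk_eq_one_iff.1 ((QuotientGroup.eq_one_iff _).2 h1)
    have h2 := (show Commute c _ from Subgroup.mem_center_iff.1 h1 c).mul_pow r
    rw [mul_inv_cancel_left, conj_pow, hR x hx, hR c hc, mul_one, mul_inv_cancel, one_mul] at h2
    exact inv_mul_eq_one.1 (odd_sc ho hd h2.symm) ▸ hc
  exact Subgroup.mem_normalizer_iff.2 fun x => ⟨k g hg x, fun hx => by
    simpa [mul_assoc] using k g⁻¹ (inv_mem hg) _ hx⟩

end GN3

open GN3 in
/-- **[GN3]** -/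
theorem boxGN3 : BoxGN3 := by
  rintro F _ _ _ W a b r h1 h2 h3 h4 h5 h6 h7 h8 h9 h10 h11 rfl
  have h : Pr r W a := ⟨⟨h1, h2, h3⟩, h4, h5, h6, h8, h10⟩
  have h' : Pr r (prp (Q8 F) W) b := ⟨h.nu, h.dim', h5.nd_prp nondeg8', h7, h9, by rwa [prp_prp nondeg8']⟩
  refine (N2.good_comap (QuotientGroup.mk' _) (QuotientGroup.mk'_surjective _) _).1 ?_
  have e : Subgroup.closure ({(a : G8 F), (b : G8 F)} : Set (G8 F)) =
      (zpowers a ⊔ zpowers b).map (QuotientGroup.mk' (Subgroup.center (E8 F))) := by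
    rw [Subgroup.map_sup, MonoidHom.map_zpowers, MonoidHom.map_zpowers, Subgroup.zpowers_eq_closure,
      Subgroup.zpowers_eq_closure, ← Subgroup.closure_union]
    rfl
  rw [e, norm_comap h.nu.odd (sup_ind (comm h h') h8 h9).2]
  exact good h h'

end Cfsg.Agent.N2C.D4
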