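import Cfsg.Agent.N2.Cl.D4.Lie

/-!
# N2 (S3519), `PΩ₈⁺(q)`: a triple of quadratic elements of odd order is trivial (helper58)
-/

set_option autoImplicit false
set_option linter.unusedSectionVars false

namespace Cfsg.Agent.N2C.D4

open QuadraticMap Module Cfsg.Agent.LieClassical.QuadForms Cfsg.Agent.LieClassical.OrthCore
  Cfsg.Agent.LieClassical.OrthTrans Cfsg.Agent.ClassicalGeometry.OrthSemi Cfsg.Agent.ClassicalGeometry.OrthAut1
  Cfsg.Agent.ClassicalGeometry.TrialityOct Cfsg.Agent.ClassicalGeometry.Triality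
  Cfsg.Agent.H989.OutOrth.Basic Cfsg.Agent.H989.OutOrth.Tri Cfsg.Agent.SB.D4 LieT

namespace LQ

variable {F : Type} [Field F] [Fintype F]

theorem app_inv (a : E8 F) (x : V8 F) : a.1 (a⁻¹.1 x) = x := a.1.apply_symm_apply x
theorem inv_app (a : E8 F) (x : V8 F) : a⁻¹.1 (a.1 x) = x := a.1.symm_apply_apply x

theorem polar_inv (a : E8 F) (x y : V8 F) : polar (Q8 F) (a⁻¹.1 x) y = polar (Q8 F) x (a.1 y) := by
  rw [← polar_map (E_le_O a.2), app_inv]

theorem eq_one_of_sq {G : Type*} [Group G] {a : G} {r : ℕ} (ho : Odd r) (ha : a ^ r = 1) (h2 : a * a = 1) : a = 1 := by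
  obtain ⟨k, rfl⟩ := ho
  rwa [pow_succ, pow_mul, pow_two, h2, one_pow, one_mul] at ha

theorem qd_cases {a : E8 F} {r : ℕ} (ho : Odd r) (hr : (r : F) ≠ 0) (ha : a ^ r = 1) (h : Qd a) :
    a = 1 ∨ ∃ t : F, t * t - 4 ≠ 0 ∧ ∀ x, a⁻¹.1 x = t • x - a.1 x := by
  obtain ⟨t, d, h⟩ := h
  have h1 : ∀ x, a.1 x = t • x - d • a⁻¹.1 x := fun x => by
    have := h (a⁻¹.1 x)
    rwa [app_inv] at this
  have h2 : ∀ x, a⁻¹.1 x = t • x - d • a.1 x := fun x => ext_polar fun y => by
    rw [polar_inv, h1 y, polar_sub_left, polar_sub_right, polar_smul_left, polar_smul_left, polar_smul_right,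
      polar_smul_right, polar_comm _ x (a⁻¹.1 y), polar_inv, polar_comm _ y]
  by_cases c1 : d = 1
  · subst c1
    by_cases c2 : t * t - 4 = 0
    · refine Or.inl (eq_one_of_sq ho ha ?_)
      have h3 : ∀ x, (a * a).1 ((a * a).1 x) = (2 : F) • (a * a).1 x - x := fun x => by
        show a.1 (a.1 (a.1 (a.1 x))) = (2 : F) • a.1 (a.1 x) - x
        have e1 := h x
        have e2 := h (a.1 x)
        have e3 := h (a.1 (a.1 x))
        linear_combination (norm := module) e3 + t • e2 + c2 • a.1 (a.1 x) + e1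
      have h4 : ∀ (n : ℕ) (x : V8 F), ((a * a) ^ n).1 x = x + (n : F) • ((a * a).1 x - x) := fun n x => by
        induction n with
        | zero => rw [pow_zero, Nat.cast_zero, zero_smul, add_zero]; rfl
        | succ n ih =>
          rw [pow_succ']
          show (a * a).1 (((a * a) ^ n).1 x) = _
          rw [ih, map_add, map_smul, map_sub, h3]
          push_cast
          module
      refine Subtype.ext (LinearEquiv.ext fun x => ?_)
      have h5 := h4 r x
      rw [← pow_two, ← pow_mul, mul_comm, pow_mul, ha, one_pow, pow_two] at h5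
      exact sub_eq_zero.1 ((smul_eq_zero.1 (left_eq_add.1 h5)).resolve_left hr)
    · exact Or.inr ⟨t, c2, fun x => by rw [h2, one_smul]⟩
  have h3 : ∀ x, (1 + d) • a.1 x = t • x := fun x => smul_right_injective _ (sub_ne_zero.2 (Ne.symm c1)) (by
    have e1 := h1 x
    rw [h2] at e1
    show (1 - d) • _ = (1 - d) • _
    linear_combination (norm := module) e1)
  by_cases c2 : 1 + d = 0
  · refine Or.inl (eq_one_of_sq ho ha (Subtype.ext (LinearEquiv.ext fun x => ?_)))
    show a.1 (a.1 x) = x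
    rw [h, ← h3, c2, zero_smul, show d = -1 by linear_combination c2]
    module
  · exact Or.inl (odd_sc ho (e := (1 + d)⁻¹ * t) (fun x => by rw [mul_smul, ← h3, inv_smul_smul₀ c2]) ha)

end LQ

open LQ

/-- **[LQ]** -/
theorem boxLQ : BoxLQ := by
  intro F _ _ a b c r _ ho hr h ha hb hc qa qb qc
  have k1 : ∀ e, Sc b e → a = 1 := fun e he => by
    obtain ⟨_, d, -, h1, -⟩ := h.rot.sc he
    exact odd_sc ho h1 ha
  rcases qd_cases ho hr ha qa with h1 | ⟨s, -, h1⟩
  · exact h1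
  rcases qd_cases ho hr hb qb with h2 | ⟨t, -, h2⟩
  · exact k1 1 (h2 ▸ Sc.one)
  rcases qd_cases ho hr hc qc with h3 | ⟨u, h4, h3⟩
  · obtain ⟨d, _, h4, -⟩ := h.rot.rot.sc (e := 1) (h3 ▸ Sc.one)
    exact odd_sc ho h4 ha
  have h5 : ∀ x y, pm (b.1 x) (c.1 y - c⁻¹.1 y) = pm x (s • y - t • c⁻¹.1 y) := fun x y => by
    have e1 := h x y
    have e2 : a⁻¹.1 (pm x y) = pm (b⁻¹.1 x) (c⁻¹.1 y) := h.inv x y
    rw [h1, h2, e1, sub_pm, smul_pm] at e2
    rw [pm_sub, pm_sub, pm_smul, pm_smul]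
    linear_combination (exp := 1) -e2
  have h6 : ∀ y, ∃ y', c.1 y' - c⁻¹.1 y' = y := fun y => ⟨(u * u - 4)⁻¹ • (c.1 y - c⁻¹.1 y), by
    have e1 := h3 (c.1 y)
    have e2 := h3 (c⁻¹.1 y)
    have e3 := h3 y
    rw [inv_app] at e1
    rw [app_inv] at e2
    rw [map_smul, map_smul, ← smul_sub, map_sub, map_sub, app_inv, inv_app, e2, inv_smul_eq_iff₀ h4]
    linear_combination (norm := module) e1 + u • e3⟩
  choose g hg using h6
  obtain ⟨l, h7, -⟩ := nuc (G := b.1) (H := fun y => s • g y - t • c⁻¹.1 (g y)) fun x y => by rw [← h5, hg]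
  exact k1 l h7

end Cfsg.Agent.N2C.D4
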