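import Cfsg.Agent.N2.Cl.D4.Defs

/-!
# N2 (S3519), `PΩ₈⁺(q)`: local triality and the sign of a frame (helper58)
-/

set_option autoImplicit false
set_option linter.unusedSectionVars false

namespace Cfsg.Agent.N2C.D4

open QuadraticMap Module Cfsg.Agent.LieClassical.QuadForms Cfsg.Agent.LieClassical.OrthCore
  Cfsg.Agent.LieClassical.OrthTrans Cfsg.Agent.ClassicalGeometry.OrthSemi Cfsg.Agent.ClassicalGeometry.OrthAut1
  Cfsg.Agent.ClassicalGeometry.TrialityOct Cfsg.Agent.ClassicalGeometry.Triality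
  Cfsg.Agent.H989.OutOrth.Basic Cfsg.Agent.H989.OutOrth.Tri Cfsg.Agent.SB.D4

namespace LieT

variable {F : Type} [Field F]

theorem one_ne : Q8 F (one8 F) ≠ 0 := by rw [norm_one8]; exact one_ne_zero

theorem oconj_one : oconj (one8 F) = one8 F := by
  have h := oconj_omul_omul (one8 F) (one8 F)
  rwa [omul_one, omul_one, norm_one8, one_smul] at h

theorem polar_pr (x x' y : V8 F) : polar (Q8 F) (pm x y) (pm x' y) = Q8 F y * polar (Q8 F) x x' := by
  rw [polar_pm, pm_pm_right, polar_smul_right, smul_eq_mul]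

theorem polar_pm' (x y z : V8 F) : polar (Q8 F) (pm x y) z = polar (Q8 F) (pm z x) y := by
  rw [polar_comm, ← polar_pm]

theorem polar_pl (x y y' : V8 F) : polar (Q8 F) (pm x y) (pm x y') = Q8 F x * polar (Q8 F) y y' := by
  rw [polar_pm', pm_pm_left, polar_smul_left, smul_eq_mul, polar_comm]

/-- **the nucleus** -/
theorem nuc {G H : V8 F → V8 F} (h : ∀ x y, pm (G x) y = pm x (H y)) :
    ∃ l : F, (∀ x, G x = l • x) ∧ ∀ y, H y = l • y := by
  have h1 : ∀ x, oconj (G x) = omul (oconj x) (oconj (H (one8 F))) := fun x => by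
    have := h x (one8 F)
    rwa [pm, pm, oconj_one, omul_one] at this
  have h2 : ∀ y, oconj (H y) = omul (oconj (H (one8 F))) (oconj y) := fun y => by
    have := h (one8 F) y
    rw [pm, pm, h1, oconj_one, one_omul, one_omul] at this
    exact this.symm
  have h3 := scalar_of_assoc (c := oconj (H (one8 F))) fun x y => by
    have := h (oconj x) (oconj y)
    rw [pm, pm, h1, h2 (oconj y), oconj_oconj, oconj_oconj] at this
    exact this.symm
  refine ⟨oconj (H (one8 F)) (.inl 0), fun x => (kap F).injective ?_, fun y => (kap F).injective ?_⟩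
  · rw [kap_apply, kap_apply, h1, oconj_smul]
    nth_rw 1 [h3]
    rw [omul_smul, omul_one]
  · rw [kap_apply, kap_apply, h2, oconj_smul]
    nth_rw 1 [h3]
    rw [smul_omul, one_omul]

theorem exists_adj (φ : V8 F →ₗ[F] F) : ∃ w, ∀ v, polar (Q8 F) w v = φ v := by
  obtain ⟨w, hw⟩ := (LinearMap.injective_iff_surjective_of_finrank_eq_finrank
    (f := polarBilin (Q8 F)) Subspace.dual_finrank_eq.symm).1
    ((injective_iff_map_eq_zero _).2 fun x hx => nondeg8 x fun y => LinearMap.congr_fun hx y) φ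
  exact ⟨w, LinearMap.congr_fun hw⟩

theorem ext_polar {u v : V8 F} (h : ∀ x, polar (Q8 F) u x = polar (Q8 F) v x) : u = v :=
  sub_eq_zero.1 (nondeg8 _ fun x => by rw [polar_sub_left, h, sub_self])

theorem exists_pm (v : V8 F) : ∃ x y, pm x y = v :=
  ⟨one8 F, pm v (one8 F), by rw [pm_pm_right, norm_one8, one_smul]⟩

/-- the maps with partners -/
def LiS : Submodule F (Module.End F (V8 F)) where
  carrier := {f | ∃ g h, Li f g h}
  add_mem' := by
    rintro f f' ⟨g, h, e⟩ ⟨g', h', e'⟩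
    refine ⟨g + g', h + h', fun x y => ?_⟩
    rw [LinearMap.add_apply, LinearMap.add_apply, LinearMap.add_apply, e, e', add_pm, pm_add]
    abel
  zero_mem' := ⟨0, 0, fun x y => by
    rw [LinearMap.zero_apply, LinearMap.zero_apply, LinearMap.zero_apply, zero_pm, pm_zero, add_zero]⟩
  smul_mem' := by
    rintro c f ⟨g, h, e⟩
    refine ⟨c • g, c • h, fun x y => ?_⟩
    rw [LinearMap.smul_apply, LinearMap.smul_apply, LinearMap.smul_apply, e, smul_pm, pm_smul, smul_add]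

/-- `x ↦ B(a, x) b` -/
def rk (a b : V8 F) : Module.End F (V8 F) := (polarBilin (Q8 F) a).smulRight b

theorem rk_apply (a b x : V8 F) : rk a b x = polar (Q8 F) a x • b := rfl

theorem li_rk (a b : V8 F) : Li (rk a b - rk b a) (pr b ∘ₗ pl a) (-(pl a ∘ₗ pr b)) := fun x y => by
  have h1 := pm_lin_left (pm a x) y b
  have h2 := pm_lin_right x (pm y b) a
  rw [polar_pm] at h1
  rw [← polar_pm, polar_comm] at h2
  show polar (Q8 F) a (pm x y) • b - polar (Q8 F) b (pm x y) • a = pm (pm (pm a x) b) y + pm x (-pm a (pm y b))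
  rw [← h1, ← h2, pm_neg]
  abel

theorem sum_rk_mem {ι : Type} [DecidableEq ι] (u : ι → V8 F) (c : ι → ι → F) (h1 : ∀ s, c s s = 0)
    (h2 : ∀ s t, c t s = - c s t) (S : Finset ι) : ∑ s ∈ S, ∑ t ∈ S, c s t • rk (u s) (u t) ∈ LiS := by
  induction S using Finset.induction_on with
  | empty => exact zero_mem _
  | insert a S ha ih =>
    simp only [Finset.sum_insert ha, Finset.sum_add_distrib]
    rw [h1, zero_smul, zero_add, ← add_assoc, ← Finset.sum_add_distrib]
    refine add_mem (Submodule.sum_mem _ fun t _ => ?_) ih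
    rw [h2 a t, show c a t • rk (u a) (u t) + -c a t • rk (u t) (u a) = c a t • (rk (u a) (u t) - rk (u t) (u a)) by module]
    exact LiS.smul_mem _ ⟨_, _, li_rk _ _⟩

theorem skew {f : Module.End F (V8 F)} (h : ∀ x, polar (Q8 F) (f x) x = 0) (x y : V8 F) :
    polar (Q8 F) (f x) y = - polar (Q8 F) x (f y) := by
  have h1 := h (x + y)
  rw [map_add, polar_add_left, polar_add_right, polar_add_right, h, h, polar_comm _ (f y)] at h1
  linear_combination h1

theorem exists_li {f : Module.End F (V8 F)} (h : ∀ x, polar (Q8 F) (f x) x = 0) : ∃ g k, Li f g k := by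
  choose w hw using fun s => exists_adj (F := F) (LinearMap.proj s)
  have h1 := sum_rk_mem (fun s => Pi.single s (1 : F)) (fun s t => polar (Q8 F) (f (w s)) (w t)) (fun s => h _)
    (fun s t => by rw [skew h, polar_comm]) Finset.univ
  suffices e : f = ∑ s, ∑ t, polar (Q8 F) (f (w s)) (w t) • rk (Pi.single s (1 : F)) (Pi.single t (1 : F)) from e ▸ h1
  refine LinearMap.ext fun x => ?_
  rw [Finset.sum_comm, LinearMap.sum_apply, ← Finset.univ_sum_single (f x)]
  refine Finset.sum_congr rfl fun t _ => ?_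
  have h2 : f x t = ∑ s, polar (Q8 F) (f (w s)) (w t) * polar (Q8 F) (Pi.single s 1) x := by
    have h3 : ∀ s, polar (Q8 F) (f (w s)) (w t) = - f (w t) s := fun s => by rw [skew h, hw]; rfl
    have h4 : f (w t) = ∑ s, f (w t) s • (Pi.single s 1 : V8 F) := by
      simp only [← Pi.single_smul, smul_eq_mul, mul_one, Finset.univ_sum_single]
    rw [show f x t = polar (Q8 F) (w t) (f x) from (hw t _).symm, ← neg_neg (polar _ _ _), ← skew h, h4]
    simp only [h3, neg_mul, Finset.sum_neg_distrib]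
    rw [← polarBilin_apply_apply, map_sum, LinearMap.sum_apply]
    simp only [map_smul, LinearMap.smul_apply, polarBilin_apply_apply, smul_eq_mul]
  simp only [LinearMap.sum_apply, LinearMap.smul_apply, rk_apply, smul_smul]
  rw [← Finset.sum_smul, ← h2, ← Pi.single_smul, smul_eq_mul, mul_one]

theorem li_unique {f g h g' h' : Module.End F (V8 F)} (e : Li f g h) (e' : Li f g' h') :
    ∃ l : F, g' = g + l • 1 ∧ h' = h - l • 1 := by
  obtain ⟨l, h1, h2⟩ := nuc (G := fun x => g' x - g x) (H := fun y => h y - h' y) fun x y => by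
    have := (e x y).symm.trans (e' x y)
    rw [sub_pm, pm_sub]
    linear_combination (exp := 1) -this
  exact ⟨l, LinearMap.ext fun x => eq_add_of_sub_eq' (h1 x), LinearMap.ext fun y => by
    rw [LinearMap.sub_apply, LinearMap.smul_apply, Module.End.one_apply, ← h2, sub_sub_cancel]⟩

theorem li_scalar {f g h : Module.End F (V8 F)} {l : F} (e : Li f g h) (hl : g = l • 1 ∨ h = l • 1) :
    ∃ m : F, f = m • 1 := by
  choose a ha using fun z => exists_adj (polarBilin (Q8 F) z ∘ₗ f)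
  have ha' : ∀ z v, polar (Q8 F) v (a z) = polar (Q8 F) (f v) z := fun z v => by
    rw [polar_comm, ha, polar_comm]; rfl
  rcases hl with rfl | rfl
  · have h1 : ∀ x y, f (pm x y) = pm x (h y + l • y) := fun x y => by
      rw [e, pm_add, pm_smul, add_comm, ← smul_pm]; rfl
    obtain ⟨m, h2, -⟩ := nuc (G := fun y => h y + l • y) (H := a) fun y z => ext_polar fun x => by
      rw [polar_comm, ← polar_pm, ← h1, ← ha', polar_pm, polar_comm]
    refine ⟨m, LinearMap.ext fun v => ?_⟩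
    obtain ⟨x, y, rfl⟩ := exists_pm v
    rw [h1, h2, pm_smul]; rfl
  · have h1 : ∀ x y, f (pm x y) = pm (g x + l • x) y := fun x y => by
      rw [e, add_pm, smul_pm, ← pm_smul]; rfl
    obtain ⟨m, -, h2⟩ := nuc (G := a) (H := fun x => g x + l • x) fun z x => ext_polar fun y => by
      rw [← polar_pm', ha', h1, polar_pm']
    refine ⟨m, LinearMap.ext fun v => ?_⟩
    obtain ⟨x, y, rfl⟩ := exists_pm v
    rw [h1, h2, smul_pm]; rfl

theorem li_form {f g h : Module.End F (V8 F)} (e : Li f g h) (hf : ∀ x, polar (Q8 F) (f x) x = 0) :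
    ∃ c : F, (∀ x, polar (Q8 F) (g x) x = c * Q8 F x) ∧ ∀ x, polar (Q8 F) (h x) x = -c * Q8 F x := by
  have h1 : ∀ x y, Q8 F y * polar (Q8 F) (g x) x + Q8 F x * polar (Q8 F) (h y) y = 0 := fun x y => by
    rw [← hf (pm x y), e, polar_add_left, polar_pr, polar_pl]
  have h2 := h1 (one8 F) (one8 F)
  refine ⟨polar (Q8 F) (g (one8 F)) (one8 F), fun x => ?_, fun y => ?_⟩
  · have h3 := h1 x (one8 F)
    rw [norm_one8] at h2 h3
    linear_combination h3 - Q8 F x * h2
  · have h3 := h1 (one8 F) y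
    rw [norm_one8] at h3
    linear_combination h3

/-! ### frames -/

/-- an orthogonal basis -/
structure Fm (e : Fin 8 → V8 F) : Prop where
  ne : ∀ i, Q8 F (e i) ≠ 0
  orth : ∀ i j, i ≠ j → polar (Q8 F) (e i) (e j) = 0

variable {e : Fin 8 → V8 F}

theorem Fm.gam (h : Fm e) (M : Gam (Q8 F)) : Fm fun i => M.1 (e i) := by
  obtain ⟨σ, c, hM⟩ := M.2
  exact ⟨fun i => by rw [hM.form]; exact mul_ne_zero hM.ne ((map_ne_zero σ).2 (h.ne i)),
    fun i j hij => by rw [hM.polar, h.orth i j hij, map_zero, mul_zero]⟩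

theorem Fm.self (h : Fm e) (h2 : (2 : F) ≠ 0) (i : Fin 8) : polar (Q8 F) (e i) (e i) ≠ 0 := by
  rw [polar_self, nsmul_eq_mul]
  exact mul_ne_zero h2 (h.ne i)

variable [Fintype F]

theorem Fm.span (h : Fm e) (h2 : (2 : F) ≠ 0) : Submodule.span F (Set.range e) = ⊤ :=
  (LinearMap.linearIndependent_of_isOrthoᵢ (B := polarBilin (Q8 F)) (fun i j hij => h.orth i j hij)
    (h.self h2)).span_eq_top_of_card_eq_finrank (by rw [finrank8, Fintype.card_fin])

theorem Fm.ext (h : Fm e) (h2 : (2 : F) ≠ 0) {f g : V8 F →ₗ[F] V8 F} (h1 : ∀ i, f (e i) = g (e i)) (x : V8 F) :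
    f x = g x := LinearMap.congr_fun (LinearMap.ext_on_range (h.span h2) h1) x

/-- sign changes on an even number of vectors whose norms agree modulo squares -/
theorem Fm.exists_sign (h : Fm e) (h2 : (2 : F) ≠ 0) (n : ℕ) (I : Finset (Fin 8)) (h1 : I.card = 2 * n)
    (h3 : ∀ a ∈ I, ∀ b ∈ I, IsSquare (Q8 F (e a) * Q8 F (e b))) :
    ∃ z : E8 F, (∀ k ∈ I, z.1 (e k) = - e k) ∧ ∀ k, k ∉ I → z.1 (e k) = e k := by
  induction n generalizing I with
  | zero => exact ⟨1, fun k hk => absurd (Finset.card_pos.2 ⟨k, hk⟩) (by omega), fun _ _ => rfl⟩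
  | succ n ih =>
    obtain ⟨a, ha, b, hb, hab⟩ := Finset.one_lt_card.1 (show 1 < I.card by omega)
    have hb' := Finset.mem_erase.2 ⟨hab.symm, hb⟩
    obtain ⟨z, a1, a2⟩ := ih ((I.erase a).erase b)
      (by rw [Finset.card_erase_of_mem hb', Finset.card_erase_of_mem ha]; omega)
      fun x hx y hy => h3 x (Finset.mem_of_mem_erase (Finset.mem_of_mem_erase hx)) y
        (Finset.mem_of_mem_erase (Finset.mem_of_mem_erase hy))
    obtain ⟨r, hr⟩ := h3 a ha b hb
    have a3 : Q8 F ((r / Q8 F (e b)) • e b) = Q8 F (e a) := by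
      have := h.ne b
      rw [QuadraticMap.map_smul, smul_eq_mul]
      field_simp
      linear_combination -hr
    have a4 : r / Q8 F (e b) ≠ 0 := fun e0 => h.ne a (by rw [← a3, e0, zero_smul, QuadraticMap.map_zero])
    have key : ∀ (c : F) (i : Fin 8) (hc : Q8 F (c • e i) ≠ 0) (k : Fin 8),
        refl (Q8 F) (c • e i) hc (e k) = if k = i then - e k else e k := fun c i hc k => by
      rw [refl_apply, polar_smul_left]
      split_ifs with hk
      · have a5 : c ≠ 0 := fun e0 => hc (by rw [e0, zero_smul, QuadraticMap.map_zero])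
        have := h.ne i
        rw [hk, polar_self, smul_smul, QuadraticMap.map_smul, smul_eq_mul, smul_eq_mul, nsmul_eq_mul,
          show (c * c * Q8 F (e i))⁻¹ * (c * (((2 : ℕ) : F) * Q8 F (e i))) * c = 2 by push_cast; field_simp]
        module
      · rw [h.orth i k (Ne.symm hk), smul_zero, mul_zero, zero_smul, sub_zero]
    have a5 : Q8 F ((1 : F) • e a) ≠ 0 := by rw [one_smul]; exact h.ne a
    have a6 : ∀ k, (refl (Q8 F) _ a5 * refl (Q8 F) _ (a3 ▸ h.ne a)) (e k) = if k = a ∨ k = b then - e k else e k :=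
      fun k => by
        rw [LinearEquiv.mul_apply, key]
        by_cases c1 : k = b
        · rw [if_pos c1, map_neg, key, if_neg (c1 ▸ hab.symm), if_pos (Or.inr c1)]
        · rw [if_neg c1, key]; simp only [c1, or_false]
    refine ⟨z * ⟨_, good8.refl_mul_refl_mem (a3 ▸ h.ne a) a5 (by rw [a3, one_smul])⟩, fun k hk => ?_, fun k hk => ?_⟩
    · rw [e8_mul, a6]
      split_ifs with c1
      · rw [map_neg, a2 k (by simp only [Finset.mem_erase]; tauto)]
      · exact a1 k (by simp only [Finset.mem_erase]; tauto)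
    · rw [e8_mul, a6, if_neg (by rintro (rfl | rfl) <;> contradiction)]
      exact a2 k fun c1 => hk (Finset.mem_of_mem_erase (Finset.mem_of_mem_erase c1))

variable [DecidableEq F]

/-- the sign of the norm -/
def sgn8 (v : V8 F) : ℤ := quadraticChar F (Q8 F v)

theorem sgn8_smul {c : F} (hc : c ≠ 0) (v : V8 F) : sgn8 (c • v) = sgn8 v := by
  rw [sgn8, QuadraticMap.map_smul, smul_eq_mul, map_mul, ← pow_two, quadraticChar_sq_one' hc, one_mul, sgn8]

theorem sgn8_pm (x y : V8 F) : sgn8 (pm x y) = sgn8 x * sgn8 y := by rw [sgn8, norm_pm, map_mul, sgn8, sgn8]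

theorem sgn8_gam (M : Gam (Q8 F)) : ∃ η : ℤ, η * η = 1 ∧ ∀ v, sgn8 (M.1 v) = η * sgn8 v := by
  obtain ⟨σ, c, hM⟩ := M.2
  refine ⟨quadraticChar F c, by rw [← pow_two, quadraticChar_sq_one hM.ne], fun v => ?_⟩
  rw [sgn8, hM.form, map_mul, sgn8]
  congr 1
  by_cases h0 : Q8 F v = 0
  · rw [h0, map_zero]
  by_cases h1 : IsSquare (Q8 F v)
  · rw [(quadraticChar_one_iff_isSquare h0).2 h1, (quadraticChar_one_iff_isSquare ((map_ne_zero σ).2 h0)).2 (h1.map σ)]
  · rw [quadraticChar_neg_one_iff_not_isSquare.2 h1, quadraticChar_neg_one_iff_not_isSquare.2 fun h2 =>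
      h1 (σ.symm_apply_apply (Q8 F v) ▸ h2.map σ.symm)]

omit [DecidableEq F] in
theorem conjE_int (M : Gam (Q8 F)) {z : E8 F} {v : V8 F} {s : ℤ} (h : z.1 v = (s : F) • v) :
    (conjE (Q8 F) M z).1 (M.1 v) = (s : F) • M.1 v := by
  obtain ⟨σ, hσ⟩ := gam_smul M
  rw [conjE_apply, h, hσ, map_intCast]

omit [DecidableEq F] in
/-- invariance under `Γ` -/
theorem fix_of {A : Subgroup (G8 F)} {Γ : Subgroup (MulAut (G8 F))} {M₁ M₂ : Gam (Q8 F)} (C : Cx A Γ M₁ M₂) {z b c : E8 F}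
    (h : T3 z b c) (h0 : ∀ M ∈ LL Γ, ((conjE (Q8 F) M z : E8 F) : G8 F) = z)
    (h1 : ((conjE (Q8 F) M₁ b : E8 F) : G8 F) = z) (h2 : ((conjE (Q8 F) M₂ c : E8 F) : G8 F) = z) :
    ∀ σ ∈ Γ, σ (z : G8 F) = z := by
  intro σ hσ
  obtain ⟨M, h3 | h3 | h3⟩ := cosets σ
  · exact h3 ▸ h0 M (show Psi (Q8 F) M ∈ Γ from h3 ▸ hσ)
  · obtain ⟨α, a1, a2⟩ := C.e1
    have a3 : Psi (Q8 F) (M * M₁⁻¹) = σ * α⁻¹ := eq_mul_inv_of_mul_eq (MulEquiv.ext fun g => by
      obtain ⟨a, rfl⟩ := QuotientGroup.mk_surjective g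
      obtain ⟨b, c, a4⟩ := exists_T3 a
      rw [MulAut.mul_apply, a2 a b c a4, h3 a b c a4, Psi_mk, map_mul, MulAut.mul_apply, conjE_inv_conjE])
    rw [← inv_mul_cancel_right σ α, MulAut.mul_apply, a2 z b c h, h1, ← a3]
    exact h0 _ (show Psi (Q8 F) _ ∈ Γ from a3 ▸ mul_mem hσ (inv_mem a1))
  · obtain ⟨α, a1, a2⟩ := C.e2
    have a3 : Psi (Q8 F) (M * M₂⁻¹) = σ * α⁻¹ := eq_mul_inv_of_mul_eq (MulEquiv.ext fun g => by
      obtain ⟨a, rfl⟩ := QuotientGroup.mk_surjective g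
      obtain ⟨b, c, a4⟩ := exists_T3 a
      rw [MulAut.mul_apply, a2 a b c a4, h3 a b c a4, Psi_mk, map_mul, MulAut.mul_apply, conjE_inv_conjE])
    rw [← inv_mul_cancel_right σ α, MulAut.mul_apply, a2 z b c h, h2, ← a3]
    exact h0 _ (show Psi (Q8 F) _ ∈ Γ from a3 ▸ mul_mem hσ (inv_mem a1))

omit [DecidableEq F] in
theorem mk_eq_of {a b : E8 F} {c : F} (h : ∀ x, b.1 x = c • a.1 x) : (b : G8 F) = a :=
  (mk_eq_iff.2 ⟨c, sq_one_of_smul h, h⟩).symm

omit [DecidableEq F] in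
theorem mk_conjE_of {M : Gam (Q8 F)} {z b : E8 F} {u : F} (h : ∀ x, b.1 x = u • (conjE (Q8 F) M⁻¹ z).1 x) :
    ((conjE (Q8 F) M b : E8 F) : G8 F) = z :=
  (congrArg (Psi (Q8 F) M) (mk_eq_of h)).trans (congrArg QuotientGroup.mk (conjE_conjE_inv M z))

end LieT

open LieT

/-- **[Lie]** -/
theorem boxLie : BoxLie := fun _ _ _ =>
  ⟨fun _ => exists_li, fun _ _ _ _ _ => li_unique, fun _ _ _ _ => li_scalar, fun _ _ _ => li_form⟩

/-- **[Sig]** -/
theorem boxSig : BoxSig := by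
  intro F _ _ A Γ M₁ M₂ e C h2 he1 he2 hL hp ⟨i₀, j₀, hij⟩
  classical
  have h : Fm e := ⟨he1, he2⟩
  have hx := h.gam M₁⁻¹
  have hy := h.gam M₂⁻¹
  obtain ⟨η₁, a1, a2⟩ := sgn8_gam M₁⁻¹
  obtain ⟨η₂, a3, a4⟩ := sgn8_gam M₂⁻¹
  choose k c hk using hp
  have hc : ∀ i j, c i j ≠ 0 := fun i j e0 => mul_ne_zero (hx.ne i) (hy.ne j) (by
    rw [← norm_pm, hk, e0, zero_smul, QuadraticMap.map_zero])
  have hs : ∀ i j, sgn8 (e (k i j)) = η₁ * sgn8 (e i) * (η₂ * sgn8 (e j)) := fun i j => by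
    rw [← sgn8_smul (hc i j), ← hk, sgn8_pm, a2, a4]
  have hd : ∀ i, sgn8 (e i) = 1 ∨ sgn8 (e i) = -1 := fun i => quadraticChar_dichotomy (he1 i)
  have b1 : ∀ i, ∑ j, sgn8 (e j) = η₁ * sgn8 (e i) * η₂ * ∑ j, sgn8 (e j) := fun i => by
    have b2 : Function.Injective (k i) := fun j j' b3 => by
      by_contra b4
      have b5 := polar_pl (M₁⁻¹.1 (e i)) (M₂⁻¹.1 (e j)) (M₂⁻¹.1 (e j'))
      rw [hy.orth j j' b4, mul_zero, hk, hk, b3, polar_smul_left, polar_smul_right] at b5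
      exact smul_ne_zero (hc i j) (smul_ne_zero (hc i j') (h.self h2 _)) b5
    rw [Finset.mul_sum, ← (Finite.injective_iff_bijective.1 b2).sum_comp]
    exact Finset.sum_congr rfl fun j _ => by rw [hs]; ring
  have b2 : sgn8 (e i₀) * sgn8 (e j₀) = -1 := by
    rw [sgn8, sgn8, ← map_mul, quadraticChar_neg_one_iff_not_isSquare.2 hij]
  have b3 : ∑ j, sgn8 (e j) = 0 := by
    have c1 := b1 i₀
    have c2 := b1 j₀
    rcases hd i₀ with c3 | c3 <;> rcases hd j₀ with c4 | c4 <;> rw [c3, c4] at b2 <;> rw [c3] at c1 <;>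
      rw [c4] at c2 <;> first | omega | linarith
  have b4 : (Finset.univ.filter fun j => sgn8 (e j) = -1).card = 2 * 2 := by
    rw [← Finset.sum_filter_add_sum_filter_not Finset.univ fun j => sgn8 (e j) = -1,
      Finset.sum_congr rfl fun j hj => (Finset.mem_filter.1 hj).2,
      Finset.sum_congr rfl fun j hj => (hd j).resolve_right (Finset.mem_filter.1 hj).2] at b3
    have c1 := Finset.card_filter_add_card_filter_not (s := Finset.univ) fun j => sgn8 (e j) = -1
    simp only [Finset.sum_const, Finset.card_univ, Fintype.card_fin, nsmul_eq_mul] at b3 c1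
    omega
  obtain ⟨z, c1, c2⟩ := h.exists_sign h2 2 _ b4 fun a ha b hb =>
    (quadraticChar_one_iff_isSquare (mul_ne_zero (he1 a) (he1 b))).1 (by
      rw [map_mul, show quadraticChar F _ = _ from (Finset.mem_filter.1 ha).2,
        show quadraticChar F _ = _ from (Finset.mem_filter.1 hb).2]; rfl)
  have hz : ∀ i, z.1 (e i) = (sgn8 (e i) : F) • e i := fun i => by
    rcases hd i with c3 | c3
    · rw [c3, c2 i fun c4 => by have := (Finset.mem_filter.1 c4).2; omega, Int.cast_one, one_smul]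
    · rw [c3, c1 i (Finset.mem_filter.2 ⟨Finset.mem_univ _, c3⟩), Int.cast_neg, Int.cast_one, neg_smul, one_smul]
  have hsq : ∀ i, (sgn8 (e i) : F) * sgn8 (e i) = 1 := fun i => by rcases hd i with c3 | c3 <;> simp [c3]
  have hzz : z * z = 1 := e8_ext (h.ext h2 (f := (z * z).1.toLinearMap) (g := LinearMap.id) fun i => by
    show z.1 (z.1 _) = e i
    rw [hz, map_smul, hz, smul_smul, hsq, one_smul])
  obtain ⟨b, d, hT⟩ := exists_T3 z
  have d1 : ∀ x y, z.1 (pm x y) = pm ((((η₁ * η₂ : ℤ) : F) • (conjE (Q8 F) M₁⁻¹ z).1.toLinearMap) x)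
      ((conjE (Q8 F) M₂⁻¹ z).1.toLinearMap y) := fun x =>
    hy.ext h2 (f := z.1.toLinearMap ∘ₗ pl x) (g := pl _ ∘ₗ (conjE (Q8 F) M₂⁻¹ z).1.toLinearMap) fun j =>
      hx.ext h2 (f := z.1.toLinearMap ∘ₗ pr (M₂⁻¹.1 (e j))) (g := pr ((conjE (Q8 F) M₂⁻¹ z).1 (M₂⁻¹.1 (e j))) ∘ₗ
        (((η₁ * η₂ : ℤ) : F) • (conjE (Q8 F) M₁⁻¹ z).1.toLinearMap)) (fun i => by
          show z.1 (pm _ _) = pm (((η₁ * η₂ : ℤ) : F) • (conjE (Q8 F) M₁⁻¹ z).1 _) ((conjE (Q8 F) M₂⁻¹ z).1 _)
          rw [conjE_int _ (hz i), conjE_int _ (hz j), smul_pm, smul_pm, pm_smul, hk, map_smul, hz, hs]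
          push_cast
          module) x
  have d2 : ∃ u v : F, (∀ x, b.1 x = u • (conjE (Q8 F) M₁⁻¹ z).1 x) ∧ ∀ x, d.1 x = v • (conjE (Q8 F) M₂⁻¹ z).1 x := by
    have d3 : ((η₁ * η₂ : ℤ) : F) ≠ 0 := left_ne_zero_of_mul_eq_one (b := ((η₁ * η₂ : ℤ) : F)) (by
      rw [← Int.cast_mul, mul_mul_mul_comm, a1, a3, mul_one, Int.cast_one])
    obtain ⟨u, -, d4, d5⟩ := Tr.unique (a := z.1) (b := LinearEquiv.smulOfNeZero F (V8 F) _ d3 * (conjE (Q8 F) M₁⁻¹ z).1)
      (c := (conjE (Q8 F) M₂⁻¹ z).1) (fun x y => d1 x y) hT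
    exact ⟨u * ((η₁ * η₂ : ℤ) : F), u⁻¹, fun x => (d4 x).trans (smul_smul _ _ _), d5⟩
  obtain ⟨u, v, d3, d4⟩ := d2
  refine ⟨z, hzz, Z1_dim h2 hT hzz (e8_ext fun x => ?_) ?_ (by rw [neg_mul_neg, one_mul]),
    fix_of C hT (fun M hM => ?_) ?_ ?_⟩
  · rw [e8_mul, d3, d3, map_smul, smul_smul, sq_one_of_smul d3, one_smul, ← e8_mul, ← map_mul, hzz, map_one]
  · rintro ⟨s, hs⟩
    have e0 : ∀ i, (sgn8 (e i) : F) = s := fun i => smul_left_injective F
      (fun e1 => he1 i (by rw [e1, QuadraticMap.map_zero])) ((hz i).symm.trans (hs _))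
    have e1 := congrArg (Int.cast : ℤ → F) b2
    rw [Int.cast_mul, e0 j₀, ← e0 i₀, hsq] at e1
    exact h2 (by push_cast at e1; linear_combination e1)
  · obtain ⟨η, e1, e2⟩ := sgn8_gam M
    refine mk_eq_of (c := η) ((h.gam M).ext h2 (f := (conjE (Q8 F) M z).1.toLinearMap)
      (g := (η : F) • z.1.toLinearMap) fun i => ?_)
    obtain ⟨j, t, e3⟩ := hL M hM i
    have e4 : t ≠ 0 := fun e0 => (h.gam M).ne i (by rw [e3, e0, zero_smul, QuadraticMap.map_zero])
    show (conjE (Q8 F) M z).1 _ = (η : F) • z.1 _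
    rw [conjE_int M (hz i), e3, map_smul, hz, ← sgn8_smul e4 (e j), ← e3, e2, e3, smul_comm t, smul_smul (η : F),
      ← Int.cast_mul, ← mul_assoc, e1, one_mul]
  · exact mk_conjE_of d3
  · exact mk_conjE_of d4

end Cfsg.Agent.N2C.D4
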