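import Cfsg.Agent.N2.Cl.D4.Core
import Cfsg.Agent.N2.G2.Tri
import Cfsg.Agent.N2.Cl.Br.Main

/-!
# N2 (S3519), `PΩ₈⁺(q)` with triality: the row from the boxes (helper61)
-/

set_option autoImplicit false
set_option linter.unusedSectionVars false

namespace Cfsg.Agent.N2C.D4

open QuadraticMap Module Cfsg.Agent.LieClassical.QuadForms Cfsg.Agent.LieClassical.OrthCore
  Cfsg.Agent.LieClassical.OrthTrans Cfsg.Agent.ClassicalGeometry.OrthSemi Cfsg.Agent.ClassicalGeometry.OrthAut1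
  Cfsg.Agent.ClassicalGeometry.TrialityOct Cfsg.Agent.ClassicalGeometry.Triality
  Cfsg.Agent.H989.OutOrth.Basic Cfsg.Agent.H989.OutOrth.Tri Cfsg.Agent.SB.D4
open Cfsg.Agent.FP3 (MI)
open Cfsg.Agent.N2 (Cf)

variable {F : Type} [Field F] [Fintype F]

theorem Spn.c0 {L : Subgroup (E8 F)} (h : Spn L) : C0 L := fun a _ _ _ _ hc => by
  have h1 : ∀ f : Module.End F (V8 F), ∀ x, a (f x) = f (a x) := fun f => by
    have h2 : f ∈ Submodule.span F ((fun a : E8 F => a.1.toLinearMap) '' L) := h.ge trivial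
    induction h2 using Submodule.span_induction with
    | mem f hf =>
      obtain ⟨l, hl, rfl⟩ := hf
      exact hc l hl
    | zero => simp
    | add f g _ _ k k' => exact fun x => by rw [LinearMap.add_apply, LinearMap.add_apply, map_add, k, k']
    | smul c f _ k => exact fun x => by rw [LinearMap.smul_apply, LinearMap.smul_apply, map_smul, k]
  obtain ⟨x, y, hxy⟩ := (good8 (F := F)).exists_hyp
  refine ⟨polar (Q8 F) x (a y), fun v => ?_⟩
  simpa [hxy.3] using h1 ((polarBilin (Q8 F) x).smulRight v) y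

variable {A : Subgroup (G8 F)} {Γ : Subgroup (MulAut (G8 F))} {M₁ M₂ : Gam (Q8 F)}

theorem Cb.good (cf : Cf) (lm : Lm) (bx : Bx) (w : WRes) {N : Subgroup (G8 F)} {𝓣 : Set (Subgroup (G8 F))}
    (h : Cb A Γ M₁ M₂ N 𝓣) : FP3.Good A := by
  by_cases nf : NoFix (lf N)
  swap
  · exact bx.fix lm F A Γ M₁ M₂ N 𝓣 h nf
  have rd := bx.irr lm F A Γ M₁ M₂ N 𝓣 h nf
  by_cases h3 : ∃ U, Iv (lf N) U ∧ finrank F U = 3
  · obtain ⟨U, hU, k⟩ := h3
    obtain ⟨k1, k2⟩ := bx.b35 lm F A Γ M₁ M₂ N 𝓣 h rd U hU k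
    exact bx.cen lm F A Γ M₁ M₂ N 𝓣 h nf k1 k2
  by_cases h4 : ∃ U, Iv (lf N) U ∧ finrank F U = 4
  · obtain ⟨U, hU, k⟩ := h4
    exact bx.b44 lm F A Γ M₁ M₂ N 𝓣 h nf rd U hU k
  push Not at h3 h4
  have hs : Spn (lf N) := bx.k lm F A Γ M₁ M₂ N 𝓣 h fun U hU => by
    have k1 := dim_prp U
    have k2 := (rd U hU).2
    have k3 := (rd _ hU.prp).2
    have k4 := h3 U hU
    have k5 := h3 _ hU.prp
    have k6 := h4 U hU
    by_cases k7 : finrank F U = 0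
    · exact Or.inl (Submodule.finrank_eq_zero.1 k7)
    · exact Or.inr (Submodule.eq_top_of_finrank_eq (by rw [finrank8]; omega))
  exact (bx.res cf w F A Γ M₁ M₂ N 𝓣 h hs (bx.q lm F A Γ M₁ M₂ N 𝓣 h hs)).elim id
    (bx.cen lm F A Γ M₁ M₂ N 𝓣 h nf hs.c0)

theorem Cx.good (cf : Cf) (lm : Lm) (bx : Bx) (w : WRes) (h : Cx A Γ M₁ M₂) : FP3.Good A := by
  have := simple8 (F := F)
  have := finite8 (F := F)
  rcases N2.G2.tri_mi noncomm8 h.mi with ⟨X, r, k⟩ | ⟨S, k⟩ | ⟨𝓢, k⟩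
  · exact bx.loc lm bx.sig F A Γ M₁ M₂ X h k.ne_bot k.inv k.comm
  · refine Cb.good cf lm bx w (N := S) (𝓣 := {S}) ⟨h, k.inv, k.le, k.ne_bot, fun g hg => k.cent g fun x hx => (hg x hx).symm,
      sSup_singleton, ?_, ?_, ?_⟩
    · rintro _ rfl
      exact ⟨k.simple, k.nonab⟩
    · rintro _ rfl _ rfl e
      exact (e rfl).elim
    · rintro σ hσ S' rfl
      ext x
      obtain ⟨x, rfl⟩ := σ.surjective x
      exact (Subgroup.mem_map_iff_mem (f := σ.toMonoidHom) σ.injective).trans (k.inv.iff hσ x).symm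
  · refine Cb.good cf lm bx w (N := sSup 𝓢) (𝓣 := 𝓢) ⟨h, fun σ hσ x hx => ?_, sSup_le k.le, fun e => ?_,
      fun g hg => k.cent g fun S hS x hx => (hg x (le_sSup hS hx)).symm, rfl, fun S hS => ⟨k.simple S hS, k.nonab S hS⟩,
      k.comm, k.perm⟩
    · have h1 : sSup 𝓢 ≤ (sSup 𝓢).comap σ.toMonoidHom := sSup_le fun S hS y hy =>
        le_sSup (k.perm σ hσ S hS) (Subgroup.mem_map_of_mem _ hy)
      exact h1 hx
    · obtain ⟨S, hS, S', hS', hne⟩ := k.two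
      exact hne ((eq_bot_iff.2 (e ▸ le_sSup hS)).trans (eq_bot_iff.2 (e ▸ le_sSup hS')).symm)

open Cfsg.Agent.ClassicalGeometry.OrthSemiForms in
/-- **the row of `PΩ₈⁺(q)`** -/
theorem boxD4_of (lm : Lm) (bx : Bx) (w : WRes) : BoxD4 := by
  rintro cf hO T _ _ _ - ⟨K, _, _, ⟨e⟩⟩
  have := simple8 (F := K)
  have := finite8 (F := K)
  have : Fact (ringChar K).Prime := ⟨CharP.char_is_prime K _⟩
  have e' : POmega K (quadFormPlus 4 K) ≃* G8 K := (LieClassical.OrthForms.coe_plusForm 4 K) ▸ pomegaEquiv good8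
  refine N2.asRow_congr (e.trans e').symm (N2.Par.asRow_of (p := ringChar K) noncomm8 (CTwoTab.isLieTypeChar_congr e'
    (Or.inr (Or.inr (Or.inr (Or.inr (Or.inl ⟨K, _, inferInstance, inferInstance, 4, le_rfl, ⟨MulEquiv.refl _⟩⟩))))))
    fun A Γ hA h1 _ => ?_)
  rcases dichotomy Γ with ⟨β, hβ⟩ | ⟨⟨α, hα, M₁, k1⟩, α', hα', M₂, k2⟩
  · exact (N2.good_comap β.symm.toMonoidHom β.symm.surjective A).1 (Br.good_plus' cf hO le_rfl (N2.mi_comap β.symm hA)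
      fun σ hσ => hβ ⟨_, hσ, MulEquiv.ext fun x => (β.apply_symm_apply _).trans (congrArg σ (β.apply_symm_apply x))⟩)
  · refine Cx.good cf lm bx w ⟨hA, ⟨α, hα, k1⟩, ⟨α', hα', k2⟩, fun P hP hn hp => by_contra fun h0 => ?_⟩
    exact N2.Par.pCore_ne_bot hp h0 hP (fun a ha => Subgroup.mem_normalizer_fintype (hn a ha)) h1

end Cfsg.Agent.N2C.D4
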