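import Cfsg.Agent.N2.Cl.D4.Defs

/-!
# N2 (S3519), `PΩ₈⁺(q)`: isometries of planes (helper50)

`boxP2 : BoxP2`, `boxP2K : BoxP2K`.
-/

set_option autoImplicit false
set_option linter.unusedSectionVars false

namespace Cfsg.Agent.N2C.D4

open QuadraticMap Module Cfsg.Agent.LieClassical.OrthCore Cfsg.Agent.ClassicalGeometry.Triality Cfsg.Agent.SB.D4

namespace P2

section mat

variable {K : Type*} [Field K] {a b c : K} {M N : Matrix (Fin 2) (Fin 2) K}

/-- the operator of the form `a x² + b x y + c y²` -/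
def TT (a b c : K) : Matrix (Fin 2) (Fin 2) K := !![0, -c; a, b]

/-- isometries -/
structure Is (a b c : K) (M : Matrix (Fin 2) (Fin 2) K) : Prop where
  e1 : M 0 0 ^ 2 * a + M 0 0 * M 1 0 * b + M 1 0 ^ 2 * c = a
  e2 : M 0 1 ^ 2 * a + M 0 1 * M 1 1 * b + M 1 1 ^ 2 * c = c
  e3 : (M 0 0 + M 0 1) ^ 2 * a + (M 0 0 + M 0 1) * (M 1 0 + M 1 1) * b + (M 1 0 + M 1 1) ^ 2 * c = a + b + c

/-- the defect -/
def ll (a b c : K) (M : Matrix (Fin 2) (Fin 2) K) : K := -(c * M 1 0 * M 1 1) - a * M 0 0 * M 0 1 - b * M 0 1 * M 1 0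

/-- commutation up to `l` -/
def R (a b c : K) (M : Matrix (Fin 2) (Fin 2) K) (l : K) : Prop := TT a b c * M = M * TT a b c + l • M

theorem Is.r (h : Is a b c M) (hd : M.det = 1) : R a b c M (ll a b c M) := by
  have h1 : M.adjugate * (TT a b c * M) = TT a b c + ll a b c M • 1 := by
    obtain ⟨e1, e2, e3⟩ := h
    ext i j
    fin_cases i <;> fin_cases j <;> simp [TT, ll, Matrix.adjugate_fin_two, Matrix.mul_apply, Fin.sum_univ_two, Matrix.vecMul, dotProduct]
    · ring
    · linear_combination -e2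
    · linear_combination e1
    · linear_combination e3 - e1 - e2
  have h2 := congrArg (M * ·) h1
  simp only [← mul_assoc, Matrix.mul_adjugate, hd, one_smul, one_mul, mul_add, Matrix.mul_smul, mul_one] at h2
  exact h2

theorem Is.two (h : Is a b c M) (hd : M.det = 1) : 2 * ll a b c M = 0 := by
  rw [Matrix.det_fin_two] at hd
  obtain ⟨e1, e2, e3⟩ := h
  unfold ll
  linear_combination e1 + e2 - e3 + b * hd

theorem Is.det (h : Is a b c M) (hD : b ^ 2 - 4 * a * c ≠ 0) : M.det ^ 2 = 1 := by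
  obtain ⟨e1, e2, e3⟩ := h
  have e4 : 2 * a * M 0 0 * M 0 1 + b * (M 0 0 * M 1 1 + M 0 1 * M 1 0) + 2 * c * M 1 0 * M 1 1 = b := by
    linear_combination e3 - e1 - e2
  refine mul_right_cancel₀ hD ?_
  rw [Matrix.det_fin_two]
  linear_combination (2 * a * M 0 0 * M 0 1 + b * (M 0 0 * M 1 1 + M 0 1 * M 1 0) + 2 * c * M 1 0 * M 1 1 + b) * e4 -
    4 * (M 0 1 ^ 2 * a + M 0 1 * M 1 1 * b + M 1 1 ^ 2 * c) * e1 - 4 * a * e2

theorem R.mul {l l' : K} (h : R a b c M l) (h' : R a b c N l') : R a b c (M * N) (l + l') := by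
  unfold R at *
  rw [← mul_assoc, h, add_mul, mul_assoc, h', mul_add, Matrix.mul_smul, Matrix.smul_mul, add_smul, ← mul_assoc]
  abel

theorem R.unique {l l' : K} (hd : M.det = 1) (h : R a b c M l) (h' : R a b c M l') : l = l' := by
  have h1 : (l - l') • M = 0 := by rw [sub_smul, sub_eq_zero]; exact add_left_cancel (h.symm.trans h')
  refine sub_eq_zero.1 ((smul_eq_zero.1 h1).resolve_right fun e => ?_)
  rw [e, Matrix.det_zero] at hd
  exact zero_ne_one hd

theorem R.one : R a b c 1 0 := by simp [R]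

theorem R.pow {l : K} (h : R a b c M l) (n : ℕ) : R a b c (M ^ n) (n * l) := by
  induction n with
  | zero => simpa using R.one
  | succ n ih => simpa [pow_succ, add_mul] using ih.mul h

theorem R.comm (h0 : a ≠ 0 ∨ b ≠ 0 ∨ c ≠ 0) (h : R a b c M 0) (h' : R a b c N 0) : M * N = N * M := by
  have e := fun i j => congrFun (congrFun h i) j
  have e' := fun i j => congrFun (congrFun h' i) j
  have e1 := e 0 0
  have e2 := e 0 1
  have e3 := e 1 0
  have e1' := e' 0 0
  have e2' := e' 0 1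
  have e3' := e' 1 0
  simp [TT, Matrix.mul_apply, Fin.sum_univ_two] at e1 e2 e3 e1' e2' e3'
  have k : M 0 1 * N 1 0 = N 0 1 * M 1 0 ∧ (M 1 1 - M 0 0) * N 0 1 = (N 1 1 - N 0 0) * M 0 1 ∧
      (M 1 1 - M 0 0) * N 1 0 = (N 1 1 - N 0 0) * M 1 0 := by
    rcases h0 with h0 | h0 | h0
    · refine ⟨mul_left_cancel₀ h0 ?_, mul_left_cancel₀ (mul_ne_zero h0 h0) ?_, mul_left_cancel₀ h0 ?_⟩
      · linear_combination M 1 0 * e1' - N 1 0 * e1
      · linear_combination (a * M 0 1) * e3' - (a * N 0 1) * e3 + (b * N 1 0) * e1 - (b * M 1 0) * e1'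
      · linear_combination M 1 0 * e3' - N 1 0 * e3
    · refine ⟨mul_left_cancel₀ h0 ?_, mul_left_cancel₀ h0 ?_, mul_left_cancel₀ h0 ?_⟩
      · linear_combination M 0 1 * e3' - (N 1 1 - N 0 0) * e1 + M 1 0 * e2'
      · linear_combination (N 1 1 - N 0 0) * e2 - (M 1 1 - M 0 0) * e2'
      · linear_combination (M 1 1 - M 0 0) * e3' - (N 1 1 - N 0 0) * e3
    · refine ⟨mul_left_cancel₀ h0 ?_, mul_left_cancel₀ h0 ?_, mul_left_cancel₀ h0 ?_⟩
      · linear_combination N 0 1 * e1 - M 0 1 * e1'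
      · linear_combination M 0 1 * e2' - N 0 1 * e2
      · linear_combination (N 1 1 - N 0 0) * e1 - N 1 0 * e2 - M 0 1 * e3'
  obtain ⟨k1, k2, k3⟩ := k
  ext i j
  fin_cases i <;> fin_cases j <;> simp [Matrix.mul_apply, Fin.sum_univ_two]
  · linear_combination k1
  · linear_combination -k2
  · linear_combination k3
  · linear_combination -k1

theorem Is.odd (h : Is a b c M) (hD : b ^ 2 - 4 * a * c ≠ 0) {n : ℕ} (hn : Odd n) (e : M ^ n = 1) : R a b c M 0 := by
  obtain ⟨k, rfl⟩ := hn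
  have h1 : M.det = 1 := by
    have h1 := congrArg Matrix.det e
    rwa [Matrix.det_pow, pow_succ, pow_mul, h.det hD, one_pow, one_mul, Matrix.det_one] at h1
  have h2 := (h.r h1).pow (2 * k + 1)
  rw [e] at h2
  have h3 := h2.unique Matrix.det_one R.one
  have h4 : ll a b c M = 0 := by
    push_cast at h3
    linear_combination h3 - k * h.two h1
  exact h4 ▸ h.r h1

theorem hom_triv {G A : Type*} [Group G] [CommMonoid A] (hG : commutator G = ⊤) (f : G →* A) (g : G) : f g = 1 := by
  have h1 : commutator G ≤ f.toHomUnits.ker := Abelianization.commutator_subset_ker _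
  exact congrArg Units.val (MonoidHom.mem_ker.1 (h1 (hG ▸ Subgroup.mem_top g)))

theorem perf {G : Type*} [Group G] (hG : commutator G = ⊤) (h0 : a ≠ 0 ∨ b ≠ 0 ∨ c ≠ 0)
    (ρ : G →* Matrix (Fin 2) (Fin 2) K) (h : ∀ g, Is a b c (ρ g)) (g : G) : ρ g = 1 := by
  have h1 : ∀ g, (ρ g).det = 1 := hom_triv hG (Matrix.detMonoidHom.comp ρ)
  let f : G →* Multiplicative K := MonoidHom.mk' (fun g => Multiplicative.ofAdd (ll a b c (ρ g))) fun x y => by
    have h2 := ((h x).r (h1 x)).mul ((h y).r (h1 y))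
    rw [← map_mul] at h2
    exact congrArg Multiplicative.ofAdd (((h _).r (h1 _)).unique (h1 _) h2)
  have h2 : ∀ g, R a b c (ρ g) 0 := fun g => by
    have h2 : ll a b c (ρ g) = 0 := hom_triv hG f g
    exact h2 ▸ (h g).r (h1 g)
  have h3 : commutator G ≤ ρ.toHomUnits.ker := by
    rw [commutator_def, Subgroup.commutator_le]
    intro x _ y _
    rw [MonoidHom.mem_ker, map_commutatorElement, commutatorElement_eq_one_iff_mul_comm]
    exact Units.ext ((h2 x).comm h0 (h2 y))
  exact congrArg Units.val (MonoidHom.mem_ker.1 (h3 (hG ▸ Subgroup.mem_top g)))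

end mat

section plane

variable {K W : Type*} [Field K] [AddCommGroup W] [Module K W] {θ : W → K} {β : W → W → K}

/-- a quadratic form with its polar form -/
structure Qf (θ : W → K) (β : W → W → K) : Prop where
  smul : ∀ (k : K) x, θ (k • x) = k ^ 2 * θ x
  add : ∀ x y, θ (x + y) = θ x + θ y + β x y
  bil : ∀ (k l : K) x y, β (k • x) (l • y) = k * l * β x y

theorem Qf.val (h : Qf θ β) (k l : K) (x y : W) : θ (k • x + l • y) = k ^ 2 * θ x + k * l * β x y + l ^ 2 * θ y := by
  rw [h.add, h.smul, h.smul, h.bil]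
  ring

theorem app (e : Basis (Fin 2) K W) (f : Module.End K W) (j : Fin 2) :
    f (e j) = LinearMap.toMatrixAlgEquiv e f 0 j • e 0 + LinearMap.toMatrixAlgEquiv e f 1 j • e 1 := by
  rw [LinearMap.toMatrixAlgEquiv_apply, LinearMap.toMatrixAlgEquiv_apply, ← Fin.sum_univ_two
    (fun i => e.repr (f (e j)) i • e i), e.sum_repr]

theorem Qf.is (h : Qf θ β) (e : Basis (Fin 2) K W) {f : Module.End K W} (hf : ∀ x, θ (f x) = θ x) :
    Is (θ (e 0)) (β (e 0) (e 1)) (θ (e 1)) (LinearMap.toMatrixAlgEquiv e f) := by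
  refine ⟨?_, ?_, ?_⟩
  · rw [← h.val, ← app, hf]
  · rw [← h.val, ← app, hf]
  · have h1 := hf (e 0 + e 1)
    rw [map_add, app, app, add_add_add_comm, ← add_smul, ← add_smul, h.val, h.add] at h1
    rw [h1]
    ring

theorem Qf.perf (h : Qf θ β) (h2 : finrank K W = 2) {x : W} (hx : θ x ≠ 0) {G : Type*} [Group G]
    (hG : commutator G = ⊤) (ρ : G →* Module.End K W) (hρ : ∀ g x, θ (ρ g x) = θ x) (g : G) : ρ g = 1 := by
  have := Module.finite_of_finrank_eq_succ h2
  let e := Module.finBasisOfFinrankEq K W h2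
  refine (LinearMap.toMatrixAlgEquiv e).injective ((P2.perf hG ?_
    ((LinearMap.toMatrixAlgEquiv e).toAlgHom.toMonoidHom.comp ρ) (fun g => h.is e (hρ g)) g).trans (map_one _).symm)
  by_contra h0
  push Not at h0
  refine hx ?_
  rw [← e.sum_repr x, Fin.sum_univ_two, h.val, h0.1, h0.2.1, h0.2.2]
  ring

end plane

section form

variable {F W : Type*} [Field F] [AddCommGroup W] [Module F W] (Q : QuadraticForm F W)

theorem qf : Qf Q (polar Q) :=
  ⟨fun k x => by rw [Q.map_smul, smul_eq_mul, pow_two], fun x y => by rw [polar]; ring,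
    fun k l x y => by rw [polar_smul_left, polar_smul_right, smul_eq_mul, smul_eq_mul, mul_assoc]⟩

theorem exists_Q_ne [Nontrivial W] (hQ : ∀ x, (∀ y, polar Q x y = 0) → x = 0) : ∃ x, Q x ≠ 0 := by
  by_contra h
  push Not at h
  obtain ⟨x, hx⟩ := exists_ne (0 : W)
  exact hx (hQ x fun y => by rw [polar, h, h, h, sub_zero, sub_zero])

theorem odd_comm (h2 : finrank F W = 2) (hQ : ∀ x, (∀ y, polar Q x y = 0) → x = 0) {f g : Module.End F W}
    (hf : ∀ x, Q (f x) = Q x) (hg : ∀ x, Q (g x) = Q x) {m n : ℕ} (hm : Odd m) (hn : Odd n) (e1 : f ^ m = 1)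
    (e2 : g ^ n = 1) : f * g = g * f := by
  have := Module.finite_of_finrank_eq_succ h2
  let e := Module.finBasisOfFinrankEq F W h2
  have hD : polar Q (e 0) (e 1) ^ 2 - 4 * Q (e 0) * Q (e 1) ≠ 0 := fun hD => by
    have h1 : ∀ k l : F, polar Q (k • e 0 + l • e 1) (e 0) = 0 → polar Q (k • e 0 + l • e 1) (e 1) = 0 →
        k = 0 ∧ l = 0 := fun k l h1 h2 => by
      have h3 := hQ (k • e 0 + l • e 1) fun y => by
        rw [← e.sum_repr y, Fin.sum_univ_two, polar_add_right, polar_smul_right, polar_smul_right, h1, h2, smul_zero,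
          smul_zero, add_zero]
      have h4 := Fintype.linearIndependent_iff.1 e.linearIndependent ![k, l] (by simpa using h3)
      exact ⟨h4 0, h4 1⟩
    simp only [polar_add_left, polar_smul_left, polar_self, smul_eq_mul, polar_comm Q (e 1) (e 0), nsmul_eq_mul,
      Nat.cast_ofNat] at h1
    have h3 := h1 (polar Q (e 0) (e 1)) (-(2 * Q (e 0))) (by ring) (by linear_combination hD)
    exact one_ne_zero (h1 1 0 (by linear_combination -h3.2) (by linear_combination h3.1)).1
  have h0 : Q (e 0) ≠ 0 ∨ polar Q (e 0) (e 1) ≠ 0 ∨ Q (e 1) ≠ 0 := by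
    by_contra h0
    push Not at h0
    exact hD (by rw [h0.1, h0.2.1]; ring)
  refine (LinearMap.toMatrixAlgEquiv e).injective ?_
  rw [map_mul, map_mul]
  exact (((qf Q).is e hf).odd hD hm (by rw [← map_pow, e1, map_one])).comm h0
    (((qf Q).is e hg).odd hD hn (by rw [← map_pow, e2, map_one]))

theorem ext_perf [Finite F] (h4 : finrank F W = 4) (hQ : ∀ x, (∀ y, polar Q x y = 0) → x = 0) (j : Module.End F W)
    {t d : F} (hj : ∀ x, j (j x) = t • j x + d • x) (hc : ∀ c : F, c * c ≠ t * c + d)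
    (hs : ∀ x y, polar Q (j x) y = polar Q x (j y)) (h2 : (2 : F) = 0 → ∀ x, polar Q (j x) x = 0) {G : Type*} [Group G]
    (hG : commutator G = ⊤) (ρ : G →* Module.End F W) (hρ : ∀ g x, Q (ρ g x) = Q x) (hρj : ∀ g x, ρ g (j x) = j (ρ g x))
    (g : G) (x : W) : ρ g x = x := by
  have : Fact (∀ r : F, r ^ 2 ≠ d + t * r) := ⟨fun r h => hc r (by linear_combination h)⟩
  let φ : QuadraticAlgebra F d t →ₐ[F] Module.End F W :=
    QuadraticAlgebra.lift ⟨j, LinearMap.ext fun x => by simp [hj, add_comm]⟩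
  let _ : Module (QuadraticAlgebra F d t) W := Module.compHom W φ.toRingHom
  have hk : ∀ (k : QuadraticAlgebra F d t) (x : W), k • x = k.re • x + k.im • j x := fun _ _ => rfl
  have : IsScalarTower F (QuadraticAlgebra F d t) W := ⟨fun r k x => by simp [hk, mul_smul]⟩
  have hW : finrank (QuadraticAlgebra F d t) W = 2 := by
    have h1 := Module.finrank_mul_finrank F (QuadraticAlgebra F d t) W
    rw [QuadraticAlgebra.finrank_eq_two, h4] at h1
    omega
  have : Nontrivial W := Module.nontrivial_of_finrank_eq_succ h4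
  obtain ⟨x₀, hx₀⟩ := exists_Q_ne Q hQ
  let ρ' : G →* Module.End (QuadraticAlgebra F d t) W :=
    { toFun := fun g => ⟨(ρ g).toAddHom, fun k x => by simp [hk, hρj]⟩
      map_one' := LinearMap.ext fun x => by simp
      map_mul' := fun a b => LinearMap.ext fun x => by simp }
  have hB : ∀ g x y, polar Q (ρ g x) (ρ g y) = polar Q x y := fun g x y => by
    rw [polar, ← map_add, hρ, hρ, hρ, polar]
  let β : W → W → QuadraticAlgebra F d t := fun x y => ⟨polar Q (j x) y - t * polar Q x y, polar Q x y⟩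
  have hjj : ∀ x y, polar Q (j x) (j y) = t * polar Q (j x) y + d * polar Q x y := fun x y => by
    rw [← hs, hj, polar_add_left, polar_smul_left, polar_smul_left, smul_eq_mul, smul_eq_mul]
  have hβ : ∀ (k l : QuadraticAlgebra F d t) x y, β (k • x) (l • y) = k * l * β x y := fun k l x y => by
    ext <;> simp [β, hk, hj, polar_add_left, polar_add_right, polar_smul_left, polar_smul_right, hjj, ← hs x y] <;> ring
  suffices h : ∃ (θ : W → QuadraticAlgebra F d t) (e : QuadraticAlgebra F d t), Qf θ (fun x y => e * β x y) ∧ θ x₀ ≠ 0 ∧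
      ∀ g x, θ (ρ g x) = θ x by
    obtain ⟨θ, e, h1, h3, h5⟩ := h
    exact LinearMap.congr_fun (h1.perf hW h3 hG ρ' h5 g) x
  by_cases h : (2 : F) = 0
  · have ht : t ≠ 0 := by
      rintro rfl
      have : CharP F 2 := CharTwo.of_one_ne_zero_of_two_eq_zero one_ne_zero h
      obtain ⟨c, e⟩ := surjective_frobenius F 2 d
      exact hc c (by rw [← e, frobenius_def]; ring)
    have hq : ∀ (u v : F) x, Q (u • x + v • j x) = u ^ 2 * Q x + v ^ 2 * Q (j x) := fun u v x => by
      rw [(qf Q).val, polar_comm, h2 h x]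
      ring
    refine ⟨fun x => ⟨Q (j x) - (d + t ^ 2) * Q x, t * Q x⟩, ⟨t, 0⟩, ⟨fun k x => ?_, fun x y => ?_, fun k l x y => ?_⟩,
      fun e => mul_ne_zero ht hx₀ (congrArg QuadraticAlgebra.im e), fun g x => by simp only [← hρj, hρ]⟩
    · have h5 : j (k • x) = (k.im * d) • x + (k.re + k.im * t) • j x := by
        rw [hk, map_add, map_smul, map_smul, hj]
        module
      rw [h5, hk, hq, hq]
      ext <;> simp [pow_two]
      · linear_combination ((k.im ^ 2 * d ^ 2 - d * t * k.re * k.im) * Q x + (k.re * k.im * t - d * k.im ^ 2) * Q (j x)) * h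
      · linear_combination (k.re * k.im * d * Q x - k.re * k.im * Q (j x)) * h
    · rw [map_add, (qf Q).add, (qf Q).add, hjj]
      ext <;> simp [β] <;> ring
    · rw [hβ]
      ring
  · refine ⟨fun x => β x x, 2, ⟨fun k x => by rw [hβ, pow_two], fun x y => ?_, fun k l x y => ?_⟩, fun e => ?_,
      fun g x => by simp only [β, ← hρj, hB]⟩
    · ext <;> simp [β, polar_add_left, polar_add_right, hs y x, (qf Q).add x y, polar_comm Q y (j x), two_mul] <;> ring
    · rw [hβ]
      ring
    · have h5 : polar Q x₀ x₀ = 0 := congrArg QuadraticAlgebra.im e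
      rw [polar_self, nsmul_eq_mul, Nat.cast_ofNat] at h5
      exact mul_ne_zero h hx₀ h5

end form

variable {F : Type} [Field F]

theorem nd {P : Submodule F (V8 F)} (h : Nd (Q8 F) P) (x : P) (hx : ∀ y, polar ((Q8 F).comp P.subtype) x y = 0) :
    x = 0 := Subtype.ext (h x x.2 fun y hy => by simpa [polar] using hx ⟨y, hy⟩)

/-- the action on an invariant subspace -/
def res {L : Subgroup (E8 F)} {P : Submodule F (V8 F)} (h : Iv L P) : L →* Module.End F P where
  toFun a := a.1.1.toLinearMap.restrict (h a a.2)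
  map_one' := LinearMap.ext fun _ => rfl
  map_mul' _ _ := LinearMap.ext fun _ => rfl

theorem perf_of {G : Type*} [Group G] {L : Subgroup G} (h : ⁅L, L⁆ = L) : commutator L = ⊤ :=
  Subgroup.map_injective L.subtype_injective (by
    rw [Subgroup.map_subtype_commutator, h, ← MonoidHom.range_eq_map, Subgroup.range_subtype])

end P2

open P2

theorem boxP2 : BoxP2 := by
  intro F _ _ P h2 hP
  refine ⟨fun g h hg hh og oh mg mh x hx => ?_, fun L hL hI a ha x hx => ?_⟩
  · have key : ∀ (g : GL8 F) (mg : ∀ x ∈ P, g x ∈ P), (g.toLinearMap.restrict mg) ^ orderOf g = 1 := fun g mg => by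
      rw [Module.End.pow_restrict]
      refine LinearMap.ext fun x => Subtype.ext ?_
      have h1 : g.toLinearMap ^ orderOf g = 1 := by
        rw [show g.toLinearMap = LinearEquiv.automorphismGroup.toLinearMapMonoidHom g from rfl, ← map_pow,
          pow_orderOf_eq_one, map_one]
      rw [LinearMap.coe_restrict_apply, h1]
      rfl
    exact congrArg Subtype.val (LinearMap.congr_fun (odd_comm ((Q8 F).comp P.subtype) h2 (nd hP)
      (fun x => hg x) (fun x => hh x) og oh (key g mg) (key h mh)) ⟨x, hx⟩)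
  · have : Nontrivial P := Module.nontrivial_of_finrank_eq_succ h2
    obtain ⟨x₀, hx₀⟩ := exists_Q_ne _ (nd hP)
    exact congrArg Subtype.val (LinearMap.congr_fun ((qf ((Q8 F).comp P.subtype)).perf h2 hx₀ (perf_of hL) (res hI)
      (fun g x => E_le_O g.1.2 x) ⟨a, ha⟩) ⟨x, hx⟩)

theorem boxP2K : BoxP2K := by
  intro F _ _ W j t d L h4 hW mj hj hc hs h2 hL hI hc' a ha x hx
  exact congrArg Subtype.val (ext_perf ((Q8 F).comp W.subtype) h4 (nd hW) (j.restrict mj)
    (fun x => Subtype.ext (hj x x.2)) hc (fun x y => by simpa [polar] using hs x x.2 y y.2)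
    (fun h x => by simpa [polar] using h2 h x x.2) (perf_of hL) (res hI) (fun g x => E_le_O g.1.2 x)
    (fun g x => Subtype.ext (hc' g g.2 x x.2)) ⟨a, ha⟩ ⟨x, hx⟩)

end Cfsg.Agent.N2C.D4
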