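import Cfsg.Agent.N2.Cl.D4.Defs
import Cfsg.Agent.H198.TriCls
import Cfsg.Agent.H161.TriLin
import Cfsg.Agent.H752.SemiNormal
import Cfsg.Agent.H126.TriRigid
import Cfsg.Agent.H206.TriCent
import Cfsg.Agent.H989.OkuboRoot
import Cfsg.Agent.H669.TriBal

/-!
# N2 (S3519), `PΩ₈⁺(q)`: inverted graph automorphisms of order three (helper39)

* `PsiB.Iw x y` : `y` inverts `x` and is trivial on its fixed points; `PsiB.not_B`, `PsiB.not_f` : two impossible cases;
* `PsiB.exists_three`, `PsiB.fix_one` : the fixed vector in the other two cases;  `boxPsi`.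
-/

set_option autoImplicit false
set_option linter.unusedSectionVars false

namespace Cfsg.Agent.N2C.D4

namespace PsiB

open Module QuadraticMap Cfsg.Agent.LieClassical.OrthCore Cfsg.Agent.LieClassical.OrthTrans
  Cfsg.Agent.LieClassical.OrthSimple Cfsg.Agent.ClassicalGeometry.OrthAut1
  Cfsg.Agent.ClassicalGeometry.OrthSemi Cfsg.Agent.H198.Classes
  Cfsg.Agent.LieClassical.QuadForms Cfsg.Agent.H198.ClassesPlus
  Cfsg.Agent.ClassicalGeometry.TrialityOct Cfsg.Agent.ClassicalGeometry.Triality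
  Cfsg.Agent.ClassicalGeometry.TrialitySpaces Cfsg.Agent.H198.TriBase Cfsg.Agent.H198.TriAut
  Cfsg.Agent.H198.TriDia Cfsg.Agent.H198.TriSpec Cfsg.Agent.H198.TriPhi Cfsg.Agent.H198.TriInn
  Cfsg.Agent.H669.TriBal
open Cfsg.Agent.H206.Balance (mem_Fx)

section abs

variable {K : Type} [Group K]

/-- `y` inverts `x` and is trivial on the fixed points -/
def Iw (x y : MulAut K) : Prop := y * x * y⁻¹ = x⁻¹ ∧ ∀ g, x g = g → y g = g

theorem Iw.conj {x y : MulAut K} (h : Iw x y) (α : MulAut K) : Iw (α * x * α⁻¹) (α * y * α⁻¹) := by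
  refine ⟨?_, fun g hg => ?_⟩
  · calc α * y * α⁻¹ * (α * x * α⁻¹) * (α * y * α⁻¹)⁻¹ = α * (y * x * y⁻¹) * α⁻¹ := by group
      _ = _ := by rw [h.1]; group
  · have h1 : x (α⁻¹ g) = α⁻¹ g := α.injective (hg.trans (α.apply_symm_apply g).symm)
    change α (y (α⁻¹ g)) = g
    rw [h.2 _ h1, MulAut.apply_inv_self]

theorem inv_fix {x : MulAut K} {g : K} (h : x g = g) : x⁻¹ g = g :=
  x.injective ((MulAut.apply_inv_self _ x g).trans h.symm)

theorem Iw.inv {x y : MulAut K} (h : Iw x y) : Iw x⁻¹ y :=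
  ⟨(show y * x⁻¹ * y⁻¹ = (y * x * y⁻¹)⁻¹ by group).trans (congrArg Inv.inv h.1), fun g hg => h.2 g (inv_inv x ▸ inv_fix hg)⟩

theorem Iw.mul {x y : MulAut K} (h : Iw x y) (i : ℕ) : Iw x ((x ^ i)⁻¹ * y) := by
  refine ⟨?_, fun g hg => ?_⟩
  · calc (x ^ i)⁻¹ * y * x * ((x ^ i)⁻¹ * y)⁻¹ = (x ^ i)⁻¹ * (y * x * y⁻¹) * x ^ i := by group
      _ = _ := by rw [h.1]; group
  · rw [MulAut.mul_apply, h.2 g hg]
    exact inv_fix ((MulAction.stabilizer (MulAut K) g).pow_mem hg i)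

end abs

theorem inv_aux {G : Type*} [Group G] {t r k θ : G} (h1 : r * t = t * r) (h2 : r * θ = θ * r) (h3 : k * k = 1)
    (h4 : k * r * k = r⁻¹) (h5 : k * t * k = t) (h6 : θ * t = t⁻¹ * θ) : θ * k * (t * r) * (θ * k)⁻¹ = (t * r)⁻¹ := by
  have h7 : k⁻¹ = k := inv_eq_of_mul_eq_one_left h3
  have h8 : r⁻¹ * θ⁻¹ = θ⁻¹ * r⁻¹ := by rw [← mul_inv_rev, ← h2, mul_inv_rev]
  calc θ * k * (t * r) * (θ * k)⁻¹ = θ * ((k * t * k) * (k⁻¹ * r * k⁻¹)) * θ⁻¹ := by group
    _ = (θ * t) * (r⁻¹ * θ⁻¹) := by rw [h7, h4, h5]; group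
    _ = (r * t)⁻¹ := by rw [h6, h8]; group
    _ = _ := by rw [h1]

theorem one_aux {G : Type*} [Group G] {x : G} (h1 : x = x⁻¹) (h3 : x ^ 3 = 1) : x = 1 := by
  rwa [pow_succ, pow_two, mul_eq_one_iff_eq_inv.2 h1, one_mul] at h3

variable {F : Type} [Field F]

theorem smul_one_inj {a b : F} (h : a • one8 F = b • one8 F) : a = b := by
  simpa [one8] using congrFun h (.inl 0)

/-- the signed transposition of the coordinates -/
def thP (F : Type) [Field F] : Equiv.Perm (V8 F) where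
  toFun x := Sum.elim ![x (.inl 0), -x (.inl 2), -x (.inl 1), -x (.inl 3)]
    ![x (.inr 0), -x (.inr 2), -x (.inr 1), -x (.inr 3)]
  invFun x := Sum.elim ![x (.inl 0), -x (.inl 2), -x (.inl 1), -x (.inl 3)]
    ![x (.inr 0), -x (.inr 2), -x (.inr 1), -x (.inr 3)]
  left_inv x := by apply ext8 <;> simp
  right_inv x := by apply ext8 <;> simp

theorem isSS_thP : IsSS (plusForm 4 F) (RingEquiv.refl F) 1 (thP F) := by
  refine ⟨one_ne_zero, fun u v => ?_, fun c v => ?_, fun v => ?_⟩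
  · apply ext8 <;> simp [thP, add_comm]
  · apply ext8 <;> simp [thP]
  · rw [norm8, norm8]
    simp [thP]
    ring

/-- an octonion automorphism which inverts `tauB` -/
def th (F : Type) [Field F] : G8 F := ⟨thP F, _, _, isSS_thP⟩

theorem tri_th : TriS (th F) (th F) (th F) := by
  intro x y
  apply ext8 <;>
  simp only [th, thP, omul_l0, omul_l1, omul_l2, omul_l3, omul_r0, omul_r1, omul_r2, omul_r3, Equiv.coe_fn_mk, Sum.elim_inl,
    Sum.elim_inr, Matrix.cons_val_zero, Matrix.cons_val_one, Matrix.cons_val] <;>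
  ring

theorem th_tau : th F * tauB F = (tauB F)⁻¹ * th F := by
  apply Subtype.ext
  ext1 x
  apply ext8 <;> rfl

theorem th_dia (u w : V8 F) : (th F * kapG F).1 (dia (tauB F) u w) =
    dia (tauB F) ((th F * kapG F).1 w) ((th F * kapG F).1 u) := by
  have e : ∀ x : V8 F, (th F * kapG F).1 x = thP F (oconj x) := fun _ => rfl
  rw [e, e, e]
  apply ext8 <;>
  simp only [thP, dia_l0, dia_l1, dia_l2, dia_l3, dia_r0, dia_r1, dia_r2, dia_r3, oconj_l0, oconj_l1, oconj_l2, oconj_l3,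
    oconj_r0, oconj_r1, oconj_r2, oconj_r3, Equiv.coe_fn_mk, Sum.elim_inl, Sum.elim_inr, Matrix.cons_val_zero,
    Matrix.cons_val_one, Matrix.cons_val] <;>
  ring

variable (hG : Good (plusForm 4 F))

theorem kap_sq : Psi (plusForm 4 F) (kapG F) * Psi (plusForm 4 F) (kapG F) = 1 := by
  rw [← map_mul (Psi (plusForm 4 F)), kapG_mul_kapG, map_one (Psi (plusForm 4 F))]

theorem kap_psi {τ : G8 F} (hτ : TriS τ τ τ) :
    Psi (plusForm 4 F) (kapG F) * Psi (plusForm 4 F) τ * Psi (plusForm 4 F) (kapG F) = Psi (plusForm 4 F) τ := by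
  rw [← map_mul (Psi (plusForm 4 F)), ← map_mul (Psi (plusForm 4 F)), aut_kap hτ]

theorem xt_ne {τ : G8 F} (hτ : TriS τ τ τ) (ho : τ ^ 3 = 1) : xt hG τ ≠ (xt hG τ)⁻¹ := fun h =>
  xt_not_mem hG τ (one_aux h (xt_pow_three hG hτ ho) ▸ one_mem _)

theorem th_inv : Psi (plusForm 4 F) (th F * kapG F) * xt hG (tauB F) * (Psi (plusForm 4 F) (th F * kapG F))⁻¹ =
    (xt hG (tauB F))⁻¹ := by
  rw [map_mul (Psi (plusForm 4 F))]
  exact inv_aux (rho_comm hG tri_tauB) (rho_comm hG tri_th) kap_sq (kap_rho_kap hG) (kap_psi tri_tauB) (by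
    rw [← map_inv (Psi (plusForm 4 F)), ← map_mul (Psi (plusForm 4 F)), ← map_mul (Psi (plusForm 4 F)), th_tau])

/-- the vector fixed by the automorphisms of the product in characteristic three -/
theorem exists_three [Finite F] (h3 : (3 : F) = 0) {τ : G8 F} (hτ : TriS τ τ τ)
    (hs : IsSS (plusForm 4 F) (RingEquiv.refl F) 1 τ.1) (ho : τ ^ 3 = 1) :
    ∃ e : V8 F, e ≠ 0 ∧ ∀ g ∈ AutD τ, g e = e := by
  have := Fact.mk Nat.prime_three
  have : CharP F 3 := (CharP.charP_iff_prime_eq_zero Nat.prime_three).2 h3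
  have hi : IsSS (plusForm 4 F) (RingEquiv.refl F) 1 τ⁻¹.1 := by simpa using hs.inv
  have ka : ∀ x y : V8 F, oconj (x + y) = oconj x + oconj y := (kap F).map_add
  have ks : ∀ (c : F) (x : V8 F), oconj (c • x) = c • oconj x := (kap F).map_smul
  have kp : ∀ u v : V8 F, polar (plusForm 4 F) (oconj u) (oconj v) = polar (plusForm 4 F) u v := fun u v =>
    H126.TriRigid.polar_O kap_mem u v
  have a1 : ∀ u u' w, dia τ (u + u') w = dia τ u w + dia τ u' w := fun u u' w => by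
    rw [dia, dia, dia, ka, hi.add, add_omul]
  have a2 : ∀ u w w', dia τ u (w + w') = dia τ u w + dia τ u w' := fun u w w' => by
    rw [dia, dia, dia, ka, hs.add, omul_add]
  have a3 : ∀ (c : F) u, dia τ (c • u) (c • u) = (c * c) • dia τ u u := fun c u => by
    rw [dia, dia, ks, hs.smul, hi.smul, smul_omul, omul_smul, smul_smul]
    rfl
  have cy : ∀ u w z, polar (plusForm 4 F) (dia τ u w) z = polar (plusForm 4 F) (dia τ w z) u := fun u w z => by
    have e1 : τ.1 (τ⁻¹.1 (oconj u)) = oconj u := τ.1.apply_symm_apply _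
    have e2 : τ.1 (τ.1 w) = τ⁻¹.1 w := by
      rw [← mul_eq_one_iff_eq_inv.1 (show τ * τ * τ = 1 by rw [← ho, pow_three'])]
      rfl
    have e3 := hs.polar (τ⁻¹.1 (oconj u)) (omul z (τ.1 w))
    rw [one_mul, RingEquiv.refl_apply, e1, hτ, e2] at e3
    rw [dia, polar_omul, aut_oconj hτ w, oconj_oconj, ← e3, ← kp, oconj_oconj, oconj_omul, polar_comm, dia,
      aut_oconj hτ, aut_oconj hτ.inv]
  let f : V8 F →ₗ[F] F :=
    { toFun := fun u => (frobeniusEquiv F 3).symm (polar (plusForm 4 F) (dia τ u u) u)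
      map_add' := fun u w => by
        rw [← map_add]
        congr 1
        simp only [a1, a2, polar_add_left, polar_add_right]
        linear_combination (polar (plusForm 4 F) (dia τ u u) w + polar (plusForm 4 F) (dia τ w w) u) * h3 - cy u u w -
          cy u u w - cy u w u - cy w w u - cy w w u - cy w u w
      map_smul' := fun c u => by
        rw [RingHom.id_apply, RingEquiv.symm_apply_eq, smul_eq_mul, map_mul, RingEquiv.apply_symm_apply, a3, polar_smul_left,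
          polar_smul_right, frobeniusEquiv_def, smul_eq_mul, smul_eq_mul]
        ring }
  let e : V8 F := Sum.elim (fun i => f (Pi.single (.inr i) 1)) fun i => f (Pi.single (.inl i) 1)
  have he : ∀ u, polar (plusForm 4 F) e u = f u := fun u => by
    conv_rhs => rw [pi_eq_sum_univ' u, map_sum]
    simp only [map_smul, smul_eq_mul, Fintype.sum_sum_type, Fin.sum_univ_four, polar8, e, Sum.elim_inl, Sum.elim_inr]
    ring
  refine ⟨e, fun h => ?_, fun g hg => ?_⟩
  · have h1 := he (one8 F)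
    rw [h, polar_zero_left, eq_comm] at h1
    have h2 : polar (plusForm 4 F) (dia τ (one8 F) (one8 F)) (one8 F) = 0 := (RingEquiv.map_eq_zero_iff _).1 h1
    rw [dia, oconj_one8, aut_one hτ, aut_one hτ.inv, one_omul, polar_self, norm_one8, two_smul] at h2
    exact one_ne_zero (α := F) (by linear_combination h3 - h2)
  · refine sub_eq_zero.1 (ClassicalGeometry.Triality.nondeg8 _ fun y => ?_)
    obtain ⟨u, rfl⟩ := g.surjective y
    rw [polar_sub_left, H126.TriRigid.polar_O (E_le_O hg.1), he, he, sub_eq_zero]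
    exact congrArg (frobeniusEquiv F 3).symm (by rw [← hg.2, H126.TriRigid.polar_O (E_le_O hg.1)])

theorem fix_one {g : V8 F ≃ₗ[F] V8 F} (hg : g ∈ AutD (1 : G8 F)) : g (one8 F) = one8 F := by
  have h1 := dia_one_aut hg.2 (one8 F) (one8 F)
  rw [one_omul] at h1
  refine omul_left_cancel (a := g (one8 F)) ?_ (by rw [← h1, omul_one])
  rw [E_le_O hg.1 (one8 F), norm_one8]
  exact one_ne_zero

variable [Finite F]

theorem exists_N {τ : G8 F} (hτ : TriS τ τ τ) {y : MulAut (P8 F)} (h : Iw (xt hG τ) y) :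
    ∃ N : G8 F, Iw (xt hG τ) (Psi (plusForm 4 F) N) := by
  obtain ⟨i, N, -, hi⟩ := aut_cases hG y
  exact ⟨_, psi_pow_mul hG τ (rho_comm hG hτ).symm i N ▸ hi ▸ h.mul i⟩

/-- the Okubo case -/
theorem not_B (h3 : (3 : F) ≠ 0) {y : MulAut (P8 F)} (h : Iw (xt hG (tauB F)) y) : False := by
  obtain ⟨N, h1, hf⟩ := exists_N hG tri_tauB h
  obtain ⟨s, hs⟩ := exists_dia hG (N := N * (th F * kapG F)⁻¹) (by
    have h2 := (th_inv hG).trans h1.symm
    rw [map_mul (Psi (plusForm 4 F)), map_inv (Psi (plusForm 4 F))]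
    generalize Psi (plusForm 4 F) (th F * kapG F) = k at h2 ⊢
    generalize Psi (plusForm 4 F) N = n at h1 h2 ⊢
    generalize xt hG (tauB F) = x at h1 h2 ⊢
    have h4 : k⁻¹ * x⁻¹ * k = x := by rw [← h1, ← h2]; group
    calc n * k⁻¹ * x = n * (k⁻¹ * x⁻¹ * k)⁻¹ * k⁻¹ := by group
      _ = (n * x * n⁻¹)⁻¹ * (n * k⁻¹) := by rw [h4]; group
      _ = _ := by rw [h1, inv_inv])
  have h2 : ∀ z, (N * (th F * kapG F)⁻¹).1 ((th F * kapG F).1 z) = N.1 z := fun z =>
    congrArg N.1 ((th F * kapG F).1.symm_apply_apply z)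
  set N' : G8 F := scal (plusForm 4 F) (-s) * N with hN'
  have hNv : ∀ v, N'.1 v = (-s : F) • N.1 v := fun v => rfl
  have hΨ : Psi (plusForm 4 F) N' = Psi (plusForm 4 F) N := by
    rw [hN', map_mul (Psi (plusForm 4 F)), H206.TriCent.Psi_scal_one hG, one_mul]
  have hdia : ∀ u w, N'.1 (dia (tauB F) u w) = (-1 : F) • dia (tauB F) (N'.1 w) (N'.1 u) := fun u w => by
    rw [hNv, hNv, hNv, ← h2, th_dia, hs, h2, h2, dia_smul, smul_smul, smul_smul]
    congr 1
    ring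
  obtain ⟨σ, c, hss⟩ := N'.2
  have hc1 : c = 1 := by
    have e1 := hdia (dia (tauB F) (one8 F) (one8 F)) (one8 F)
    have e2 := dia_smul (1 : F) (-1) (N'.1 (one8 F)) (dia (tauB F) (N'.1 (one8 F)) (N'.1 (one8 F)))
    rw [one_smul] at e2
    rw [dia_dia, hdia, e2, dia_dia', norm_one8, one_smul, hss.form, norm_one8, map_one, smul_smul, smul_smul] at e1
    have e3 : N'.1 (one8 F) ≠ 0 := fun e => by
      have e4 := hss.form (one8 F)
      rw [e, QuadraticMap.map_zero, norm_one8, map_one, mul_one] at e4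
      exact hss.ne e4.symm
    have e4 := smul_left_injective F e3 ((one_smul F _).trans e1)
    linear_combination -e4
  have hrt : ∀ v z, N'.1 (rtF v z) = rtF (N'.1 v) (N'.1 z) := fun v z => by
    rw [rtF, rtF, hss.add, hss.add, hss.sub, hss.smul, hdia, hdia, hss.polar, hc1, one_mul, neg_one_smul, neg_one_smul,
      neg_sub_neg]
  have hdv : ∀ {v : V8 F}, dia (tauB F) v v = 0 → dia (tauB F) (N'.1 v) (N'.1 v) = 0 := fun {v} hv => by
    have e := hdia v v
    rwa [hv, hss.map_zero, neg_one_smul, zero_eq_neg] at e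
  have hfix : ∀ v, dia (tauB F) v v = 0 → N'.1 v = v := by
    intro v hv
    obtain ⟨φ, hφ, hφv⟩ := H989.OkuboRoot.exists_rt h3 hG hv
    obtain ⟨ψ, hψ, hψv⟩ := H989.OkuboRoot.exists_rt h3 hG (hdv hv)
    have h1 : conjLin N' φ = ψ := by
      apply LinearEquiv.ext
      intro z
      obtain ⟨z, rfl⟩ := N'.1.surjective z
      rw [conjLin_apply', hφv, hψv, hrt]
    have h4 := hf _ (mem_Fx.1 ((mem_Fx_xt hG tri_tauB).2 ⟨⟨φ, hφ.1⟩, rfl, hφ⟩))
    rw [← hΨ, Psi_mk] at h4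
    have h5 : (conjE (plusForm 4 F) N' ⟨φ, hφ.1⟩ : ↥(E (plusForm 4 F))) = ⟨ψ, hψ.1⟩ := Subtype.ext h1
    rw [h5] at h4
    have h7 : ψ = φ := congrArg Subtype.val (AutD_unique hG (τ := tauB F) (g := ⟨ψ, hψ.1⟩) (h := ⟨φ, hφ.1⟩) hψ hφ h4)
    exact H989.OkuboRoot.rt_injective h3 (hdv hv) hv fun z => by rw [← hψv, ← hφv, h7]
  have hσ : ∀ t, σ t = t := by
    intro t
    have hv0 : dia (tauB F) (Sum.elim ![0, 1, 1, 1] ![0, 0, 0, 0] : V8 F) (Sum.elim ![0, 1, 1, 1] ![0, 0, 0, 0]) = 0 := by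
      apply ext8 <;> simp [dia_l0, dia_l1, dia_l2, dia_l3, dia_r0, dia_r1, dia_r2, dia_r3]
    have e1 := hfix _ (dia_self_smul hv0 t)
    rw [hss.smul, hfix _ hv0] at e1
    simpa using congrFun e1 (.inl 1)
  have hone : N' = 1 := by
    apply Subtype.ext
    ext1 z
    exact eq_of_delta h3 hss.add (fun c v => by rw [hss.smul, hσ]) hfix z
  rw [← hΨ, hone, map_one, one_mul, inv_one, mul_one] at h1
  exact xt_ne hG tri_tauB tauB_pow_three h1

/-- the field case -/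
theorem not_f {σ : F ≃+* F} (hσ : σ ≠ RingEquiv.refl F) (ho : fG σ ^ 3 = 1) {y : MulAut (P8 F)}
    (h : Iw (xt hG (fG σ)) y) : False := by
  obtain ⟨N, h1, hf⟩ := exists_N hG (tri_fG σ) h
  obtain ⟨c, t, hN⟩ := H126.TriRigid.rigid hG (N := N) fun u w hs hu hw =>
    hf _ (mem_Fx.1 (H206.TriCent.sg_mem_Fx hG hs (hu σ) (hw σ)))
  have c1 : Commute (Psi (plusForm 4 F) (fG t)) (Psi (plusForm 4 F) (fG σ)) := by
    rw [Commute, SemiconjBy, ← map_mul (Psi (plusForm 4 F)), ← map_mul (Psi (plusForm 4 F)),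
      H206.TriCent.fG_comm (H206.TriCent.aut_comm t σ)]
  have c2 : Commute (Psi (plusForm 4 F) (fG t)) (rho hG) := (rho_comm hG (tri_fG t)).symm
  rcases hN with rfl | rfl
  · rw [map_mul (Psi (plusForm 4 F)), H206.TriCent.Psi_scal_one hG, one_mul] at h1
    exact xt_ne hG (tri_fG σ) ho ((c1.mul_right c2).mul_inv_cancel.symm.trans h1)
  · rw [map_mul (Psi (plusForm 4 F)), map_mul (Psi (plusForm 4 F)), H206.TriCent.Psi_scal_one hG, one_mul] at h1
    have h2 : Psi (plusForm 4 F) (fG σ) = Psi (plusForm 4 F) 1 := by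
      rw [map_one]
      refine one_aux ?_ (by rw [← map_pow (Psi (plusForm 4 F)), ho, map_one])
      have k1 := kap_sq (F := F)
      have k2 := kap_rho_kap hG
      have k3 := kap_psi (tri_fG σ)
      have k4 := rho_comm hG (tri_fG σ)
      unfold xt at h1
      generalize Psi (plusForm 4 F) (kapG F) = k at h1 k1 k2 k3
      generalize Psi (plusForm 4 F) (fG t) = n at h1 c1 c2
      generalize Psi (plusForm 4 F) (fG σ) = f at h1 c1 k3 k4 ⊢
      generalize rho hG = r at h1 c2 k2 k4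
      have k5 : k⁻¹ = k := inv_eq_of_mul_eq_one_left k1
      refine mul_right_cancel (b := r⁻¹) ?_
      calc f * r⁻¹ = n * (f * r⁻¹) * n⁻¹ := (c1.mul_right c2.inv_right).mul_inv_cancel.symm
        _ = n * ((k * f * k) * (k⁻¹ * r * k⁻¹)) * n⁻¹ := by rw [k5, k2, k3]
        _ = n * k * (f * r) * (n * k)⁻¹ := by group
        _ = _ := by rw [h1, ← k4, mul_inv_rev]
    obtain ⟨s, hs⟩ := exists_scal hG h2
    have h4 : (1 : F) = s := smul_one_inj ((one_smul F _).trans ((aut_one (tri_fG σ)).symm.trans (hs _)))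
    refine hσ (RingEquiv.ext fun a => smul_one_inj ?_)
    have h5 := hs (a • one8 F)
    rw [← h4, one_smul, show (fG σ).1 (a • one8 F) = _ from (isSS_fP σ).smul a _] at h5
    exact (congrArg (σ a • ·) (aut_one (tri_fG σ))).symm.trans h5

theorem exists_fix {τ : G8 F} (hτ : TriS τ τ τ) (ho : τ ^ 3 = 1) {v : V8 F} (hv0 : v ≠ 0) (hvv : omul v v = 0)
    (hv : τ.1 v = v) {y : MulAut (P8 F)} (h : Iw (xt hG τ) y) : ∃ e : V8 F, e ≠ 0 ∧ ∀ g ∈ AutD τ, g e = e := by
  obtain ⟨σ, c, hs⟩ := τ.2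
  obtain rfl := aut_mult hτ hs
  by_cases hσ : σ = RingEquiv.refl F
  · subst hσ
    by_cases h3 : (3 : F) = 0
    · exact exists_three h3 hτ hs ho
    rcases H161.TriLin.lin_normal h3 hτ ⟨1, hs⟩ ho hv0 hvv hv with rfl | ⟨N, hN, e⟩
    · exact ⟨one8 F, fun e => one_ne_zero (α := F) (by rw [← norm_one8 (F := F), e, QuadraticMap.map_zero]),
        fun g => fix_one⟩
    · have h1 := h.conj (Psi (plusForm 4 F) N)
      rw [xt_conj hG τ hN, e] at h1
      exact (not_B hG h3 h1).elim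
  · obtain ⟨N, hN, e⟩ := H752.SemiNormal.semi_normal hτ hs hσ ho
    have h1 := h.conj (Psi (plusForm 4 F) N)
    rw [xt_conj hG τ hN, e] at h1
    exact (not_f hG hσ (by rw [← e, conj_pow, ho, mul_one, mul_inv_cancel]) h1).elim

theorem main {x y : MulAut (P8 F)} (hx : x ∉ (Psi (plusForm 4 F)).range) (ho : x ^ 3 = 1) (h : Iw x y) :
    ∃ (β : MulAut (P8 F)) (v : V8 F), v ≠ 0 ∧ ∀ (g : P8 F) (a : E (plusForm 4 F)), x g = g → β g = a →
      ∃ c : F, a.1 v = c • v := by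
  have := Fintype.ofFinite F
  have hG : Good (plusForm 4 F) := SB.D4.good8
  have key : ∀ (x α : MulAut (P8 F)) (τ : G8 F), Iw x y → α * x * α⁻¹ = xt hG τ → TriS τ τ τ → τ ^ 3 = 1 →
      (∃ v : V8 F, v ≠ 0 ∧ omul v v = 0 ∧ τ.1 v = v) → ∃ v : V8 F, v ≠ 0 ∧ ∀ (g : P8 F) (a : E (plusForm 4 F)),
        x g = g → α g = a → ∃ c : F, a.1 v = c • v := by
    rintro x α τ h e hτ h3 ⟨v, v0, v1, v2⟩
    obtain ⟨w, w0, hw⟩ := exists_fix hG hτ h3 v0 v1 v2 (e ▸ h.conj α)
    refine ⟨w, w0, fun g a h1 h2 => ?_⟩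
    obtain ⟨b, h4, h5⟩ := (mem_Fx_xt hG hτ (p := a)).1 (mem_Fx.2 (by
      rw [← e, ← h2, MulAut.mul_apply, MulAut.mul_apply, MulAut.inv_apply_self, h1]))
    obtain ⟨c, -, hc⟩ := sign_of_mk_eq hG h4
    exact ⟨c, by rw [hc, hw _ h5]⟩
  obtain ⟨α, τ, hτ, h3, e | e, hv⟩ := H198.TriCls.classify hG hx ho
  · exact ⟨α, key x α τ h e hτ h3 hv⟩
  · obtain ⟨v, v0, h1⟩ := key x⁻¹ α τ h.inv e hτ h3 hv
    exact ⟨α, v, v0, fun g a hg => h1 g a (inv_fix hg)⟩

end PsiB

theorem boxPsi : BoxPsi := fun _ _ _ _ _ ho hx _ h1 h2 => PsiB.main hx ho ⟨h1, h2⟩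

end Cfsg.Agent.N2C.D4
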