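import Cfsg.Agent.N2.Cl.D4.Defs
import Cfsg.Agent.Omega.NO1.Comp.Tens
import Cfsg.Agent.SolvableStructure.HallConverse

/-!
# N2 (S3519), `PΩ₈⁺(q)` with triality: tensor factors and components (helper70)

* `boxQA : BoxQA`, `boxQ : BoxQ`.
-/

set_option autoImplicit false
set_option linter.unusedSectionVars false

namespace Cfsg.Agent.N2C.D4

open QuadraticMap Module Cfsg.Agent.LieClassical.QuadForms Cfsg.Agent.LieClassical.OrthCore
  Cfsg.Agent.LieClassical.OrthTrans Cfsg.Agent.ClassicalGeometry.OrthSemi Cfsg.Agent.ClassicalGeometry.OrthAut1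
  Cfsg.Agent.ClassicalGeometry.TrialityOct Cfsg.Agent.ClassicalGeometry.Triality
  Cfsg.Agent.H989.OutOrth.Basic Cfsg.Agent.H989.OutOrth.Tri Cfsg.Agent.SB.D4
open Cfsg.Agent.Omega.NO1
open scoped Pointwise

namespace QA

/-- the centraliser of a non-scalar endomorphism of a plane -/
theorem plane {K W : Type} [Field K] [AddCommGroup W] [Module K W] [Module.Finite K W] (h2 : finrank K W ≤ 2)
    {f g : Module.End K W} (hf : ¬ ∃ k : K, f = k • 1) (hc : ∀ w, g (f w) = f (g w)) :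
    ∃ α β : K, ∀ w, g w = α • w + β • f w := by
  obtain ⟨v, hv⟩ : ∃ v, LinearIndependent K ![v, f v] :=
    by_contra fun h => hf (LinearMap.exists_eq_smul_id_of_forall_notLinearIndependent fun v e => h ⟨v, e⟩)
  have h1 : ∀ w, ∃ α β : K, α • v + β • f v = w := fun w => by
    have h4 : w ∈ Submodule.span K (Set.range ![v, f v]) := by
      rw [hv.span_eq_top_of_card_eq_finrank' (le_antisymm hv.fintype_card_le_finrank (by simpa using h2))]
      trivial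
    rwa [Matrix.range_cons, Matrix.range_cons, Matrix.range_empty, Set.union_empty, Set.singleton_union,
      Submodule.mem_span_pair] at h4
  obtain ⟨α, β, e⟩ := h1 (g v)
  refine ⟨α, β, fun w => ?_⟩
  obtain ⟨a, b, rfl⟩ := h1 w
  simp only [map_add, map_smul, hc, ← e]
  module

theorem cent {K V W W' : Type} [Field K] [AddCommGroup V] [Module K V] [AddCommGroup W] [Module K W] [AddCommGroup W']
    [Module K W'] {L C : Set (Module.End K V)} (D : Comp.Dec L C W W') (h2 : finrank K W ≤ 2) {a b : Module.End K V}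
    (ha : a ∈ L) (hb : b ∈ L) (hn : ¬ ∃ k : K, ∀ v, a v = k • v) (hc : ∀ v, b (a v) = a (b v)) :
    ∃ α β : K, ∀ v, b v = α • v + β • a v := by
  have := D.finL
  have : Module.Finite K W := Module.Finite.of_finite
  obtain ⟨w', hw'⟩ := @exists_ne W' D.neR 0
  obtain ⟨α, β, e⟩ := plane h2 (f := D.ρ a) (g := D.ρ b) (fun ⟨k, hk⟩ => hn ⟨k, fun v =>
    LinearMap.congr_fun (D.ext (f := a) (g := k • LinearMap.id) fun w w' => by
      rw [D.hl a ha, hk, LinearMap.smul_apply, LinearMap.smul_apply, LinearMap.id_apply,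
        ← TensorProduct.smul_tmul', map_smul]
      rfl) v⟩) fun w => D.inj_left hw' (by rw [← D.hl b hb, ← D.hl a ha, hc, D.hl b hb, D.hl a ha])
  refine ⟨α, β, fun v => LinearMap.congr_fun (D.ext (f := b) (g := α • LinearMap.id + β • a) fun w w' => ?_) v⟩
  rw [D.hl b hb, e, LinearMap.add_apply, LinearMap.smul_apply, LinearMap.smul_apply, LinearMap.id_apply, D.hl a ha,
    TensorProduct.add_tmul, map_add, ← TensorProduct.smul_tmul', ← TensorProduct.smul_tmul', map_smul, map_smul]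

variable {F : Type} [Field F]

/-- the underlying linear maps -/
def im (S : Subgroup (E8 F)) : Set (Module.End F (V8 F)) := (fun a : E8 F => a.1.toLinearMap) '' S

theorem q2 {W W' : Type} [AddCommGroup W] [Module F W] [AddCommGroup W'] [Module F W'] {S : Subgroup (E8 F)}
    {C : Set (Module.End F (V8 F))} (D : Comp.Dec (im S) C W W') (h2 : finrank F W ≤ 2) : Q2 S := by
  have h1 : ∀ a ∈ S, (¬ ∃ d, Sc a d) → ∀ b ∈ S, a * b = b * a → ∃ α β : F, ∀ v, b.1 v = α • v + β • a.1 v :=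
    fun a ha hn b hb e => cent D h2 ⟨a, ha, rfl⟩ ⟨b, hb, rfl⟩ hn fun v => (congrArg (fun g : E8 F => g.1 v) e).symm
  refine ⟨fun a ha => ?_, fun a ha hn b hb c hc e e' => ?_⟩
  · by_cases hn : ∃ d, Sc a d
    · obtain ⟨d, hd⟩ := hn
      exact ⟨d, 0, fun x => by rw [hd, zero_smul, sub_zero]⟩
    · obtain ⟨α, β, e⟩ := h1 a ha hn (a * a) (S.mul_mem ha ha) (mul_assoc _ _ _).symm
      exact ⟨β, -α, fun x => (e x).trans (by module)⟩
  · obtain ⟨α, β, k⟩ := h1 a ha hn b hb e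
    obtain ⟨α', β', k'⟩ := h1 a ha hn c hc e'
    refine Subtype.ext (LinearEquiv.ext fun v => ?_)
    show b.1 (c.1 v) = c.1 (b.1 v)
    simp only [k, k', map_add, map_smul]
    module

theorem two_of {S S' : Subgroup (E8 F)} (hc : ∀ a ∈ S, ∀ b ∈ S', a * b = b * a) (h : Spn (S ⊔ S')) :
    Comp.Two (im S) (im S') := by
  have h1 : ∀ f, f ∈ Algebra.adjoin F (im S ∪ im S') := fun f => by
    have h2 : f ∈ Submodule.span F (im (S ⊔ S')) := by
      rw [show Submodule.span F (im (S ⊔ S')) = ⊤ from h]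
      trivial
    refine (Submodule.span_le (p := Subalgebra.toSubmodule (Algebra.adjoin F (im S ∪ im S')))).2 ?_ h2
    rintro _ ⟨a, ha, rfl⟩
    rw [SetLike.mem_coe, Subgroup.sup_eq_closure] at ha
    show a.1.toLinearMap ∈ Algebra.adjoin F (im S ∪ im S')
    induction ha using Subgroup.closure_induction'' with
    | mem x hx => exact Algebra.subset_adjoin (hx.imp (fun k => ⟨x, k, rfl⟩) fun k => ⟨x, k, rfl⟩)
    | inv_mem x hx =>
      exact Algebra.subset_adjoin (hx.imp (fun k => ⟨x⁻¹, S.inv_mem k, rfl⟩) fun k => ⟨x⁻¹, S'.inv_mem k, rfl⟩)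
    | one => exact one_mem _
    | mul x y _ _ hx hy => exact mul_mem hx hy
  refine ⟨?_, fun U a1 a2 => or_iff_not_imp_left.2 fun a3 => eq_top_iff.2 fun v _ => ?_, fun f a1 a2 => ?_⟩
  · rintro _ ⟨a, ha, rfl⟩ _ ⟨b, hb, rfl⟩
    exact congrArg (fun g : E8 F => g.1.toLinearMap) (hc a ha b hb)
  · obtain ⟨u, hu, h0⟩ := (Submodule.ne_bot_iff U).1 a3
    obtain ⟨l, hl⟩ := Comp.exists_dual (K := F) h0
    simpa [hl] using Comp.adjoin_inv (fun l hl => hl.elim (a1 l) (a2 l)) _ (h1 (l.smulRight v)) u hu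
  · obtain ⟨l, hl⟩ := Comp.exists_dual (K := F) (e8_ne (F := F))
    refine ⟨l (f (e8 F)), fun v => ?_⟩
    simpa [hl] using LinearMap.congr_fun (Comp.comm_adjoin (fun l hl => hl.elim (a1 l) (a2 l)) _ (h1 (l.smulRight v))) (e8 F)

variable [Fintype F]

theorem q2_or {S S' : Subgroup (E8 F)} (hc : ∀ a ∈ S, ∀ b ∈ S', a * b = b * a) (h : Spn (S ⊔ S')) : Q2 S ∨ Q2 S' := by
  have : Nontrivial (V8 F) := ⟨_, _, e8_ne (F := F)⟩
  obtain ⟨W, W', _, _, _, _, ⟨D⟩⟩ := Comp.exists_dec (two_of hc h)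
  have h1 := D.φ.finrank_eq
  rw [finrank_tensorProduct, finrank8] at h1
  by_cases h2 : finrank F W ≤ 2
  · exact Or.inl (q2 D h2)
  · exact Or.inr (q2 D.symm (by nlinarith))

section grp

variable {G : Type*} [Group G]

theorem perf {S : Subgroup G} (h : IsSimpleGroup S) (h' : ¬ IsMulCommutative S) : ⁅S, S⁆ = S := by
  rcases (inferInstance : (commutator S).Normal).eq_bot_or_eq_top with e | e
  · exact (h' ⟨⟨fun x y => commutatorElement_eq_one_iff_mul_comm.1 (Subgroup.mem_bot.1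
      (e ▸ Subgroup.commutator_mem_commutator (Subgroup.mem_top x) (Subgroup.mem_top y)))⟩⟩).elim
  · rw [← Subgroup.map_subtype_commutator, e, ← MonoidHom.range_eq_map, Subgroup.range_subtype]

/-- the three subgroups lemma -/
theorem comm3 {X Y : Subgroup G} (h : ⁅X, Y⁆ ≤ Subgroup.center G) {a b : G} (ha : a ∈ ⁅X, X⁆) (hb : b ∈ Y) :
    a * b = b * a := by
  have h1 : ⁅⁅X, Y⁆, X⁆ = ⊥ := Subgroup.commutator_eq_bot_iff_le_centralizer.2 (h.trans (Subgroup.center_le_centralizer _))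
  exact (Subgroup.commutator_eq_bot_iff_le_centralizer.1 (Subgroup.commutator_commutator_eq_bot_of_rotate h1
    (by rwa [Subgroup.commutator_comm Y X])) ha b hb).symm

theorem three {H Γ Γ₀ : Subgroup G} (hH : H.index = 3) {ρ α β : G} (h3 : ρ ^ 3 = 1) (hρ : ρ ∉ H) (hα : α ∈ Γ)
    (hβ : β ∈ Γ) (h1 : α * ρ⁻¹ ∈ H) (h2 : β * (ρ * ρ)⁻¹ ∈ H) (hle : ∀ γ ∈ Γ, γ ∈ H → γ ∈ Γ₀)
    (two : ∀ x ∈ Γ, ∀ y ∈ Γ, x ∉ Γ₀ → y ∉ Γ₀ → x * y ∈ Γ₀) : α ∈ Γ₀ ∧ β ∈ Γ₀ := by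
  have a4 : ∀ γ ∈ Γ, γ ∈ H ∨ γ * α⁻¹ ∈ H ∨ γ * β⁻¹ ∈ H := fun γ _ => (three_cosets' hH h3 hρ γ).imp_right fun k =>
    k.imp (fun k => by simpa [mul_assoc] using H.mul_mem k (H.inv_mem h1))
      fun k => by simpa [mul_assoc] using H.mul_mem k (H.inv_mem h2)
  have e : ρ * ρ = ρ⁻¹ := eq_inv_of_mul_eq_one_left (by rw [← h3, pow_three'])
  rw [e, inv_inv] at h2
  have a1 : α ∉ H := fun h => hρ (by simpa using H.mul_mem (H.inv_mem h1) h)
  have a2 : β ∉ H := fun h => hρ (by simpa using H.mul_mem (H.inv_mem h) h2)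
  have a3 : α * β⁻¹ ∉ H := fun h => hρ (H.inv_mem_iff.1 (by
    rw [← e]
    simpa [mul_assoc] using H.mul_mem (H.mul_mem (H.inv_mem h1) h) h2))
  by_cases b1 : α ∈ Γ₀ <;> by_cases b2 : β ∈ Γ₀
  · exact ⟨b1, b2⟩
  · have c := Γ.mul_mem hα hβ
    rcases a4 _ c with k | k | k
    · exact (b2 ((Γ₀.mul_mem_cancel_left b1).1 (hle _ c k))).elim
    · exact (b2 ((Γ₀.mul_mem_cancel_left b1).1 ((Γ₀.mul_mem_cancel_right (Γ₀.inv_mem b1)).1
        (hle _ (Γ.mul_mem c (Γ.inv_mem hα)) k)))).elim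
    · exact (a1 (by simpa using k)).elim
  · have c := Γ.mul_mem hβ hα
    rcases a4 _ c with k | k | k
    · exact (b1 ((Γ₀.mul_mem_cancel_left b2).1 (hle _ c k))).elim
    · exact (a2 (by simpa using k)).elim
    · exact (b1 ((Γ₀.mul_mem_cancel_left b2).1 ((Γ₀.mul_mem_cancel_right (Γ₀.inv_mem b2)).1
        (hle _ (Γ.mul_mem c (Γ.inv_mem hβ)) k)))).elim
  · have c := Γ.mul_mem hα (Γ.inv_mem hβ)
    have c' := two _ hα _ (Γ.inv_mem hβ) b1 fun k => b2 (Γ₀.inv_mem_iff.1 k)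
    rcases a4 _ c with k | k | k
    · exact (a3 k).elim
    · exact (b1 (Γ₀.inv_mem_iff.1 ((Γ₀.mul_mem_cancel_left c').1 (hle _ (Γ.mul_mem c (Γ.inv_mem hα)) k)))).elim
    · exact (b2 (Γ₀.inv_mem_iff.1 ((Γ₀.mul_mem_cancel_left c').1 (hle _ (Γ.mul_mem c (Γ.inv_mem hβ)) k)))).elim

theorem exists_prime {S : Subgroup G} [Finite S] (h : IsSimpleGroup S) (h' : ¬ IsMulCommutative S) (p : ℕ) :
    ∃ r : ℕ, r.Prime ∧ Odd r ∧ r ≠ p ∧ ∃ x ∈ S, x ≠ 1 ∧ x ^ r = 1 := by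
  obtain ⟨r, h1, h2⟩ : ∃ r ∈ (Nat.card S).primeFactors, r ∉ ({2, p} : Finset ℕ) := by_contra fun k =>
    h' ⟨⟨IsSimpleGroup.comm_iff_isSolvable.2 (SolvableStructure.HallConverse.isSolvable_of_no_three_primes
      ((Finset.card_le_card fun r hr => by_contra fun k' => k ⟨r, hr, k'⟩).trans Finset.card_le_two))⟩⟩
  have hr := Nat.prime_of_mem_primeFactors h1
  have := Fact.mk hr
  rw [Finset.mem_insert, Finset.mem_singleton, not_or] at h2
  obtain ⟨x, hx⟩ := exists_prime_orderOf_dvd_card' r (Nat.dvd_of_mem_primeFactors h1)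
  refine ⟨r, hr, hr.odd_of_ne_two h2.1, h2.2, x, x.2, fun e => hr.one_lt.ne' ?_, ?_⟩
  · rw [← hx, Subtype.ext (p := (· ∈ S)) (a2 := 1) e, orderOf_one]
  · rw [← hx, ← Subgroup.coe_pow, pow_orderOf_eq_one, Subgroup.coe_one]

end grp

/-- the preimage -/
abbrev pre (X : Subgroup (G8 F)) : Subgroup (E8 F) := X.comap (QuotientGroup.mk' _)

theorem lf_le (X : Subgroup (G8 F)) : lf X ≤ pre X := Subgroup.commutator_le_self _

theorem lift {S : Subgroup (G8 F)} (h : ⁅S, S⁆ = S) {x : G8 F} (hx : x ∈ S) : ∃ a ∈ lf S, (a : G8 F) = x := by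
  have h1 : (lf S).map (QuotientGroup.mk' _) = S := by
    rw [lf, Subgroup.map_commutator, Subgroup.map_comap_eq_self_of_surjective (QuotientGroup.mk'_surjective _), h]
  exact h1.ge hx

theorem comm {X Y : Subgroup (G8 F)} (h : ∀ x ∈ X, ∀ y ∈ Y, x * y = y * x) : ∀ a ∈ lf X, ∀ b ∈ pre Y, a * b = b * a :=
  fun _ ha _ hb => comm3 (Subgroup.commutator_le.2 fun a ha b hb => (QuotientGroup.eq_one_iff _).1 (by
    show QuotientGroup.mk' _ _ = 1
    rw [map_commutatorElement, commutatorElement_eq_one_iff_mul_comm]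
    exact h _ ha _ hb)) ha hb

theorem qd_mk {a b : E8 F} (e : (a : G8 F) = b) (h : Qd a) : Qd b := by
  obtain ⟨c, hc, k⟩ := mk_eq_iff.1 e
  obtain ⟨t, d, h⟩ := h
  refine ⟨c * t, d, fun x => ?_⟩
  rw [k, k, map_smul, h]
  linear_combination (norm := module) -hc • d • x

theorem qd_conj (M : Gam (Q8 F)) {a : E8 F} (h : Qd a) : Qd (conjE (Q8 F) M a) := by
  obtain ⟨σ, c, hM⟩ := M.2
  obtain ⟨t, d, h⟩ := h
  refine ⟨σ t, σ d, fun x => ?_⟩
  obtain ⟨x, rfl⟩ := M.1.surjective x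
  rw [conjE_apply, conjE_apply, h, hM.sub, hM.smul, hM.smul]

/-- all lifts are quadratic -/
def QT (T : Subgroup (G8 F)) : Prop := ∀ a : E8 F, (a : G8 F) ∈ T → Qd a

theorem qt_of {T : Subgroup (G8 F)} (h : ⁅T, T⁆ = T) (h' : Q2 (lf T)) : QT T := fun _ ha =>
  let ⟨b, hb, e⟩ := lift h ha
  qd_mk e (h'.1 b hb)

theorem qt_psi (M : Gam (Q8 F)) {T : Subgroup (G8 F)} (h : QT T) : QT (T.map (Psi (Q8 F) M).toMonoidHom) := by
  rintro a ⟨x, hx, e⟩
  obtain ⟨b, rfl⟩ := QuotientGroup.mk_surjective x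
  exact qd_mk ((Psi_mk M b).symm.trans e) (qd_conj M (h b hx))

variable {A N : Subgroup (G8 F)} {Γ : Subgroup (MulAut (G8 F))} {M₁ M₂ : Gam (Q8 F)} {𝓣 : Set (Subgroup (G8 F))}

theorem qt_or (h : Cb A Γ M₁ M₂ N 𝓣) (hs : Spn (lf N)) {S : Subgroup (G8 F)} (hS : S ∈ 𝓣) :
    QT S ∨ ∃ T, QT T ∧ ∀ S' ∈ 𝓣, S' = S ∨ S' = T := by
  have hp : ∀ S ∈ 𝓣, ⁅S, S⁆ = S := fun S hS => perf (h.simple S hS).1 (h.simple S hS).2
  have h1 : ∀ x ∈ S, ∀ y ∈ sSup (𝓣 \ {S}), x * y = y * x := fun x hx y hy =>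
    (sSup_le (a := Subgroup.centralizer {x}) (fun T hT z hz => Subgroup.mem_centralizer_singleton_iff.2
      (h.comm T hT.1 S hS hT.2 z hz x hx)) hy) x rfl
  have h2 : lf N ≤ lf S ⊔ pre (sSup (𝓣 \ {S})) := (lf_le N).trans (by
    have h3 : N ≤ (lf S ⊔ pre (sSup (𝓣 \ {S}))).map (QuotientGroup.mk' _) := by
      rw [← h.sup]
      refine sSup_le fun T hT x hx => ?_
      by_cases e : T = S
      · obtain ⟨a, ha, e'⟩ := lift (hp S hS) (e ▸ hx)
        exact ⟨a, Subgroup.mem_sup_left ha, e'⟩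
      · obtain ⟨a, rfl⟩ := QuotientGroup.mk_surjective x
        exact ⟨a, Subgroup.mem_sup_right (le_sSup (s := 𝓣 \ {S}) ⟨hT, e⟩ hx), rfl⟩
    refine (Subgroup.comap_mono h3).trans ?_
    rw [Subgroup.comap_map_eq]
    exact sup_le le_rfl ((Subgroup.ker_le_comap _ _).trans le_sup_right))
  rcases q2_or (comm h1) (eq_top_iff.2 (hs.ge.trans (Submodule.span_mono (Set.image_mono h2)))) with k | k
  · exact Or.inl (qt_of (hp S hS) k)
  have h3 : ∀ T ∈ 𝓣, T ≠ S → pre T ≤ pre (sSup (𝓣 \ {S})) := fun T hT e => Subgroup.comap_mono (le_sSup ⟨hT, e⟩)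
  by_cases h4 : ∃ T ∈ 𝓣, T ≠ S
  swap
  · exact Or.inr ⟨⊥, fun a ha => k.1 a (Subgroup.comap_mono bot_le ha), fun T hT => Or.inl (by_contra fun e => h4 ⟨T, hT, e⟩)⟩
  obtain ⟨T, hT, e⟩ := h4
  refine Or.inr ⟨T, fun a ha => k.1 a (h3 T hT e ha), fun T' hT' => or_iff_not_imp_left.2 fun e' => by_contra fun e'' => ?_⟩
  have := (h.simple T hT).1
  obtain ⟨x, hx⟩ := exists_ne (1 : T)
  obtain ⟨a, ha, a1⟩ := lift (hp T hT) x.2
  refine (h.simple T' hT').2 ⟨⟨fun y z => Subtype.ext ?_⟩⟩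
  obtain ⟨b, b1⟩ := QuotientGroup.mk_surjective y.1
  obtain ⟨c, c1⟩ := QuotientGroup.mk_surjective z.1
  have b2 : b ∈ pre T' := show (b : G8 F) ∈ T' from b1 ▸ y.2
  have c2 : c ∈ pre T' := show (c : G8 F) ∈ T' from c1 ▸ z.2
  have h5 := comm (h.comm T hT T' hT' (Ne.symm e'')) a ha
  have h6 := k.2 a (h3 T hT e (lf_le T ha)) (fun k => hx (Subtype.ext (a1.symm.trans (mk_eq_one_iff.2 k)))) b
    (h3 T' hT' e' b2) c (h3 T' hT' e' c2) (h5 b b2) (h5 c c2)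
  rw [Subgroup.coe_mul, Subgroup.coe_mul, ← b1, ← c1, ← QuotientGroup.mk_mul, h6, QuotientGroup.mk_mul]

theorem exists_qt (h : Cb A Γ M₁ M₂ N 𝓣) (hs : Spn (lf N)) (hn : ¬ IsSimpleGroup N) {α β : MulAut (G8 F)} (hα : α ∈ Γ)
    (hβ : β ∈ Γ) (h1 : Ty1 α M₁) (h2 : Ty2 β M₂) :
    ∃ T ∈ 𝓣, QT T ∧ QT (T.map α.toMonoidHom) ∧ QT (T.map β.toMonoidHom) := by
  by_cases h3 : ∀ S ∈ 𝓣, QT S
  · obtain ⟨T, hT⟩ : 𝓣.Nonempty := Set.nonempty_iff_ne_empty.2 fun e => h.ne (by rw [← h.sup, e, sSup_empty])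
    exact ⟨T, hT, h3 T hT, h3 _ (h.perm α hα T hT), h3 _ (h.perm β hβ T hT)⟩
  push Not at h3
  obtain ⟨S, hS, h3⟩ := h3
  obtain ⟨T, h4, h5⟩ := (qt_or h hs hS).resolve_left h3
  have hT : T ∈ 𝓣 := by_contra fun k => hn (by
    rw [← h.sup, (Set.eq_singleton_iff_unique_mem.2 ⟨hS, fun S' hS' => (h5 S' hS').resolve_right fun e => k (e ▸ hS')⟩ :
      𝓣 = {S}), sSup_singleton]
    exact (h.simple S hS).1)
  obtain ⟨ρ, hρ⟩ := exists_rho (good8 (F := F))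
  have h6 : ∀ σ ∈ Γ, ∀ X ∈ 𝓣, σ • X = S ∨ σ • X = T := fun σ hσ X hX => h5 _ (h.perm σ hσ X hX)
  obtain ⟨a1, a2⟩ := three (Γ₀ := MulAction.stabilizer (MulAut (G8 F)) T) index_three (hρ.cube good8)
    (hρ.not_mem_range good8) hα hβ ⟨M₁, eq_mul_inv_of_mul_eq (MulEquiv.ext fun x => by
      obtain ⟨a, rfl⟩ := QuotientGroup.mk_surjective x
      obtain ⟨b, c, k⟩ := exists_T3 a
      rw [h1 a b c k, MulAut.mul_apply, rho_T3 hρ k, Psi_mk])⟩ ⟨M₂, eq_mul_inv_of_mul_eq (MulEquiv.ext fun x => by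
      obtain ⟨a, rfl⟩ := QuotientGroup.mk_surjective x
      obtain ⟨b, c, k⟩ := exists_T3 a
      rw [h2 a b c k, MulAut.mul_apply, MulAut.mul_apply, rho_T3 hρ k, rho_T3 hρ k.rot, Psi_mk])⟩
    (by
      rintro _ hγ ⟨M, rfl⟩
      exact (h6 _ hγ T hT).resolve_left fun e => h3 (e ▸ qt_psi M h4))
    fun x hx y hy b1 b2 => by
      have b3 := (h6 x hx T hT).resolve_right b1
      have b4 := (h6 y hy T hT).resolve_right b2
      rw [MulAction.mem_stabilizer_iff, mul_smul, b4]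
      exact (h6 x hx S hS).resolve_left fun e => h3 (MulAction.injective x (e.trans b3.symm) ▸ h4)
  exact ⟨T, hT, h4, (show T.map α.toMonoidHom = T from a1).symm ▸ h4, (show T.map β.toMonoidHom = T from a2).symm ▸ h4⟩

end QA

/-- **tensor factors** -/
theorem boxQA : BoxQA := fun _ _ _ _ _ hc _ _ h => QA.q2_or hc h

/-- **the socle is simple** -/
theorem boxQ : BoxQ := by
  intro L F _ _ A Γ M₁ M₂ N 𝓣 h hs
  by_contra hn
  obtain ⟨α, hα, h1⟩ := h.e1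
  obtain ⟨β, hβ, h2⟩ := h.e2
  obtain ⟨T, hT, a1, a2, a3⟩ := QA.exists_qt h hs hn hα hβ h1 h2
  have := finite8 (F := F)
  obtain ⟨r, hr, ho, hp, x, hx, h3, h4⟩ := QA.exists_prime (h.simple T hT).1 (h.simple T hT).2 (ringChar F)
  obtain ⟨a, rfl⟩ := QuotientGroup.mk_surjective x
  obtain ⟨e, he⟩ := mk_eq_one_iff.1 ((QuotientGroup.mk_pow _ a r).trans h4)
  have h5 : ((a ^ (r + 1) : E8 F) : G8 F) = a := by rw [QuotientGroup.mk_pow, pow_succ, h4, one_mul]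
  obtain ⟨b, c, k, hb, hc⟩ := exists_T3_odd ho (odd_lift ho he)
  have h6 := L.lq F _ b c r hr ho (fun k => hp ((Nat.prime_dvd_prime_iff_eq (CharP.char_is_prime F (ringChar F)) hr).1
    ((ringChar.spec F r).1 k)).symm) k (odd_lift ho he) hb hc (a1 _ (h5.symm ▸ hx))
    (conjE_inv_conjE M₁ b ▸ QA.qd_conj M₁⁻¹ (a2 _ ⟨_, h5.symm ▸ hx, h1 _ b c k⟩))
    (conjE_inv_conjE M₂ c ▸ QA.qd_conj M₂⁻¹ (a3 _ ⟨_, h5.symm ▸ hx, h2 _ b c k⟩))
  exact h3 (by rw [← h5, h6, QuotientGroup.mk_one])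

end Cfsg.Agent.N2C.D4
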