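import Cfsg.Agent.N2.Cl.D4.Defs
import Cfsg.Agent.N2.Cl.Sub.Main
import Cfsg.Agent.N2.Cl.Cases.Main
import Cfsg.Agent.N2.Cl.Br.Main
import Cfsg.Agent.SB.Tor.Semi

/-!
# N2 (S3519), `PΩ₈⁺(q)` with triality: `boxSubW`, `boxRes` (helper53)

`io : G8 F →* RingAut (End V)` is the explicit bridge, `ph M` is the conjugation by a semisimilitude.
-/

set_option autoImplicit false
set_option linter.unusedSectionVars false

namespace Cfsg.Agent.N2C.D4

open QuadraticMap Module Cfsg.Agent.LieClassical.QuadForms Cfsg.Agent.LieClassical.OrthCore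
  Cfsg.Agent.LieClassical.OrthTrans Cfsg.Agent.ClassicalGeometry.OrthSemi Cfsg.Agent.ClassicalGeometry.OrthAut1
  Cfsg.Agent.ClassicalGeometry.Triality Cfsg.Agent.SB.D4
open Cfsg.Agent.DS.Cl Cfsg.Agent.DS.Cl.Fwd
open Cfsg.Agent.TH.Cl (KO)

namespace SubW

section ring

open Cfsg.Agent.N2C.Sub Cfsg.Agent.N2C.Cyc

variable {A : Type} [Ring A] [StarRing A] [Finite A] {F : FR A} {φ : RingAut A} {n q : ℕ}

/-- field automorphisms of even orthogonal groups, without context -/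
theorem gc_even (ss : SS A) (hφ : φ ∈ F.Aut) (hl : φ ∉ Lin A) (hp : (orderOf φ).Prime)
    (hz : ∀ z ∈ Subring.center A, star z = z) (T : TyO F n q) (o : 5 * q ^ n.choose 2 ≤ 32 * Nat.card F.S)
    (o' : Even q → 5 * q ^ n.choose 2 ≤ 8 * Nat.card F.S) (hn : 8 ≤ n) (h7 : Even n) : GC F φ := by
  rcases exists_gal ss hφ.1 hl hp with ⟨c, h, g⟩ | ⟨h, -⟩
  swap
  · exact absurd (fun z k => (h z k).trans (hz z k)) hl
  obtain ⟨A0, _, _, _, F0, ι, d⟩ := dn_field ss hφ g h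
  obtain ⟨q0, h3, h4, -, -, t⟩ := d.ty_field (n := n) (q := q) boxTy hφ.1 g h
  replace t := t T
  have h5 : Nat.card (CS F φ) ≤ 4 * q0 ^ n.choose 2 := by
    have := d.card_le
    have := t.iso (by omega)
    rw [← t.L]
    omega
  have h6 := T.c0.symm.trans h4
  subst h6
  obtain ⟨m, rfl⟩ := even_iff_exists_two_mul.1 h7
  refine d.gc_tor g (t.tor h7 (by omega)) h3 ?_
  rcases q0.even_or_odd with h8 | h8
  · exact num_O2 h3 hp.two_le (by omega) (by norm_num) (Nat.pow_le_pow_left h3 4) h5 (o' (h8.pow_of_ne_zero g.pos.ne'))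
  · exact num_O2 h3 hp.two_le (by omega) (by norm_num)
      (le_trans (by norm_num) (Nat.pow_le_pow_left (show 3 ≤ q0 by grind) 4)) h5 o

/-- a form of the ring which is invariant under an irreducible group is star-simple -/
theorem ss_of_gen (ss : SS A) {M : Subgroup (RingAut A)} (hI : Irr M) {B : Subring A} (hs : ∀ x ∈ B, star x ∈ B)
    (hB : Inv M B) (hgen : Subring.closure ((Subring.center A : Set A) ∪ B) = ⊤) : SS (Blk.ofSubring B hs).T := by
  have := ss.nontrivial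
  have := semisimple_of_inv ss hI hs hB
  set B' := Blk.ofSubring B hs
  have : Nontrivial B'.T := ⟨⟨1, 0, fun h1 => one_ne_zero (congrArg B'.val h1)⟩⟩
  refine ss_of_idem fun e hc h3 hee => or_iff_not_imp_left.2 fun h0 => B'.val_inj ?_
  have h1 := ss.isUnit_of_cen (cen_of_comm hgen (B'.mem_center_iff.1 hc)) (congrArg B'.val h3) fun k => h0 (B'.val_inj k)
  exact h1.mul_left_cancel ((congrArg B'.val hee).trans (mul_one _).symm)

end ring

variable {F : Type} [Field F] [Fintype F]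

variable (F) in
/-- the polar form -/
abbrev hh : HF F (V8 F) := orH (Q8 F) (good8 (F := F)).nondeg

/-- units -/
def ps : E8 F →* (hh F).EBˣ := (Cyc.unE (hh F)).symm.toMonoidHom.comp (E (Q8 F)).subtype

theorem ap_ps (a : E8 F) (v : V8 F) : (hh F).ap (ps a) v = a.1 v := rfl

theorem unE_ps (a : E8 F) : Cyc.unE (hh F) (ps a) = a.1 := (Cyc.unE (hh F)).apply_symm_apply _

theorem cj_ps {a : E8 F} : cj _ (ps a) = 1 ↔ (a : G8 F) = 1 := by
  rw [cj_eq_one_iff, mk_eq_one_iff]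
  refine ⟨fun k => SB.Tor.exists_sc _ k, fun ⟨e, k⟩ => ?_⟩
  rw [show (ps a : (hh F).EB) = (hh F).eb (e • 1) from (hh F).ap_ext k]
  exact (hh F).smul_mem_center e

/-- the bridge -/
def io : G8 F →* RingAut (hh F).EB :=
  QuotientGroup.lift _ ((cj _).comp ps) fun a ha => cj_ps.2 ((QuotientGroup.eq_one_iff a).2 ha)

theorem io_mk (a : E8 F) : io (a : G8 F) = cj _ (ps a) := rfl

theorem io_inj : Function.Injective (io (F := F)) := (injective_iff_map_eq_one _).2 fun g hg => by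
  obtain ⟨a, rfl⟩ := QuotientGroup.mk_surjective g
  exact cj_ps.1 hg

theorem exists_ph (M : Gam (Q8 F)) :
    ∃ γ : RingAut (hh F).EB, ∀ a v, (hh F).ap (γ a) (M.1 v) = M.1 ((hh F).ap a v) :=
  let ⟨σ, _, g⟩ := M.2
  ⟨_, (hh F).ap_semiAut M.1 σ g.add g.smul⟩

theorem ph_ext (M : Gam (Q8 F)) {a b : (hh F).EB} (k : ∀ v, (hh F).ap a (M.1 v) = (hh F).ap b (M.1 v)) : a = b :=
  (hh F).ap_ext fun v => by
    obtain ⟨v, rfl⟩ := M.1.surjective v
    exact k v

/-- conjugation by a semisimilitude -/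
noncomputable def ph : Gam (Q8 F) →* RingAut (hh F).EB := MonoidHom.mk' (fun M => (exists_ph M).choose) fun M M' =>
  RingEquiv.ext fun a => ph_ext (M * M') fun v => ((exists_ph (M * M')).choose_spec a v).trans
    (((exists_ph M).choose_spec _ _).trans (congrArg M.1 ((exists_ph M').choose_spec a v))).symm

theorem ap_ph (M : Gam (Q8 F)) (a : (hh F).EB) (v : V8 F) : (hh F).ap (ph M a) (M.1 v) = M.1 ((hh F).ap a v) :=
  (exists_ph M).choose_spec a v

theorem ph_io (M : Gam (Q8 F)) (g : G8 F) : ph M * io g * (ph M)⁻¹ = io (Psi (Q8 F) M g) := by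
  obtain ⟨a, rfl⟩ := QuotientGroup.mk_surjective g
  rw [Psi_mk, io_mk, io_mk, conj_cj]
  exact congrArg _ (Units.ext (ph_ext M fun v => (ap_ph M _ v).trans (conjE_apply M a v).symm))

theorem comm_iff {M : Gam (Q8 F)} {g : G8 F} : io g * ph M = ph M * io g ↔ Psi (Q8 F) M g = g := by
  rw [← io_inj.eq_iff, ← ph_io, mul_inv_eq_iff_eq_mul, eq_comm]

theorem ph_eq_one {M : Gam (Q8 F)} : ph M = 1 ↔ Psi (Q8 F) M = 1 := by
  refine ⟨fun k => MulEquiv.ext fun g => comm_iff.1 (by rw [k, mul_one, one_mul]), fun k => ?_⟩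
  obtain ⟨c, rfl⟩ := (ker_Psi good8).le k
  exact RingEquiv.ext fun a => ph_ext _ fun v => (ap_ph _ a v).trans (map_smul ((hh F).ap a) _ v).symm

variable {R : FR (hh F).EB}

theorem exists_R : ∃ R : FR (hh F).EB, KO (hh F) R (Q8 F) ∧ SS (hh F).EB ∧ R.Span := by
  obtain ⟨R, h1, h2, h3, h4, e, -⟩ := SB.Br.modO F _ (Q8 F) good8
  obtain ⟨e₀⟩ : Nonempty (POmega F (quadFormPlus 4 F) ≃* G8 F) := by
    rw [← LieClassical.OrthForms.coe_plusForm]
    exact ⟨ClassicalGeometry.OrthSemiForms.pomegaEquiv good8⟩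
  have h0 : finrank F (V8 F) = 2 * 4 := by
    rw [Module.finrank_fintype_fun_eq_card, Fintype.card_sum, Fintype.card_fin]
  exact ⟨R, ⟨⟨fun _ => rfl, fun _ _ => rfl, h1, h2⟩, by omega, Or.inr (Or.inl ⟨4, h0, ⟨e.trans e₀.symm⟩,
    LinearEquiv.refl _ _, fun v => congrFun (LieClassical.OrthForms.coe_plusForm 4 F) v⟩)⟩, h3, h4⟩

variable (k : KO (hh F) R (Q8 F))
include k

theorem ps_mem (a : E8 F) : ps a ∈ Cyc.I0 R := (Cyc.mem_I0_O k _).2 (unE_ps a ▸ a.2)

theorem io_mem (g : G8 F) : io g ∈ R.S := by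
  obtain ⟨a, rfl⟩ := QuotientGroup.mk_surjective g
  exact ⟨_, ps_mem k a, rfl⟩

theorem exists_io {γ : RingAut (hh F).EB} (hγ : γ ∈ R.S) : ∃ g, io g = γ := by
  obtain ⟨u, hu, rfl⟩ := hγ
  exact ⟨((⟨_, (Cyc.mem_I0_O k u).1 hu⟩ : E8 F) : G8 F), congrArg (cj _) ((Cyc.unE (hh F)).symm_apply_apply u)⟩

theorem io_surj : Function.Surjective (io.codRestrict R.S (io_mem k)) := fun s =>
  (exists_io k s.2).imp fun _ => Subtype.ext

theorem good_of {H : Subgroup (RingAut (hh F).EB)} {A : Subgroup (G8 F)} (h : ∀ g, io g ∈ H ↔ g ∈ A)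
    (hg : FP3.Good (H.subgroupOf R.S)) : FP3.Good A :=
  (show (H.subgroupOf R.S).comap (io.codRestrict R.S (io_mem k)) = A from Subgroup.ext h) ▸
    (N2.good_comap _ (io_surj k) _).2 hg

theorem aut_iff {γ : RingAut (hh F).EB} {M : V8 F → V8 F} (hs : Function.Surjective M) {σ : F → F} {c : F}
    (h0 : ∀ a v, (hh F).ap (γ a) (M v) = M ((hh F).ap a v))
    (h1 : ∀ u v, polar (Q8 F) (M u) (M v) = c * σ (polar (Q8 F) u v)) :
    γ R.l - R.l ∈ R.L ↔ ∀ v, Q8 F (M v) = c * σ (Q8 F v) := by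
  rw [k.o.2.2.1, mem_Lmin_iff, hs.forall]
  refine forall_congr' fun v => ?_
  have h2 : ∀ v, polar (Q8 F) v ((hh F).ap R.l v) = Q8 F v := k.o.2.2.2
  rw [(hh F).ap_sub, polar_sub_right, h0, h1, h2, h2, sub_eq_zero, eq_comm]

theorem ph_mem (M : Gam (Q8 F)) : ph M ∈ R.Aut := by
  obtain ⟨σ, c, g⟩ := M.2
  refine ⟨?_, (aut_iff k M.1.surjective (ap_ph M) g.polar).2 g.form⟩
  rw [show ph M = (hh F).semiAut M.1 σ g.add g.smul from RingEquiv.ext fun a => ph_ext M fun v =>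
    (ap_ph M a v).trans ((hh F).ap_semiAut M.1 σ g.add g.smul a v).symm]
  exact (hh F).semiAut_mem M.1 σ g.add g.smul g.polar

theorem ph_surj {γ : RingAut (hh F).EB} (hγ : γ ∈ R.Aut) : ∃ M, ph M = γ := by
  obtain ⟨L⟩ := SB.Tor.exists_SL _ hγ.1
  let M : Gam (Q8 F) := ⟨L.g.toEquiv, L.σ, L.μ, L.μ_ne, map_add L.g, L.smul,
    (aut_iff k L.g.surjective L.conj L.form).1 hγ.2⟩
  exact ⟨M, RingEquiv.ext fun a => ph_ext M fun v => (ap_ph M a v).trans (L.conj a v).symm⟩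

theorem ps_lft {N : Subgroup (G8 F)} {a : E8 F} (ha : a ∈ lf N) : ps a ∈ lft R (N.map io) := by
  have h1 : (N.comap (QuotientGroup.mk' _)).map ps ≤ (N.map io).comap (cj _) ⊓ R.Iso := by
    rintro _ ⟨b, hb, rfl⟩
    exact ⟨⟨_, hb, rfl⟩, FR.comm_le_Iso (ps_mem k b)⟩
  refine Subgroup.commutator_mono h1 h1 ?_
  rw [← Subgroup.map_commutator]
  exact Subgroup.mem_map_of_mem _ ha

theorem alg_top {N : Subgroup (G8 F)} (h : Spn (lf N)) : Main.alg R (N.map io) = ⊤ := by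
  refine eq_top_iff.2 fun x _ => ?_
  have h1 : (hh F).ap x ∈ Submodule.span F ((fun a : E8 F => a.1.toLinearMap) '' lf N) := h ▸ Submodule.mem_top
  change (hh F).eb ((hh F).ap x) ∈ _
  generalize (hh F).ap x = y at h1
  induction h1 using Submodule.span_induction with
  | mem y hy =>
    obtain ⟨a, ha, rfl⟩ := hy
    have h2 := Cases.lft_le (ps_lft k ha)
    exact Subring.subset_closure (Or.inr ⟨ps a, h2.2, h2.1, rfl⟩)
  | zero => exact Subring.zero_mem _
  | add y z _ _ hy hz => exact Subring.add_mem _ hy hz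
  | smul c y _ hy =>
    rw [(hh F).eb_smul]
    exact Subring.mul_mem _ (Subring.subset_closure (Or.inl ((hh F).smul_mem_center c))) hy

end SubW

open SubW

/-- **[SubW]** -/
theorem boxSubW : BoxSubW := by
  intro F _ _ M hp hl
  obtain ⟨R, k, ss, -⟩ := exists_R (F := F)
  have h0 : finrank F (V8 F) = 8 := by
    rw [Module.finrank_fintype_fun_eq_card, Fintype.card_sum, Fintype.card_fin]
  have h1 : orderOf (ph M) = orderOf (Psi (Q8 F) M) :=
    orderOf_eq_orderOf_iff.2 fun n => by rw [← map_pow, ← map_pow, ph_eq_one]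
  refine good_of k (H := Subgroup.centralizer {ph M}) (fun g => Subgroup.mem_centralizer_singleton_iff.trans comm_iff)
    (gc_even ss (ph_mem k M) (fun h => hl fun c v => ?_) (h1 ▸ hp) (fun z hz => ?_) (Sub.tyO k.o (by omega))
      (Sub.ord_O k).1 (Sub.ord_O k).2 h0.ge (by rw [h0]; decide)).good
  · have h2 := ap_ph M ((hh F).eb (c • 1)) v
    rw [h _ ((hh F).smul_mem_center c)] at h2
    exact h2.symm
  · obtain ⟨c, hc⟩ := SB.Tor.exists_sc _ hz
    rw [show z = (hh F).eb (c • 1) from (hh F).ap_ext hc]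
    exact Cyc.sc_star c

/-- **[Res]** -/
theorem boxRes : BoxRes := by
  intro cf w F _ _ A Γ M₁ M₂ N 𝓣 c hs hN
  obtain ⟨R, k, ss, sp⟩ := exists_R (F := F)
  obtain ⟨p, hp, _⟩ := Br.exists_char F
  have := simple8 (F := F)
  have e := MulEquiv.ofBijective (io.codRestrict R.S (io_mem k)) ⟨fun _ _ h => io_inj (congrArg Subtype.val h), io_surj k⟩
  have e' := N.equivMapOfInjective io io_inj
  have h1 : ¬ IsMulCommutative N := fun h => c.ne (eq_bot_iff.2 fun g hg =>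
    c.cen g fun n hn => congrArg Subtype.val (h.is_comm.comm (⟨n, hn⟩ : N) ⟨g, hg⟩))
  have h2 : ¬ IsMulCommutative (N.map io) := fun h => h1 ⟨⟨fun x y => e'.injective (by
    rw [map_mul, map_mul, h.is_comm.comm])⟩⟩
  have h3 : ∀ B : Subgroup (G8 F), B.map io ≤ R.S := by
    rintro B _ ⟨g, -, rfl⟩
    exact io_mem k g
  by_cases h4 : Cases.A0 R (N.map io) = ⊤
  · refine Or.inl (good_of k (fun g => Subgroup.mem_map_iff_mem io_inj) (w F _ _ R _ (A.map io) (N.map io) p k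
      ⟨cf, ss, sp, e.symm.isSimpleGroup, fun h => noncomm8 (F := F) ⟨⟨fun x y => e.injective (by
        rw [map_mul, map_mul, h.is_comm.comm])⟩⟩, (h3 A).trans R.S_le_Aut, hp, Br.cast_EB _ p, fun h => ?_⟩
      ⟨le_inf (Subgroup.map_mono c.le) (h3 N), ?_, e'.symm.isSimpleGroup, h2, h4, fun _ _ _ => k.o.2.2.1⟩))
    · exact c.mi.ne_top (eq_top_iff.2 fun g _ => (Subgroup.mem_map_iff_mem io_inj).1 (h (io_mem k g)))
    · rintro _ ⟨a, ha, rfl⟩ _ ⟨n, hn, rfl⟩
      exact ⟨_, c.inv _ ((c.mi.conj a).2 ha) n hn, by rw [MulAut.conj_apply, map_mul, map_mul, map_inv]⟩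
  have h5 : N.map io ≤ R.PI := (h3 N).trans R.S_le_PI
  have h6 := perfect_of_simple e'.symm.isSimpleGroup h2
  have h7 := Cases.irr_of_alg (alg_top k hs)
  have h8 := Cases.gen_A0 h5 h6 (alg_top k hs)
  obtain ⟨φ, h9, h10, h11⟩ := Cases.exists_aut ss hp (Br.cast_EB _ p) (ss_of_gen ss h7 Cases.star_A0
    (Cases.inv_A0 (h5.trans R.PI_le_Aut) fun _ hx _ hy => mul_mem (mul_mem hx hy) (inv_mem hx)) h8) h8 h4
  have h12 : ∀ s ∈ N.map io, s * φ = φ * s := fun s hs => by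
    obtain ⟨u, hu, rfl⟩ := Cases.exists_lft h5 h6 hs
    rw [eq_comm, ← mul_inv_eq_iff_eq_mul, conj_cj]
    exact congrArg _ (Units.ext (h11 _ (Cases.mem_A0 hu)))
  obtain ⟨M, rfl⟩ := ph_surj k (Cases.mem_Aut_of_norm ss (h5.trans R.PI_le_Aut) h7 h9 fun s hs => by
    rwa [mul_assoc, h12 s hs, inv_mul_cancel_left])
  exact Or.inr ⟨M, fun h => h10 (ph_eq_one.2 h), fun n hn => comm_iff.1 (h12 _ ⟨n, hn, rfl⟩)⟩

end Cfsg.Agent.N2C.D4
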