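import Cfsg.Agent.N2.Cl.D4.Defs
import Cfsg.Agent.SB.D4.K3

/-!
# N2 (S3519), `PΩ₈⁺(q)` with triality: gradings of the octonions, `boxT44`, `boxSg` (helper51)
-/

set_option autoImplicit false
set_option linter.unusedSectionVars false

namespace Cfsg.Agent.N2C.D4

open QuadraticMap Module Cfsg.Agent.LieClassical.QuadForms Cfsg.Agent.LieClassical.OrthCore
  Cfsg.Agent.LieClassical.OrthTrans Cfsg.Agent.ClassicalGeometry.OrthSemi Cfsg.Agent.ClassicalGeometry.OrthAut1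
  Cfsg.Agent.ClassicalGeometry.TrialityOct Cfsg.Agent.ClassicalGeometry.Triality
  Cfsg.Agent.H989.OutOrth.Basic Cfsg.Agent.H989.OutOrth.Tri Cfsg.Agent.SB.D4

namespace T44

variable {F : Type} [Field F] [Fintype F] {C₁ C₂ C₃ D₂ D₃ C : Submodule F (V8 F)}

/-- the nucleus -/
theorem nuc {g h : V8 F → V8 F} (e : ∀ x y, pm (g x) y = pm x (h y)) : ∃ l : F, (∀ x, g x = l • x) ∧ ∀ y, h y = l • y := by
  have h0 : ∀ u v, omul (oconj (g (oconj u))) v = omul u (oconj (h (oconj v))) := fun u v => by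
    have h1 := e (oconj u) (oconj v)
    rwa [pm, pm, oconj_oconj, oconj_oconj] at h1
  obtain ⟨a, ha⟩ : ∃ a, a = oconj (h (oconj (one8 F))) := ⟨_, rfl⟩
  have h1 : ∀ u, oconj (g (oconj u)) = omul u a := fun u => by rw [ha, ← h0, omul_one]
  have h2 : ∀ v, oconj (h (oconj v)) = omul a v := fun v => by rw [← one_omul (oconj (h _)), ← h0, h1, one_omul]
  have h3 := scalar_of_assoc (c := a) fun x y => by rw [← h1, ← h2, h0]
  refine ⟨a (.inl 0), fun x => ?_, fun y => ?_⟩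
  · have h4 := h1 (oconj x)
    rw [oconj_oconj, h3, omul_smul, omul_one, ← oconj_smul] at h4
    exact (kap F).injective h4
  · have h4 := h2 (oconj y)
    rw [oconj_oconj, h3, smul_omul, one_omul, ← oconj_smul] at h4
    exact (kap F).injective h4

/-- non-degenerate solids -/
def N4 (C : Submodule F (V8 F)) : Prop := finrank F C = 4 ∧ Nd (Q8 F) C

theorem N4.prp (h : N4 C) : N4 (prp (Q8 F) C) := by
  have h1 := finrank_prp nondeg8' C
  rw [finrank8, h.1] at h1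
  exact ⟨by omega, h.2.nd_prp nondeg8'⟩

theorem N4.ns (h : N4 C) : ∃ x ∈ C, Q8 F x ≠ 0 := h.2.exists_nonsing fun e => by
  have h1 := h.1
  rw [e, finrank_bot] at h1
  omega

theorem N4.map (h : N4 C) (a : E8 F) : N4 (C.map a.1.toLinearMap) := ⟨(LinearEquiv.finrank_map_eq a.1 C).trans h.1, by
  rintro _ ⟨x, hx, rfl⟩ e
  rw [h.2 x hx fun y hy => (polar_map (E_le_O a.2) x y).symm.trans (e _ ⟨y, hy, rfl⟩), map_zero]⟩

theorem pj (h : Nd (Q8 F) C) (x : V8 F) : ∃ u ∈ C, x - u ∈ prp (Q8 F) C := by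
  obtain ⟨u, hu, v, hv, rfl⟩ := Submodule.mem_sup.1 (h.sup_prp nondeg8' ▸ Submodule.mem_top (x := x))
  exact ⟨u, hu, by rwa [add_sub_cancel_left]⟩

theorem cmp (h : Nd (Q8 F) C) {u u' v v' : V8 F} (hu : u ∈ C) (hv : v ∈ C) (hu' : u' ∈ prp (Q8 F) C)
    (hv' : v' ∈ prp (Q8 F) C) (e : u + u' = v + v') : u = v :=
  sub_eq_zero.1 (h _ (sub_mem hu hv) (mem_prp.1 ((sub_eq_sub_iff_add_eq_add.2 (e.trans (add_comm _ _))) ▸ sub_mem hv' hu')))

/-- gradings -/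
structure Gr (C₁ C₂ C₃ : Submodule F (V8 F)) : Prop where
  n₁ : N4 C₁
  n₂ : N4 C₂
  n₃ : N4 C₃
  mul : ∀ x ∈ C₂, ∀ y ∈ C₃, pm x y ∈ C₁

theorem Gr.rot (h : Gr C₁ C₂ C₃) : Gr C₂ C₃ C₁ := by
  obtain ⟨w, hw, h0⟩ := h.n₃.ns
  have h1 : C₂.map (pr w) = C₁ := Submodule.eq_of_le_of_finrank_eq (by rintro _ ⟨x, hx, rfl⟩; exact h.mul x hx w hw)
    (by rw [← (Submodule.equivMapOfInjective _ (pr_injective h0) C₂).finrank_eq, h.n₂.1, h.n₁.1])
  refine ⟨h.n₂, h.n₃, h.n₁, fun y hy z hz => ?_⟩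
  obtain ⟨x, hx, rfl⟩ := h1.ge hz
  obtain ⟨x', hx', e⟩ := h1.ge (h.mul x hx y hy)
  have h2 := pm_lin_right y w x
  rw [← e, pr_apply, pm_pm_right] at h2
  rw [pr_apply, eq_sub_of_add_eq h2]
  exact sub_mem (C₂.smul_mem _ hx) (C₂.smul_mem _ hx')

theorem Gr.p₁₃ (h : Gr C₁ C₂ C₃) : Gr (prp (Q8 F) C₁) C₂ (prp (Q8 F) C₃) :=
  ⟨h.n₁.prp, h.n₂, h.n₃.prp, fun x hx y hy => mem_prp.2 fun z hz => by
    rw [polar_comm, ← polar_pm, polar_comm]
    exact mem_prp.1 hy _ (h.rot.rot.mul z hz x hx)⟩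

theorem Gr.p₁₂ (h : Gr C₁ C₂ C₃) : Gr (prp (Q8 F) C₁) (prp (Q8 F) C₂) C₃ := h.rot.p₁₃.rot.rot

theorem Gr.p₂₃ (h : Gr C₁ C₂ C₃) : Gr C₁ (prp (Q8 F) C₂) (prp (Q8 F) C₃) := h.rot.p₁₂.rot.rot

theorem Gr.ts (h : Gr C₁ C₂ C₃) : HasTS (Q8 F) C₁ := by
  obtain ⟨x, hx, hx0, hx1⟩ := LieClassical.OrthFinite.exists_sing_mem (Q := Q8 F) C₂ (by have := h.n₂.1; omega)
  refine hasTS_of_le (U := C₃.map (pl x)) ?_ ?_ ?_
  · rintro _ ⟨y, hy, rfl⟩
    exact h.mul x hx y hy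
  · rintro _ ⟨y, -, rfl⟩
    rw [pl_apply, norm_pm, hx1, zero_mul]
  · have h1 := ((pl x).domRestrict C₃).finrank_range_add_finrank_ker
    rw [LinearMap.range_domRestrict, LinearMap.ker_domRestrict, ← Submodule.finrank_map_subtype_eq,
      Submodule.map_comap_subtype] at h1
    have h3 := h.n₃.2.two_mul_le (U := C₃ ⊓ LinearMap.ker (pl x)) inf_le_left fun y hy z hz =>
      polar_of_ts (fun w hw => by
        have h4 := pm_pm_right w x
        rw [show pm x w = 0 from hw.2, pm_zero] at h4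
        exact (smul_eq_zero.1 h4.symm).resolve_right hx0) hy hz
    have := h.n₃.1
    omega

theorem le_or (hC : Nd (Q8 F) C) {p : V8 F → V8 F} (h1 : ∀ x, p x ∈ C) (h2 : ∀ x, x - p x ∈ prp (Q8 F) C) {l : F}
    (h : ∀ x ∈ D₂, p x = l • x) : D₂ ≤ C ∨ D₂ ≤ prp (Q8 F) C := by
  by_cases h0 : l = 0
  · exact .inr fun x hx => by simpa [h x hx, h0] using h2 x
  · exact .inl fun x hx => (C.smul_mem_iff h0).1 (h x hx ▸ h1 x)

/-- uniqueness -/
theorem Gr.uq (h : Gr C₁ C₂ C₃) (h' : Gr C₁ D₂ D₃) :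
    (D₂ ≤ C₂ ∨ D₂ ≤ prp (Q8 F) C₂) ∧ (C₃ ≤ D₃ ∨ C₃ ≤ prp (Q8 F) D₃) := by
  choose p p1 p2 using pj h.n₂.2
  choose q q1 q2 using pj h'.n₂.2
  choose r r1 r2 using pj h.n₃.2
  choose s s1 s2 using pj h'.n₃.2
  obtain ⟨l, h1, h2⟩ := nuc (g := fun x => p (q x) + (x - q x - p (x - q x)))
    (h := fun y => s (r y) + (y - r y - s (y - r y))) fun x y => by
      obtain ⟨a, a', ha, ha', rfl, e, e'⟩ : ∃ a a', a ∈ D₂ ∧ a' ∈ prp (Q8 F) D₂ ∧ x = a + a' ∧ q x = a ∧ x - q x = a' :=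
        ⟨_, _, q1 x, q2 x, (add_sub_cancel _ _).symm, rfl, rfl⟩
      obtain ⟨b, b', hb, hb', rfl, f, f'⟩ : ∃ b b', b ∈ C₃ ∧ b' ∈ prp (Q8 F) C₃ ∧ y = b + b' ∧ r y = b ∧ y - r y = b' :=
        ⟨_, _, r1 y, r2 y, (add_sub_cancel _ _).symm, rfl, rfl⟩
      rw [e', e, f', f]
      have k1 := cmp h.n₁.2 (h.mul _ (p1 a) _ hb) (h'.mul _ ha _ (s1 b)) (h.p₁₂.mul _ (p2 a) _ hb)
        (h'.p₁₃.mul _ ha _ (s2 b)) (by rw [← add_pm, ← pm_add, add_sub_cancel, add_sub_cancel])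
      have k2 := cmp h.n₁.2 (h.p₂₃.mul _ (p2 a) _ hb') (h'.mul _ ha _ (s1 b')) (h.p₁₃.mul _ (p1 a) _ hb')
        (h'.p₁₃.mul _ ha _ (s2 b')) (by rw [← add_pm, ← pm_add, sub_add_cancel, add_sub_cancel])
      have k3 := cmp h.n₁.2 (h.mul _ (p1 a') _ hb) (h'.p₂₃.mul _ ha' _ (s2 b)) (h.p₁₂.mul _ (p2 a') _ hb)
        (h'.p₁₂.mul _ ha' _ (s1 b)) (by rw [← add_pm, ← pm_add, sub_add_cancel, add_sub_cancel])
      have k4 := cmp h.n₁.2 (h.p₂₃.mul _ (p2 a') _ hb') (h'.p₂₃.mul _ ha' _ (s2 b')) (h.p₁₃.mul _ (p1 a') _ hb')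
        (h'.p₁₂.mul _ ha' _ (s1 b')) (by rw [← add_pm, ← pm_add, sub_add_cancel, sub_add_cancel])
      simp only [add_pm, pm_add, sub_pm, pm_sub] at k2 k3 k4 ⊢
      linear_combination (exp := 1) k1 - k2 - k3 + k4
  have z : ∀ {U : Submodule F (V8 F)} {t : V8 F → V8 F}, Nd (Q8 F) U → (∀ x, t x ∈ U) → (∀ x, x - t x ∈ prp (Q8 F) U) →
      ∀ x ∈ U, t x = x := fun hU t1 t2 x hx => cmp hU (t1 x) hx (t2 x) (zero_mem _) (by rw [add_sub_cancel, add_zero])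
  refine ⟨le_or h.n₂.2 p1 p2 (l := l) fun x hx => ?_, le_or h'.n₃.2 s1 s2 (l := l) fun y hy => ?_⟩
  · rw [← h1, z h'.n₂.2 q1 q2 x hx, sub_self, z h.n₂.2 p1 p2 0 (zero_mem _), sub_self, add_zero]
  · rw [← h2, z h.n₃.2 r1 r2 y hy, sub_self, z h'.n₃.2 s1 s2 0 (zero_mem _), sub_self, add_zero]

/-! ### alternating maps of rank two -/

variable {N N' : Module.End F (V8 F)}

theorem skew (h : ∀ x, polar (Q8 F) (N x) x = 0) (x y : V8 F) : polar (Q8 F) (N x) y = -polar (Q8 F) x (N y) := by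
  have h1 := h (x + y)
  rw [map_add, polar_add_left, polar_add_right, polar_add_right, h, h, polar_comm _ (N y)] at h1
  linear_combination h1

theorem inv_prp (h : ∀ x, polar (Q8 F) (N x) x = 0) (hC : ∀ x ∈ C, N x ∈ C) : ∀ x ∈ prp (Q8 F) C, N x ∈ prp (Q8 F) C :=
  fun x hx => mem_prp.2 fun y hy => by rw [skew h, mem_prp.1 hx _ (hC y hy), neg_zero]

theorem two_le (hN : Nd (Q8 F) C) (h : ∀ x, polar (Q8 F) (N x) x = 0) (hC : ∀ x ∈ C, N x ∈ C) :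
    (∀ x ∈ C, N x = 0) ∨ 2 ≤ finrank F ↥(C ⊓ LinearMap.range N) := by
  refine or_iff_not_imp_left.2 fun h0 => ?_
  push Not at h0
  obtain ⟨x, hx, h0⟩ := h0
  obtain ⟨y, hy, h1⟩ := hN.exists_one (hC x hx) h0
  refine (Fintype.card_fin 2).ge.trans (LinearIndependent.fintype_card_le_finrank
    (b := ![⟨N x, hC x hx, x, rfl⟩, ⟨N y, hC y hy, y, rfl⟩]) (LinearIndependent.pair_iff.2 fun s t e => ?_))
  have e1 : s • N x + t • N y = 0 := congrArg Subtype.val e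
  have e2 := congrArg (polar (Q8 F) · y) e1
  have e3 := congrArg (polar (Q8 F) · x) e1
  simp only [polar_add_left, polar_smul_left, h, h1, skew h y x, polar_comm _ y, polar_zero_left, smul_eq_mul] at e2 e3
  exact ⟨by linear_combination e2, by linear_combination -e3⟩

theorem half (hN : Nd (Q8 F) C) (h : ∀ x, polar (Q8 F) (N x) x = 0) (hC : ∀ x ∈ C, N x ∈ C)
    (hr : finrank F (LinearMap.range N) < 4) : (∀ x ∈ C, N x = 0) ∨ ∀ x ∈ prp (Q8 F) C, N x = 0 := by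
  refine (two_le hN h hC).elim .inl fun h1 => (two_le (hN.nd_prp nondeg8') h (inv_prp h hC)).elim .inr fun h2 => ?_
  have h3 := Submodule.finrank_sup_add_finrank_inf_eq (C ⊓ LinearMap.range N) (prp (Q8 F) C ⊓ LinearMap.range N)
  rw [← inf_inf_distrib_right, hN.inf_prp, bot_inf_eq, finrank_bot] at h3
  have h4 := Submodule.finrank_mono (sup_le (inf_le_right (a := C)) (inf_le_right (a := prp (Q8 F) C) (b := LinearMap.range N)))
  omega

theorem cross (hN : Nd (Q8 F) C) (h : ∀ x, polar (Q8 F) (N x) x = 0) (hC : ∀ x ∈ C, N x ∈ C) (hC' : ∀ x ∈ C, N' x ∈ C)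
    (h1 : ∀ x ∈ C, N x = 0) (h2 : ∀ x ∈ prp (Q8 F) C, N' x = 0) (x : V8 F) : N (N' x) = N' (N x) := by
  obtain ⟨u, hu, hv⟩ := pj hN x
  obtain ⟨v, rfl⟩ : ∃ v, x = u + v := ⟨x - u, (add_sub_cancel _ _).symm⟩
  rw [add_sub_cancel_left] at hv
  rw [map_add, map_add N u, h2 v hv, h1 u hu, add_zero, zero_add, h1 _ (hC' u hu), h2 _ (inv_prp h hC v hv)]

theorem side (hN : Nd (Q8 F) C) (h : ∀ x, polar (Q8 F) (N x) x = 0) (h' : ∀ x, polar (Q8 F) (N' x) x = 0)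
    (hC : ∀ x ∈ C, N x ∈ C) (hC' : ∀ x ∈ C, N' x ∈ C) (hr : finrank F (LinearMap.range N) < 4)
    (hr' : finrank F (LinearMap.range N') < 4) (hn : ¬ ∀ x, N (N' x) = N' (N x)) :
    ∃ D, (D = C ∨ D = prp (Q8 F) C) ∧ ∀ x ∈ D, N x = 0 ∧ N' x = 0 := by
  rcases half hN h hC hr with h1 | h1 <;> rcases half hN h' hC' hr' with h2 | h2
  · exact ⟨_, .inl rfl, fun x hx => ⟨h1 x hx, h2 x hx⟩⟩
  · exact absurd (cross hN h hC hC' h1 h2) hn
  · exact absurd (fun x => (cross hN h' hC' hC h2 h1 x).symm) hn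
  · exact ⟨_, .inr rfl, fun x hx => ⟨h1 x hx, h2 x hx⟩⟩

theorem rank_lt {U W : Submodule F (V8 F)} (hU : finrank F U = 4) (hW : finrank F W = 4) (h1 : LinearMap.range N ≤ U)
    (h2 : LinearMap.range N ≤ W) (h : ¬ U ≤ W) : finrank F (LinearMap.range N) < 4 :=
  not_le.1 fun k => h ((Submodule.eq_of_le_of_finrank_le h1 (hU.trans_le k)).ge.trans h2)

/-- the partners of a long root element -/
theorem part {e e' : V8 F} (he : Q8 F e = 0) (he' : Q8 F e' = 0) (h₁ : polar (Q8 F) e e' = 0) (h0 : e ≠ 0)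
    (hl : ∀ l : F, e' ≠ l • e) {b c : E8 F} (h : T3 ⟨siegel (Q8 F) e e' he h₁, siegel_mem_E he h₁⟩ b c) :
    ∃ (n m : Module.End F (V8 F)) (ε δ : F), ε ≠ 0 ∧ δ ≠ 0 ∧ (∀ x, b.1 x = ε • (x + n x)) ∧ (∀ y, c.1 y = δ • (y + m y)) ∧
      (∀ x, polar (Q8 F) (n x) x = 0) ∧ (∀ y, polar (Q8 F) (m y) y = 0) ∧ finrank F (LinearMap.range n) < 4 ∧
      finrank F (LinearMap.range m) < 4 ∧ ∀ x y, siegel (Q8 F) e e' he h₁ (pm x y) = pm (x + n x) (y + m y) := by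
  have h0' : e' ≠ 0 := by simpa using hl 0
  have hp : ∀ y : V8 F, Q8 F y = 0 → y ≠ 0 → finrank F (LinearMap.range (pl y)) = 4 := fun y hy hy0 => by
    rw [range_pl]
    exact ClassicalGeometry.TrialitySpaces.finrank_leftSp (by rwa [norm_oconj])
      (ClassicalGeometry.TrialitySpaces.oconj_ne_zero hy0)
  have k : ∀ x y, siegel (Q8 F) e e' he h₁ (pm x y) = pm (x + (pr e' ∘ₗ pl e) x) (y + (-(pl e ∘ₗ pr e')) y) := fun x y =>
    (siegel_pm he he' h₁ x y).trans (congrArg _ (sub_eq_add_neg _ _))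
  obtain ⟨ε, hε, k1, k2⟩ := Tr.lin h (f := 1 + pr e' ∘ₗ pl e) (g := 1 + -(pl e ∘ₗ pr e')) k
  refine ⟨pr e' ∘ₗ pl e, -(pl e ∘ₗ pr e'), ε, ε⁻¹, hε, inv_ne_zero hε, k1, k2, fun x => ?_, fun y => ?_, ?_, ?_, k⟩
  · show polar (Q8 F) (pm (pm e x) e') x = 0
    rw [polar_pm, polar_pm, pm_pm_right, polar_smul_right, h₁, smul_zero]
  · show polar (Q8 F) (-pm e (pm y e')) y = 0
    rw [polar_neg_left, polar_pm, pm_pm_left, polar_smul_right, h₁, smul_zero, neg_zero]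
  · refine rank_lt (finrank_pr he' h0') (finrank_pr he h0) (LinearMap.range_comp_le_range _ _) ?_ fun k3 => ?_
    · rintro _ ⟨x, rfl⟩
      have h2 := pm_lin_left e e' x
      rw [h₁, zero_smul] at h2
      exact ⟨-pm e' x, (neg_pm _ _).trans (eq_neg_of_add_eq_zero_left h2).symm⟩
    · obtain ⟨l, k4⟩ := pr_line he h0 he' h0' fun t => k3 ⟨t, rfl⟩
      exact hl l k4
  · refine rank_lt (hp e' he' h0') (hp e he h0) ?_ (by rw [LinearMap.range_neg]; exact LinearMap.range_comp_le_range _ _)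
      fun k3 => ?_
    · rintro _ ⟨x, rfl⟩
      have h2 := pm_lin_right e e' x
      rw [h₁, zero_smul] at h2
      exact ⟨pm x e, eq_neg_of_add_eq_zero_right h2⟩
    · obtain ⟨l, k4⟩ := pl_line he h0 he' h0' fun t => k3 ⟨t, rfl⟩
      exact hl l k4

theorem inv_of {b : E8 F} {ε : F} (hε : ε ≠ 0) (h : ∀ x, b.1 x = ε • (x + N x)) (hb : Kp b C C) : ∀ x ∈ C, N x ∈ C :=
  fun x hx => (add_mem_cancel_left hx).1 ((C.smul_mem_iff hε).1 (h x ▸ hb x hx))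

theorem comm_of {b b' : E8 F} {ε ε' : F} (h : ∀ x, b.1 x = ε • (x + N x)) (h' : ∀ x, b'.1 x = ε' • (x + N' x))
    (e : ∀ x, N (N' x) = N' (N x)) : b * b' = b' * b := e8_ext fun x => by
  rw [e8_mul, e8_mul, h, h', h', h]
  simp only [map_smul, map_add, e]
  module

end T44

open T44 in
theorem boxT44 : BoxT44 := by
  intro F _ _ C₁ C₂ C₃ d₁ d₂ d₃ n₁ n₂ n₃ hm
  have h : Gr C₁ C₂ C₃ := ⟨⟨d₁, n₁⟩, ⟨d₂, n₂⟩, ⟨d₃, n₃⟩, hm⟩
  refine ⟨h.ts, h.p₁₃.ts, fun a b c ht ha => ?_⟩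
  have key : ∀ U, N4 U → Kp a C₁ U → Gr U (C₂.map b.1.toLinearMap) (C₃.map c.1.toLinearMap) := fun U hU k =>
    ⟨hU, h.n₂.map b, h.n₃.map c, by
      rintro _ ⟨x, hx, rfl⟩ _ ⟨y, hy, rfl⟩
      exact ht x y ▸ k _ (hm x hx y hy)⟩
  have k : ∀ (g : E8 F) (U W : Submodule F (V8 F)), U.map g.1.toLinearMap ≤ W → Kp g U W := fun g U W e v hv => e ⟨v, hv, rfl⟩
  rcases ha with ha | ha
  · exact ⟨(h.uq (key _ h.n₁ ha)).1.imp (k _ _ _) (k _ _ _), ((key _ h.n₁ ha).uq h).2.imp (k _ _ _) (k _ _ _)⟩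
  · refine ⟨(h.p₁₃.uq (key _ h.n₁.prp ha)).1.imp (k _ _ _) (k _ _ _), ?_⟩
    have h1 := ((key _ h.n₁.prp ha).uq h.p₁₂).2
    exact h1.imp (k _ _ _) (k _ _ _)

open T44 in
theorem boxSg : BoxSg := by
  intro F _ _ e e' f f' he hf h₁ h₂ b c b' c' C₂ C₃ he' hf' hΔ t t' _ _ n₂ n₃ kb kb' kc kc'
  have he0 : e ≠ 0 := by rintro rfl; simp at hΔ
  have hf0 : f ≠ 0 := by rintro rfl; simp at hΔ
  obtain ⟨n, m, ε, δ, hε, hδ, b1, c1, an, am, rn, rm, k⟩ := part he he' h₁ he0 (by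
    rintro l rfl
    exact hΔ (by simp only [polar_smul_left, smul_eq_mul]; ring)) t
  obtain ⟨n', m', ε', δ', hε', hδ', b1', c1', an', am', rn', rm', k'⟩ := part hf hf' h₂ hf0 (by
    rintro l rfl
    exact hΔ (by simp only [polar_smul_right, smul_eq_mul]; ring)) t'
  have noc : ∀ d : F, ¬ ∀ x, siegel (Q8 F) e e' he h₁ (siegel (Q8 F) f f' hf h₂ x) =
      d • siegel (Q8 F) f f' hf h₂ (siegel (Q8 F) e e' he h₁ x) := fun d h => by
    have h1 := h e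
    have h2 : siegel (Q8 F) e e' he h₁ e = e := by
      rw [siegel_apply, polar_self_of_sing he, polar_comm, h₁]
      simp
    obtain ⟨v, hv⟩ : ∃ v, v = siegel (Q8 F) f f' hf h₂ e := ⟨_, rfl⟩
    have h3 : polar (Q8 F) e v = 0 := by
      simp only [hv, siegel_apply, hf', polar_add_right, polar_sub_right, polar_smul_right, polar_self_of_sing he,
        polar_comm _ f, polar_comm _ f', smul_eq_mul]
      ring
    have h4 : polar (Q8 F) e' v =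
        polar (Q8 F) e f * polar (Q8 F) e' f' - polar (Q8 F) e f' * polar (Q8 F) e' f := by
      simp only [hv, siegel_apply, hf', polar_add_right, polar_sub_right, polar_smul_right, polar_comm _ e' e, h₁,
        polar_comm _ f, polar_comm _ f', smul_eq_mul]
      ring
    rw [h2, ← hv, siegel_apply, h3, h4, zero_smul, mul_zero, zero_smul, add_zero, sub_zero] at h1
    have h5 := congrArg (polar (Q8 F) e') h1
    rw [polar_sub_right, polar_smul_right, polar_smul_right, polar_comm _ e' e, h₁, smul_zero, sub_zero, h4,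
      smul_eq_mul] at h5
    rw [(mul_eq_right₀ hΔ).1 h5.symm, one_smul, sub_eq_self, smul_eq_zero] at h1
    exact h1.elim hΔ he0
  obtain ⟨D₂, d₂, z₂⟩ := side n₂ an an' (inv_of hε b1 kb) (inv_of hε' b1' kb') rn rn' fun h => by
    have h1 := (t'.mul t).rot
    rw [← comm_of b1 b1' h] at h1
    obtain ⟨d, -, -, h2⟩ := h1.unique (t.mul t').rot
    exact noc d h2
  obtain ⟨D₃, d₃, z₃⟩ := side n₃ am am' (inv_of hδ c1 kc) (inv_of hδ' c1' kc') rm rm' fun h => by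
    have h1 := (t'.mul t).rot.rot
    rw [← comm_of c1 c1' h] at h1
    obtain ⟨d, -, h2, -⟩ := h1.unique (t.mul t').rot.rot
    exact noc d h2
  refine ⟨D₂, D₃, d₂, d₃, fun x hx y hy => ?_⟩
  have h1 := k x y
  have h2 := k' x y
  rw [(z₂ x hx).1, (z₃ y hy).1, add_zero, add_zero] at h1
  rw [(z₂ x hx).2, (z₃ y hy).2, add_zero, add_zero] at h2
  generalize pm x y = v at h1 h2
  rw [siegel_apply, he', zero_mul, zero_smul, sub_zero, add_sub_assoc, add_eq_left] at h1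
  rw [siegel_apply, hf', zero_mul, zero_smul, sub_zero, add_sub_assoc, add_eq_left] at h2
  have h3 := congrArg (polar (Q8 F) · f) h1
  have h4 := congrArg (polar (Q8 F) · f') h1
  have h5 := congrArg (polar (Q8 F) e) h2
  have h6 := congrArg (polar (Q8 F) e') h2
  simp only [polar_sub_left, polar_sub_right, polar_smul_left, polar_smul_right, polar_zero_left, polar_zero_right,
    smul_eq_mul] at h3 h4 h5 h6
  refine mem_prp.2 fun w hw => (polar_comm _ _ _).trans ((Submodule.span_le (p := LinearMap.ker ((polarBilin (Q8 F)).flip v))).2 ?_ hw)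
  rintro w (rfl | rfl | rfl | rfl) <;> refine (mul_eq_zero.1 ?_).resolve_right hΔ <;> change polar (Q8 F) w v * _ = 0
  · linear_combination polar (Q8 F) w f * h4 - polar (Q8 F) w f' * h3
  · linear_combination polar (Q8 F) w f * h4 - polar (Q8 F) w f' * h3
  · linear_combination polar (Q8 F) e w * h6 - polar (Q8 F) e' w * h5
  · linear_combination polar (Q8 F) e w * h6 - polar (Q8 F) e' w * h5

end Cfsg.Agent.N2C.D4
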